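import Mathlib

/-!
# The centre of the image of an odd group acting without fixed points on a symplectic space

Either the central image has a non-trivial idempotent, giving two blocks exchanged by a
`2`-group, or it is a field containing a fixed point free isometry of odd prime order.
-/

set_option autoImplicit false
set_option linter.style.haveILetI false
set_option linter.unusedSectionVars false
set_option linter.unusedFintypeInType false

namespace Cfsg.Agent.Char8Extra

open MonoidAlgebra

universe u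

variable {K : Type u} [Group K] [Finite K]

local notation "A[" K "]" => MonoidAlgebra (ZMod 2) K

/-- The antipode of the group algebra. -/
noncomputable def starHom : A[K] →ₐ[ZMod 2] (A[K])ᵐᵒᵖ :=
  lift (ZMod 2) (A[K])ᵐᵒᵖ K
    { toFun := fun g => MulOpposite.op (of (ZMod 2) K g⁻¹)
      map_one' := by rw [inv_one, map_one]; rfl
      map_mul' := fun a b => by rw [mul_inv_rev, map_mul]; rfl }

noncomputable def star' (y : A[K]) : A[K] := (starHom y).unop

theorem star'_mul (x y : A[K]) : star' (x * y) = star' y * star' x := by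
  simp only [star', map_mul, MulOpposite.unop_mul]

theorem star'_add (x y : A[K]) : star' (x + y) = star' x + star' y := by
  simp only [star', map_add, MulOpposite.unop_add]

theorem star'_single (g : K) (r : ZMod 2) : star' (single g r) = single g⁻¹ r := by
  rw [star', starHom, lift_single]
  simp [of_apply, smul_single']

theorem star'_star' (y : A[K]) : star' (star' y) = y := by
  induction y using MonoidAlgebra.induction_linear with
  | zero => simp [star']
  | add x y hx hy => rw [star'_add, star'_add, hx, hy]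
  | single g r => rw [star'_single, star'_single, inv_inv]

theorem coeff_star' (y : A[K]) (g : K) : (star' y).coeff g = y.coeff g⁻¹ := by
  classical
  induction y using MonoidAlgebra.induction_linear with
  | zero => simp [star']
  | add x y hx hy => rw [star'_add, coeff_add, coeff_add, Finsupp.add_apply, Finsupp.add_apply, hx, hy]
  | single h r =>
    rw [star'_single, coeff_single, coeff_single, Finsupp.single_apply, Finsupp.single_apply]
    exact if_congr (by rw [inv_eq_iff_eq_inv]) rfl rfl

/-- Commuting with all group elements. -/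
def IsCentralElt (y : A[K]) : Prop := ∀ g : K, single g (1 : ZMod 2) * y = y * single g 1

theorem IsCentralElt.commute {y : A[K]} (hy : IsCentralElt y) (x : A[K]) : x * y = y * x := by
  induction x using MonoidAlgebra.induction_linear with
  | zero => simp
  | add a b ha hb => rw [add_mul, mul_add, ha, hb]
  | single g r =>
    rw [show (single g r : A[K]) = r • single g 1 by rw [smul_single', mul_one], smul_mul_assoc,
      mul_smul_comm, hy g]

theorem IsCentralElt.mul {x y : A[K]} (hx : IsCentralElt x) (hy : IsCentralElt y) :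
    IsCentralElt (x * y) := fun g => by
  rw [← mul_assoc, hx g, mul_assoc, hy g, mul_assoc]

theorem IsCentralElt.add {x y : A[K]} (hx : IsCentralElt x) (hy : IsCentralElt y) :
    IsCentralElt (x + y) := fun g => by rw [mul_add, add_mul, hx g, hy g]

theorem isCentralElt_zero : IsCentralElt (0 : A[K]) := fun g => by simp

theorem isCentralElt_one : IsCentralElt (1 : A[K]) := fun g => by simp

theorem IsCentralElt.pow {x : A[K]} (hx : IsCentralElt x) : ∀ n : ℕ, IsCentralElt (x ^ n)
  | 0 => by rw [pow_zero]; exact isCentralElt_one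
  | n + 1 => by rw [pow_succ]; exact (IsCentralElt.pow hx n).mul hx

theorem IsCentralElt.star' {y : A[K]} (hy : IsCentralElt y) : IsCentralElt (star' y) := fun g => by
  have h := congrArg Char8Extra.star' (hy g⁻¹)
  rw [star'_mul, star'_mul, star'_single, inv_inv] at h
  exact h.symm

theorem IsCentralElt.coeff_conj {y : A[K]} (hy : IsCentralElt y) (k g : K) :
    y.coeff (k * g * k⁻¹) = y.coeff g := by
  have h := congrArg (fun z : A[K] => z.coeff (k * g)) (hy k)
  simp only [coeff_single_mul_apply, coeff_mul_single_apply, one_mul, mul_one,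
    inv_mul_cancel_left] at h
  exact h.symm

theorem one_add_one_algebra : (1 : A[K]) + 1 = 0 := by
  rw [one_def, ← single_add, show (1 : ZMod 2) + 1 = 0 from rfl, single_zero]

/-- The group algebra has no central nilpotent elements. -/
theorem eq_zero_of_mul_self (hodd : Odd (Nat.card K)) {y : A[K]} (hy : IsCentralElt y)
    (h : y * y = 0) : y = 0 := by
  haveI : NeZero (Nat.card K : ZMod 2) := ⟨by
    rw [Ne, ZMod.natCast_eq_zero_iff_even]; exact Nat.not_even_iff_odd.2 hodd⟩
  obtain ⟨q, hq⟩ := exists_isCompl (Ideal.span {y} : Submodule A[K] A[K])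
  obtain ⟨a, ha, b, hb, hab⟩ := Submodule.mem_sup.1
    (show (1 : A[K]) ∈ Ideal.span {y} ⊔ q by rw [hq.sup_eq_top]; trivial)
  obtain ⟨c, rfl⟩ := Ideal.mem_span_singleton'.1 ha
  have hyb : y * b ∈ Ideal.span {y} ⊓ q :=
    ⟨Ideal.mem_span_singleton'.2 ⟨b, hy.commute b⟩, q.smul_mem y hb⟩
  rw [hq.inf_eq_bot, Submodule.mem_bot] at hyb
  calc y = y * (c * y + b) := by rw [hab, mul_one]
    _ = 0 := by rw [mul_add, hyb, add_zero, ← mul_assoc, ← hy.commute c, mul_assoc, h, mul_zero]

/-- Central elements are periodic. -/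
theorem exists_pow_eq (hodd : Odd (Nat.card K)) {y : A[K]} (hy : IsCentralElt y) :
    ∃ n : ℕ, 2 ≤ n ∧ y ^ n = y := by
  haveI : Finite (A[K]) := Finite.of_injective (fun z : A[K] => (z.coeff : K → ZMod 2))
    fun _ _ h => coeff_injective (DFunLike.coe_injective h)
  obtain ⟨i, j, hij, he⟩ := Finite.exists_ne_map_eq_of_infinite fun i : ℕ => y ^ (i + 1)
  wlog hlt : i < j generalizing i j
  · exact this j i hij.symm he.symm (lt_of_le_of_ne (not_lt.1 hlt) hij.symm)
  obtain ⟨m, rfl⟩ := Nat.exists_eq_add_of_lt hlt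
  refine ⟨m + 2, by omega, ?_⟩
  set z := y ^ (m + 2) - y with hz
  have hzc : IsCentralElt z := fun g => by
    rw [mul_sub, sub_mul, (hy.pow _) g, hy g]
  have h0 : z * y ^ i = 0 := by
    rw [hz, sub_mul, ← pow_add, ← pow_succ', sub_eq_zero]
    have he' : y ^ (i + 1) = y ^ (i + m + 1 + 1) := he
    rw [he', show m + 2 + i = i + m + 1 + 1 by omega]
  have hzy : ∃ w, z = w * y := ⟨y ^ (m + 1) - 1, by rw [hz, sub_mul, ← pow_succ, one_mul]⟩
  obtain ⟨w, hw⟩ := hzy
  have hzero : z ^ (i + 1) = 0 := by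
    have hcomm : Commute w y := hy.commute w
    rw [pow_succ', show z ^ i = y ^ i * w ^ i by rw [hw, hcomm.mul_pow]; exact (hcomm.pow_pow i i).eq,
      ← mul_assoc, h0, zero_mul]
  have hred : ∀ k : ℕ, z ^ (2 ^ k) = 0 → z = 0 := by
    intro k
    induction k with
    | zero => intro hk; simpa using hk
    | succ k ih =>
      intro hk
      refine ih (eq_zero_of_mul_self hodd (hzc.pow _) ?_)
      rw [← pow_add, ← two_mul, ← pow_succ']
      exact hk
  have := hred (i + 1) (pow_eq_zero_of_le (Nat.lt_two_pow_self).le hzero)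
  rwa [hz, sub_eq_zero] at this

/-- The augmentation. -/
noncomputable def aug : A[K] →ₐ[ZMod 2] ZMod 2 := lift (ZMod 2) (ZMod 2) K 1

theorem aug_eq_sum [Fintype K] (y : A[K]) : aug y = ∑ g, y.coeff g := by
  classical
  induction y using MonoidAlgebra.induction_linear with
  | zero => simp
  | add x y hx hy => simp [map_add, hx, hy, Finset.sum_add_distrib]
  | single g r =>
    rw [aug, lift_single, coeff_single]
    simp

/-- A symmetrical element has coefficient at the identity equal to its augmentation. -/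
theorem coeff_one_eq_aug (hodd : Odd (Nat.card K)) {y : A[K]} (hy : star' y = y) :
    y.coeff 1 = aug y := by
  classical
  haveI := Fintype.ofFinite K
  rw [aug_eq_sum, ← Finset.add_sum_erase _ _ (Finset.mem_univ (1 : K)), left_eq_add]
  refine Finset.sum_involution (fun g _ => g⁻¹) (fun g _ => ?_) (fun g hg _ h => ?_)
    (fun g hg => ?_) (fun g _ => inv_inv g)
  · rw [← coeff_star', hy, CharTwo.add_self_eq_zero]
  · have h2 : g ^ 2 = 1 := by
      rw [sq]
      calc g * g = g⁻¹ * g := by rw [h]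
        _ = 1 := inv_mul_cancel g
    have h1 := Nat.eq_one_of_dvd_coprimes ((Nat.coprime_two_right).2 hodd)
      (orderOf_dvd_natCard g) (orderOf_dvd_of_pow_eq_one h2)
    exact Finset.ne_of_mem_erase hg (orderOf_eq_one_iff.1 h1)
  · exact Finset.mem_erase.2 ⟨fun h => Finset.ne_of_mem_erase hg (inv_eq_one.1 h), Finset.mem_univ _⟩

section Module

variable {V : Type u} [AddCommGroup V] [Module (ZMod 2) V] [Finite V]
  (ρ : Representation (ZMod 2) K V) (b : V → V → ℂ)

/-- A sign pairing invariant under the group. -/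
structure Pairing : Prop where
  add_left : ∀ x y z, b (x + y) z = b x z * b y z
  symm : ∀ x y, b x y = b y x
  val : ∀ x y, b x y * b x y = 1
  nondeg : ∀ x, (∀ y, b x y = 1) → x = 0
  inv : ∀ g x y, b (ρ g x) (ρ g y) = b x y

/-- The central image. -/
def Cen (f : Module.End (ZMod 2) V) : Prop :=
  ∃ y : A[K], IsCentralElt y ∧ ρ.asAlgebraHom y = f

variable {ρ b}

theorem Cen.commute {f g : Module.End (ZMod 2) V} (hf : Cen ρ f) (hg : Cen ρ g) : f * g = g * f := by
  obtain ⟨y, hy, rfl⟩ := hf
  obtain ⟨z, hz, rfl⟩ := hg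
  rw [← map_mul, ← map_mul, hy.commute]

theorem Cen.commute_rho {f : Module.End (ZMod 2) V} (hf : Cen ρ f) (g : K) : ρ g * f = f * ρ g := by
  obtain ⟨y, hy, rfl⟩ := hf
  rw [← ρ.asAlgebraHom_single_one g, ← map_mul, ← map_mul, hy g]

theorem Cen.mul {f g : Module.End (ZMod 2) V} (hf : Cen ρ f) (hg : Cen ρ g) : Cen ρ (f * g) := by
  obtain ⟨y, hy, rfl⟩ := hf
  obtain ⟨z, hz, rfl⟩ := hg
  exact ⟨y * z, hy.mul hz, map_mul _ _ _⟩

theorem Cen.add {f g : Module.End (ZMod 2) V} (hf : Cen ρ f) (hg : Cen ρ g) : Cen ρ (f + g) := by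
  obtain ⟨y, hy, rfl⟩ := hf
  obtain ⟨z, hz, rfl⟩ := hg
  exact ⟨y + z, hy.add hz, map_add _ _ _⟩

theorem cen_one : Cen ρ (1 : Module.End (ZMod 2) V) := ⟨1, isCentralElt_one, map_one _⟩

theorem cen_zero : Cen ρ (0 : Module.End (ZMod 2) V) := ⟨0, isCentralElt_zero, map_zero _⟩

theorem Cen.pow {f : Module.End (ZMod 2) V} (hf : Cen ρ f) : ∀ n : ℕ, Cen ρ (f ^ n)
  | 0 => by rw [pow_zero]; exact cen_one
  | n + 1 => by rw [pow_succ]; exact (Cen.pow hf n).mul hf

theorem Cen.exists_pow_eq (hodd : Odd (Nat.card K)) {f : Module.End (ZMod 2) V} (hf : Cen ρ f) :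
    ∃ n : ℕ, 2 ≤ n ∧ f ^ n = f := by
  obtain ⟨y, hy, rfl⟩ := hf
  obtain ⟨n, hn, e⟩ := Char8Extra.exists_pow_eq hodd hy
  exact ⟨n, hn, by rw [← map_pow, e]⟩

theorem Cen.conj {f : Module.End (ZMod 2) V} (hf : Cen ρ f) (σ : K ≃* K)
    (τ τ' : Module.End (ZMod 2) V) (hττ' : τ * τ' = 1) (hτ'τ : τ' * τ = 1)
    (hσ : ∀ g, τ * ρ g * τ' = ρ (σ g)) :
    Cen ρ (τ * f * τ') := by
  obtain ⟨y, hy, rfl⟩ := hf
  refine ⟨domCongr (ZMod 2) (ZMod 2) σ y, fun g => ?_, ?_⟩
  · have := congrArg (domCongr (ZMod 2) (ZMod 2) σ) (hy (σ.symm g))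
    simpa [map_mul] using this
  · clear hy
    induction y using MonoidAlgebra.induction_linear with
    | zero => simp
    | add x y hx hy => simp only [map_add, hx, hy, mul_add, add_mul]
    | single g r =>
      rw [show domCongr (ZMod 2) (ZMod 2) σ (single g r) = single (σ g) r by simp,
        Representation.asAlgebraHom_single, Representation.asAlgebraHom_single, mul_smul_comm,
        smul_mul_assoc, hσ]

theorem Pairing.zero_left (P : Pairing ρ b) (z : V) : b 0 z = 1 := by
  have h := P.add_left 0 0 z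
  rw [add_zero, P.val 0 z] at h
  exact h

theorem Pairing.add_right (P : Pairing ρ b) (x y z : V) : b x (y + z) = b x y * b x z := by
  rw [P.symm, P.add_left, P.symm y x, P.symm z x]

theorem Pairing.zero_right (P : Pairing ρ b) (z : V) : b z 0 = 1 := by
  rw [P.symm, P.zero_left]

/-- The antipode gives the adjoint. -/
theorem Pairing.adjoint (P : Pairing ρ b) (y : A[K]) (u v : V) :
    b (ρ.asAlgebraHom y u) v = b u (ρ.asAlgebraHom (star' y) v) := by
  induction y using MonoidAlgebra.induction_linear with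
  | zero => simp [star', P.zero_left, P.zero_right]
  | add x y hx hy =>
    rw [star'_add, map_add, map_add, LinearMap.add_apply, LinearMap.add_apply, P.add_left, hx, hy,
      P.add_right]
  | single g r =>
    rw [star'_single, Representation.asAlgebraHom_single, Representation.asAlgebraHom_single]
    obtain rfl | rfl : r = 0 ∨ r = 1 := by revert r; decide
    · simp [P.zero_left, P.zero_right]
    · simp only [one_smul]
      conv_lhs => rw [show v = ρ g (ρ g⁻¹ v) by
        rw [← Module.End.mul_apply, ← map_mul, mul_inv_cancel, map_one, Module.End.one_apply]]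
      exact P.inv g u _

/-- A field of central elements contains a non-symmetrical element. -/
theorem Pairing.exists_not_symm (P : Pairing ρ b) (hodd : Odd (Nat.card K))
    (hfix : ∀ v, (∀ g, ρ g v = v) → v = 0) [Nontrivial V]
    (hidem : ∀ e, Cen ρ e → e * e = e → e = 0 ∨ e = 1) :
    ∃ y : A[K], IsCentralElt y ∧ ρ.asAlgebraHom (star' y) ≠ ρ.asAlgebraHom y := by
  classical
  haveI := Fintype.ofFinite K
  haveI : Finite (A[K]) := Finite.of_injective (fun z : A[K] => (z.coeff : K → ZMod 2))
    fun _ _ h => coeff_injective (DFunLike.coe_injective h)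
  haveI := Fintype.ofFinite (A[K])
  by_contra hno
  push Not at hno
  have h10 : (1 : Module.End (ZMod 2) V) ≠ 0 := fun h => by
    obtain ⟨v, hv⟩ := exists_ne (0 : V)
    exact hv (by rw [← Module.End.one_apply (R := ZMod 2) v, h]; rfl)
  -- a minimal central idempotent mapping to the identity
  let I : Finset (A[K]) := Finset.univ.filter fun e =>
    IsCentralElt e ∧ e * e = e ∧ ρ.asAlgebraHom e = 1
  obtain ⟨e, he, hmin⟩ := Finset.exists_min_image I
    (fun e => (Finset.univ.image fun x : A[K] => x * e).card)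
    ⟨1, Finset.mem_filter.2 ⟨Finset.mem_univ _, isCentralElt_one, one_mul 1, map_one _⟩⟩
  obtain ⟨-, hec, hee, he1⟩ := Finset.mem_filter.1 he
  have hbelow : ∀ f, IsCentralElt f → f * f = f → f * e = f → ρ.asAlgebraHom f = 1 → f = e := by
    intro f hfc hff hfe hf1
    have hsub : (Finset.univ.image fun x : A[K] => x * f) ⊆
        Finset.univ.image fun x : A[K] => x * e := by
      intro z hz
      obtain ⟨x, -, rfl⟩ := Finset.mem_image.1 hz
      exact Finset.mem_image.2 ⟨x * f, Finset.mem_univ _, by rw [mul_assoc, hfe]⟩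
    have heq := Finset.eq_of_subset_of_card_le hsub
      (hmin f (Finset.mem_filter.2 ⟨Finset.mem_univ _, hfc, hff, hf1⟩))
    have hmem : e ∈ Finset.univ.image fun x : A[K] => x * f := by
      rw [heq]; exact Finset.mem_image.2 ⟨1, Finset.mem_univ _, one_mul e⟩
    obtain ⟨x, -, hx⟩ := Finset.mem_image.1 hmem
    calc f = f * e := hfe.symm
      _ = e * f := hec.commute f
      _ = x * f * f := by rw [hx]
      _ = e := by rw [mul_assoc, hff, hx]
  -- the block maps injectively
  have hinj : ∀ z, IsCentralElt z → z * e = z → ρ.asAlgebraHom z = 0 → z = 0 := by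
    intro z hzc hze hz0
    obtain ⟨n, hn, hzn⟩ := Char8Extra.exists_pow_eq hodd hzc
    obtain ⟨m, rfl⟩ : ∃ m, n = m + 2 := ⟨n - 2, by omega⟩
    set g := z ^ (m + 1) with hg
    have hgg : g * g = g := by
      rw [hg, ← pow_add, show m + 1 + (m + 1) = m + (m + 2) by omega, pow_add, hzn, ← pow_succ]
    have hge : g * e = g := by rw [hg, pow_succ, mul_assoc, hze]
    have hg0 : ρ.asAlgebraHom g = 0 := by rw [hg, pow_succ, map_mul, hz0, mul_zero]
    have heg : e * g = g := by rw [← (hzc.pow (m + 1)).commute e] at hge; exact hge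
    have h2 : e - g = e := by
      refine hbelow _ (fun k => by rw [mul_sub, sub_mul, hec k, (hzc.pow _) k]) ?_ ?_
        (by rw [map_sub, hg0, he1, sub_zero])
      · rw [sub_mul, mul_sub, mul_sub, hee, hge, hgg, heg]; simp
      · rw [sub_mul, hee, hge]
    have hgz : g = 0 := sub_eq_self.1 h2
    rw [← hzn, show m + 2 = m + 1 + 1 from rfl, pow_succ, ← hg, hgz, zero_mul]
  have hse : star' e = e := by
    have hsc := hec.star'
    have hs1 : ρ.asAlgebraHom (star' e) = 1 := (hno e hec).trans he1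
    have hse' : star' e * star' e = star' e := by rw [← star'_mul, hee]
    have h1 : e * star' e = e := hbelow _ (hec.mul hsc)
      (by rw [mul_assoc, ← mul_assoc (star' e), ← hsc.commute e, mul_assoc e (star' e), hse',
        ← mul_assoc, hee])
      (by rw [mul_assoc, ← hsc.commute e, ← mul_assoc, hee]) (by rw [map_mul, hs1, he1, one_mul])
    have h2 := congrArg star' h1
    rw [star'_mul, star'_star'] at h2
    exact h2.symm.trans h1
  have hsym : ∀ z, IsCentralElt z → star' (z * e) = z * e := by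
    intro z hzc
    rw [star'_mul, hse]
    have hc := hzc.star'
    have hd : IsCentralElt (e * star' z - z * e) := fun k => by
      rw [mul_sub, sub_mul, (hec.mul hc) k, (hzc.mul hec) k]
    refine sub_eq_zero.1 (hinj _ hd ?_ ?_)
    · rw [sub_mul, mul_assoc z e e, hee, mul_assoc e, hec.commute (star' z), ← mul_assoc, hee]
    · rw [map_sub, map_mul, map_mul, he1, one_mul, mul_one, hno z hzc, sub_self]
  -- the augmentation of the block vanishes
  have hsum : ρ.asAlgebraHom (∑ g : K, single g (1 : ZMod 2)) = 0 := by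
    refine LinearMap.ext fun v => hfix _ fun k => ?_
    simp only [map_sum, Representation.asAlgebraHom_single_one, LinearMap.sum_apply]
    refine Fintype.sum_equiv (Equiv.mulLeft k) _ _ fun g => ?_
    rw [Equiv.coe_mulLeft, map_mul, Module.End.mul_apply]
  have haug : aug e = 0 := by
    let S : A[K] := ∑ g : K, single g (1 : ZMod 2)
    have hSc : IsCentralElt S := fun k => by
      simp only [S, Finset.mul_sum, Finset.sum_mul, single_mul_single, mul_one]
      exact Fintype.sum_equiv (MulAut.conj k).toEquiv _ _ fun g => by simp [mul_assoc]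
    have habs : ∀ x : A[K], x * S = aug x • S := by
      intro x
      induction x using MonoidAlgebra.induction_linear with
      | zero => simp
      | add a c ha hc => rw [add_mul, ha, hc, map_add, add_smul]
      | single g r =>
        rw [aug, lift_single, MonoidHom.one_apply]
        simp only [S, Finset.mul_sum, Finset.smul_sum, single_mul_single, smul_single', smul_eq_mul,
          mul_one]
        exact Fintype.sum_equiv (Equiv.mulLeft g) _ _ fun h => by simp
    have h1 := hinj (S * e) (hSc.mul hec) (by rw [mul_assoc, hee])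
      (by rw [map_mul, hsum, zero_mul])
    rw [← hSc.commute e, habs] at h1
    obtain h | h : aug e = 0 ∨ aug e = 1 := by generalize aug e = r; revert r; decide
    · exact h
    · exfalso
      rw [h, one_smul] at h1
      have h2 := congrArg (fun z : A[K] => z.coeff 1) h1
      simp only [S, coeff_sum, Finsupp.finsetSum_apply, coeff_single, coeff_zero,
        Finsupp.coe_zero, Pi.zero_apply] at h2
      rw [Finset.sum_eq_single (1 : K) (fun k _ hk => Finsupp.single_eq_of_ne (by simpa using hk.symm))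
        (fun h => absurd (Finset.mem_univ _) h), Finsupp.single_eq_same] at h2
      exact one_ne_zero h2
  -- every coefficient vanishes
  have hzero : e = 0 := by
    refine coeff_injective (Finsupp.ext fun g => ?_)
    rw [coeff_zero, Finsupp.zero_apply]
    let z : A[K] := ∑ k : K, single (k * g⁻¹ * k⁻¹) (1 : ZMod 2)
    have hzc : IsCentralElt z := fun j => by
      simp only [z, Finset.mul_sum, Finset.sum_mul, single_mul_single, mul_one]
      exact Fintype.sum_equiv (Equiv.mulLeft j) _ _ fun k => by simp [mul_assoc]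
    have h1 : (z * e).coeff 1 = 0 := by
      rw [coeff_one_eq_aug hodd (hsym z hzc), map_mul, haug, mul_zero]
    simp only [z, Finset.sum_mul, coeff_sum, Finsupp.finsetSum_apply, coeff_single_mul_apply,
      one_mul, mul_one] at h1
    rw [Finset.sum_congr rfl (fun k _ => show e.coeff (k * g⁻¹ * k⁻¹)⁻¹ = e.coeff g by
        rw [show (k * g⁻¹ * k⁻¹)⁻¹ = k * g * k⁻¹ by group]; exact hec.coeff_conj k g),
      Finset.sum_const, Finset.card_univ, ← Nat.card_eq_fintype_card, nsmul_eq_mul] at h1
    rw [show ((Nat.card K : ℕ) : ZMod 2) = 1 from (ZMod.natCast_eq_one_iff_odd).2 hodd, one_mul]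
      at h1
    exact h1
  rw [hzero, map_zero] at he1
  exact h10 he1.symm

/-- The field case: an isometry of odd prime order without fixed points, whose powers are stable
under the automorphisms. -/
theorem Pairing.exists_isometry (P : Pairing ρ b) (hodd : Odd (Nat.card K))
    (hfix : ∀ v, (∀ g, ρ g v = v) → v = 0) [Nontrivial V]
    (hidem : ∀ e, Cen ρ e → e * e = e → e = 0 ∨ e = 1) :
    ∃ (l : ℕ) (a : Module.End (ZMod 2) V), l.Prime ∧ Odd l ∧ a ^ l = 1 ∧
      (∀ g, ρ g * a = a * ρ g) ∧ (∀ u v, b (a u) (a v) = b u v) ∧ (∀ v, a v = v → v = 0) ∧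
      ∀ (σ : K ≃* K) (τ τ' : Module.End (ZMod 2) V), τ * τ' = 1 → τ' * τ = 1 →
        (∀ g, τ * ρ g * τ' = ρ (σ g)) → ∃ i : ℕ, τ * a * τ' = a ^ i := by
  classical
  have hfield : ∀ f, Cen ρ f → f ≠ 0 → ∃ g, Cen ρ g ∧ f * g = 1 := by
    intro f hf hf0
    obtain ⟨n, hn, hfn⟩ := hf.exists_pow_eq hodd
    obtain ⟨m, rfl⟩ : ∃ m, n = m + 2 := ⟨n - 2, by omega⟩
    have hid : f ^ (m + 1) * f ^ (m + 1) = f ^ (m + 1) := by
      rw [← pow_add, show m + 1 + (m + 1) = m + (m + 2) by omega, pow_add, hfn, ← pow_succ]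
    rcases hidem _ (hf.pow _) hid with h | h
    · exfalso
      refine hf0 ?_
      rw [← hfn, show m + 2 = m + 1 + 1 from rfl, pow_succ, h, zero_mul]
    · exact ⟨f ^ m, hf.pow m, by rw [← pow_succ', h]⟩
  obtain ⟨y, hy, hne⟩ := P.exists_not_symm hodd hfix hidem
  set c := ρ.asAlgebraHom y with hc
  set c' := ρ.asAlgebraHom (star' y) with hc'
  have hcC : Cen ρ c := ⟨y, hy, rfl⟩
  have hc'C : Cen ρ c' := ⟨_, hy.star', rfl⟩
  have hadj : ∀ u v, b (c u) v = b u (c' v) := P.adjoint y
  have hadj' : ∀ u v, b (c' u) v = b u (c v) := fun u v => by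
    rw [P.symm, ← hadj v u, P.symm]
  have hc0 : c ≠ 0 := by
    intro h0
    refine hne (LinearMap.ext fun v => ?_)
    rw [h0, LinearMap.zero_apply]
    refine P.nondeg _ fun u => ?_
    rw [hadj', h0, LinearMap.zero_apply, P.zero_right]
  obtain ⟨d, hdC, hcd⟩ := hfield c hcC hc0
  obtain ⟨z, hz, hzd⟩ := hdC
  set d' := ρ.asAlgebraHom (star' z) with hd'
  have hdC : Cen ρ d := ⟨z, hz, hzd⟩
  have hd'C : Cen ρ d' := ⟨_, hz.star', rfl⟩
  set a := c' * d with ha
  have haC : Cen ρ a := hc'C.mul hdC
  have hadjd : ∀ u v, b (d u) v = b u (d' v) := fun u v => by rw [← hzd]; exact P.adjoint z u v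
  have haiso : ∀ u v, b (a u) (a v) = b u v := by
    intro u v
    rw [ha, Module.End.mul_apply, Module.End.mul_apply, hadj', ← Module.End.mul_apply c c',
      hcC.commute hc'C, Module.End.mul_apply, ← Module.End.mul_apply c d v, hcd,
      Module.End.one_apply, ← hadj, ← Module.End.mul_apply c d u, hcd, Module.End.one_apply]
  have ha1 : a ≠ 1 := by
    intro h
    refine hne ?_
    calc c' = c' * (c * d) := by rw [hcd, mul_one]
      _ = c * (c' * d) := by rw [← mul_assoc, hc'C.commute hcC, mul_assoc]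
      _ = c := by rw [← ha, h, mul_one]
  -- the finite order
  obtain ⟨n, hn, han⟩ := haC.exists_pow_eq hodd
  have ha0 : a ≠ 0 := by
    intro h0
    obtain ⟨u, hu⟩ := exists_ne (0 : V)
    refine hu (P.nondeg u fun v => ?_)
    rw [← haiso u v, h0, LinearMap.zero_apply, LinearMap.zero_apply, P.zero_left]
  obtain ⟨a', ha'C, haa'⟩ := hfield a haC ha0
  obtain ⟨m, rfl⟩ : ∃ m, n = m + 2 := ⟨n - 2, by omega⟩
  have hapow : a ^ (m + 1) = 1 := by
    have := congrArg (fun x => x * a') han
    simpa [pow_succ, mul_assoc, haa'] using this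
  have hord : IsOfFinOrder a := isOfFinOrder_iff_pow_eq_one.2 ⟨m + 1, by omega, hapow⟩
  have hoa : orderOf a ≠ 1 := fun h => ha1 (orderOf_eq_one_iff.1 h)
  obtain ⟨l, hl, hdvd⟩ := Nat.exists_prime_and_dvd hoa
  obtain ⟨k, hk⟩ := hdvd
  set A := a ^ k with hA
  have hAl : A ^ l = 1 := by rw [hA, ← pow_mul, mul_comm, ← hk, pow_orderOf_eq_one]
  have hA1 : A ≠ 1 := by
    intro h
    have h2 := orderOf_dvd_of_pow_eq_one h
    have hpos := hord.orderOf_pos
    have hk0 : 0 < k := by
      rcases Nat.eq_zero_or_pos k with h0 | h0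
      · rw [h0, mul_zero] at hk; omega
      · exact h0
    have := Nat.le_of_dvd hk0 h2
    have := hl.two_le
    nlinarith
  have hAC : Cen ρ A := haC.pow k
  have hchar : ∀ f : Module.End (ZMod 2) V, f + f = 0 := fun f =>
    LinearMap.ext fun v => by
      rw [LinearMap.add_apply, LinearMap.zero_apply, ZModModule.add_self]
  have hfree : ∀ v, A v = v → v = 0 := by
    intro v hv
    have hne0 : A + 1 ≠ 0 := fun h => hA1 (by
      have := congrArg (fun x => x + 1) h
      rwa [add_assoc, hchar, add_zero, zero_add] at this)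
    obtain ⟨g, hgC, hg⟩ := hfield _ (hAC.add cen_one) hne0
    rw [← Module.End.one_apply (R := ZMod 2) v, ← hg, (hAC.add cen_one).commute hgC,
      Module.End.mul_apply, LinearMap.add_apply, hv, Module.End.one_apply, ZModModule.add_self,
      map_zero]
  refine ⟨l, A, hl, ?_, hAl, fun g => hAC.commute_rho g, ?_, hfree, ?_⟩
  · rcases hl.eq_two_or_odd' with rfl | h
    · exfalso
      refine hA1 ?_
      obtain ⟨g, hgC, hg⟩ | h0 : (∃ g, Cen ρ g ∧ (A + 1) * g = 1) ∨ A + 1 = 0 := by
        by_cases h0 : A + 1 = 0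
        · exact Or.inr h0
        · exact Or.inl (hfield _ (hAC.add cen_one) h0)
      · have h2 : (A + 1) * (A + 1) = 0 := by
          rw [mul_add, add_mul, add_mul, ← pow_two, hAl]
          simp only [one_mul, mul_one]
          rw [show (1 : Module.End (ZMod 2) V) + A + (A + 1) = (1 + 1) + (A + A) by abel, hchar,
            hchar, add_zero]
        have : A + 1 = 0 := by
          calc A + 1 = (A + 1) * ((A + 1) * g) := by rw [hg, mul_one]
            _ = 0 := by rw [← mul_assoc, h2, zero_mul]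
        have h3 := congrArg (fun x => x + 1) this
        rwa [add_assoc, hchar, add_zero, zero_add] at h3
      · have h3 := congrArg (fun x => x + 1) h0
        rwa [add_assoc, hchar, add_zero, zero_add] at h3
    · exact h
  · have hpowiso : ∀ f : Module.End (ZMod 2) V, (∀ u v, b (f u) (f v) = b u v) →
        ∀ (j : ℕ) u v, b ((f ^ j) u) ((f ^ j) v) = b u v := by
      intro f hf j
      induction j with
      | zero => intro u v; rw [pow_zero]; rfl
      | succ j ih => intro u v; rw [pow_succ, Module.End.mul_apply, Module.End.mul_apply, ih, hf]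
    exact hpowiso a haiso k
  · intro σ τ τ' h1 h2 h3
    let R : Subring (Module.End (ZMod 2) V) :=
      { carrier := {f | Cen ρ f}
        mul_mem' := Cen.mul
        one_mem' := cen_one
        add_mem' := Cen.add
        zero_mem' := cen_zero
        neg_mem' := fun {f} hf => by
          show Cen ρ (-f)
          rw [show -f = f from neg_eq_of_add_eq_zero_left (hchar f)]; exact hf }
    letI : CommRing R :=
      { (inferInstance : Ring R) with mul_comm := fun x y => Subtype.ext (x.2.commute y.2) }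
    haveI : NoZeroDivisors R := ⟨fun {x y} h => by
      by_cases hx : x.1 = 0
      · exact Or.inl (Subtype.ext hx)
      · right
        obtain ⟨g, hgC, hg⟩ := hfield x.1 x.2 hx
        refine Subtype.ext ?_
        show y.1 = 0
        rw [← one_mul y.1, ← hg, x.2.commute hgC, mul_assoc, show x.1 * y.1 = 0 from congrArg Subtype.val h,
          mul_zero]⟩
    haveI : Nontrivial R := ⟨⟨⟨A, hAC⟩, 1, fun h => hA1 (congrArg Subtype.val h)⟩⟩
    haveI : IsDomain R := NoZeroDivisors.to_isDomain _
    haveI : Fact l.Prime := ⟨hl⟩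
    haveI : NeZero l := ⟨hl.ne_zero⟩
    let Aq : R := ⟨A, hAC⟩
    have hco : ∀ (x : R) (j : ℕ), (x ^ j).1 = x.1 ^ j := by
      intro x j
      induction j with
      | zero => rw [pow_zero, pow_zero]; rfl
      | succ j ih => rw [pow_succ, pow_succ, ← ih]; rfl
    have hprim : IsPrimitiveRoot Aq l := IsPrimitiveRoot.iff_orderOf.2 (orderOf_eq_prime
      (Subtype.ext ((hco _ _).trans hAl)) fun h => hA1 (congrArg Subtype.val h))
    let Bq : R := ⟨τ * A * τ', hAC.conj σ τ τ' h1 h2 h3⟩
    have hB : ∀ j : ℕ, (τ * A * τ') ^ j = τ * A ^ j * τ' := by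
      intro j
      induction j with
      | zero => rw [pow_zero, pow_zero, mul_one, h1]
      | succ j ih =>
        rw [pow_succ, ih, pow_succ]
        simp only [mul_assoc]
        rw [← mul_assoc τ' τ, h2, one_mul]
    obtain ⟨i, -, hi⟩ := hprim.eq_pow_of_pow_eq_one (ξ := Bq) (Subtype.ext (by
      rw [hco, hB, hAl, mul_one, h1]; rfl))
    exact ⟨i, by rw [← show (Aq ^ i).1 = τ * A * τ' from congrArg Subtype.val hi, hco]⟩

end Module

/-- A proper subgroup of a finite `2`-group lies in a normal subgroup of index two. -/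
theorem exists_index_two {G : Type*} [Group G] [Finite G] (hG : IsPGroup 2 G) {S : Subgroup G}
    (hS : S ≠ ⊤) : ∃ T₁ : Subgroup G, S ≤ T₁ ∧ T₁.Normal ∧ T₁.index = 2 := by
  haveI : Fact (Nat.Prime 2) := ⟨Nat.prime_two⟩
  obtain ⟨n, hn⟩ := IsPGroup.iff_card.1 hG
  obtain ⟨i, hi⟩ := IsPGroup.iff_card.1 (hG.to_subgroup S)
  have hlt : i < n := by
    have h1 := Subgroup.card_subgroup_dvd_card S
    rw [hi, hn, Nat.pow_dvd_pow_iff_le_right (by norm_num)] at h1
    refine lt_of_le_of_ne h1 fun h => hS (Subgroup.eq_top_of_card_eq S ?_)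
    rw [hi, hn, h]
  obtain ⟨T₁, hT₁, hST⟩ := Sylow.exists_subgroup_card_pow_prime_le 2 (m := n - 1)
    (by rw [hn]; exact pow_dvd_pow 2 (Nat.sub_le n 1)) S hi (by omega)
  have hidx : T₁.index = 2 := by
    have h := T₁.card_mul_index
    rw [hT₁, hn, show (2 : ℕ) ^ n = 2 ^ (n - 1) * 2 by rw [← pow_succ]; congr 1; omega] at h
    exact Nat.eq_of_mul_eq_mul_left (by positivity) h
  exact ⟨T₁, hST, Subgroup.normal_of_index_eq_two hidx, hidx⟩

section Block

variable {V : Type u} [AddCommGroup V] [Module (ZMod 2) V] [Finite V]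
  {ρ : Representation (ZMod 2) K V} {b : V → V → ℂ} {Γ : Type u} [Group Γ] [Finite Γ]

/-- A non-trivial central idempotent gives two blocks exchanged by the `2`-group. -/
theorem Pairing.exists_block (P : Pairing ρ b) (hodd : Odd (Nat.card K)) (hΓ : IsPGroup 2 Γ)
    (τ : Representation (ZMod 2) Γ V) (σ : Γ → (K ≃* K))
    (hσ : ∀ t g, τ t * ρ g * τ t⁻¹ = ρ (σ t g)) (hτb : ∀ t u v, b (τ t u) (τ t v) = b u v)
    (hirr : ∀ W : Submodule (ZMod 2) V, (∀ g, ∀ v ∈ W, ρ g v ∈ W) → (∀ t, ∀ v ∈ W, τ t v ∈ W) →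
      W = ⊥ ∨ W = ⊤)
    {e₀ : Module.End (ZMod 2) V} (he₀ : Cen ρ e₀) (he₀i : e₀ * e₀ = e₀) (he₀0 : e₀ ≠ 0)
    (he₀1 : e₀ ≠ 1) :
    ∃ (T₁ : Subgroup Γ) (t₀ : Γ) (f f' : Module.End (ZMod 2) V), T₁.Normal ∧ T₁.index = 2 ∧
      t₀ ∉ T₁ ∧ f + f' = 1 ∧ f * f = f ∧ f' * f' = f' ∧ f * f' = 0 ∧ f' * f = 0 ∧
      (∀ g, ρ g * f = f * ρ g) ∧ (∀ t ∈ T₁, τ t * f = f * τ t) ∧
      τ t₀ * f = f' * τ t₀ ∧ τ t₀ * f' = f * τ t₀ ∧
      ((∀ u v, b (f u) v = b u (f v)) ∨ (∀ u v, b (f u) v = b u (f' v))) := by
  classical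
  haveI : Finite (Module.End (ZMod 2) V) :=
    Finite.of_injective (fun f : Module.End (ZMod 2) V => (f : V → V)) DFunLike.coe_injective
  haveI := Fintype.ofFinite (Module.End (ZMod 2) V)
  haveI := Fintype.ofFinite Γ
  have hττ : ∀ t : Γ, τ t * τ t⁻¹ = 1 := fun t => by rw [← map_mul, mul_inv_cancel, map_one]
  have hττ' : ∀ t : Γ, τ t⁻¹ * τ t = 1 := fun t => by rw [← map_mul, inv_mul_cancel, map_one]
  let I : Finset (Module.End (ZMod 2) V) :=
    Finset.univ.filter fun e => Cen ρ e ∧ e * e = e ∧ e ≠ 0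
  obtain ⟨e, he, hmin⟩ := Finset.exists_min_image I (fun e => Nat.card (LinearMap.range e))
    ⟨e₀, Finset.mem_filter.2 ⟨Finset.mem_univ _, he₀, he₀i, he₀0⟩⟩
  obtain ⟨-, hec, hee, hene⟩ := Finset.mem_filter.1 he
  have hprim : ∀ g, Cen ρ g → g * g = g → g * e = g → g = 0 ∨ g = e := by
    intro g hgc hgg hge
    by_cases hg0 : g = 0
    · exact Or.inl hg0
    refine Or.inr ?_
    have heg : e * g = g := by rw [hec.commute hgc, hge]
    have hsub : LinearMap.range g ≤ LinearMap.range e := by
      rintro _ ⟨x, rfl⟩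
      exact ⟨g x, by rw [← Module.End.mul_apply, heg]⟩
    have hle : Nat.card (LinearMap.range e) ≤ Nat.card (LinearMap.range g) :=
      hmin g (Finset.mem_filter.2 ⟨Finset.mem_univ _, hgc, hgg, hg0⟩)
    have heq : ((LinearMap.range g : Submodule (ZMod 2) V) : Set V) = LinearMap.range e := by
      refine Set.eq_of_subset_of_ncard_le hsub ?_ (Set.toFinite _)
      rwa [← Nat.card_coe_set_eq, ← Nat.card_coe_set_eq]
    refine LinearMap.ext fun v => ?_
    obtain ⟨x, hx⟩ : e v ∈ LinearMap.range g := by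
      show e v ∈ ((LinearMap.range g : Submodule (ZMod 2) V) : Set V)
      rw [heq]
      exact ⟨v, rfl⟩
    calc g v = g (e v) := by rw [← Module.End.mul_apply, hge]
      _ = g (g x) := by rw [hx]
      _ = g x := by rw [← Module.End.mul_apply, hgg]
      _ = e v := hx
  have he1 : e ≠ 1 := by
    intro h
    rcases hprim e₀ he₀ he₀i (by rw [h, mul_one]) with h' | h'
    · exact he₀0 h'
    · exact he₀1 (h'.trans h)
  let cj : Γ → Module.End (ZMod 2) V → Module.End (ZMod 2) V := fun t f => τ t * f * τ t⁻¹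
  have hcjmul : ∀ t f g, cj t (f * g) = cj t f * cj t g := fun t f g => by
    simp only [cj, mul_assoc]
    rw [← mul_assoc (τ t⁻¹) (τ t), hττ' t, one_mul]
  have hcjcomp : ∀ s t f, cj (s * t) f = cj s (cj t f) := fun s t f => by
    simp only [cj, map_mul, mul_inv_rev, mul_assoc]
  have hcjinv : ∀ t f, cj t⁻¹ (cj t f) = f := fun t f => by
    rw [← hcjcomp, inv_mul_cancel]; simp [cj]
  have hcjcen : ∀ t f, Cen ρ f → Cen ρ (cj t f) := fun t f hf =>
    hf.conj (σ t) _ _ (hττ t) (hττ' t) (hσ t)
  have hcjprim : ∀ t g, Cen ρ g → g * g = g → g * cj t e = g → g = 0 ∨ g = cj t e := by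
    intro t g hgc hgg hge
    have h1 := hprim (cj t⁻¹ g) (hcjcen _ _ hgc) (by rw [← hcjmul, hgg]) (by
      have := congrArg (cj t⁻¹) hge
      rwa [hcjmul, hcjinv] at this)
    have hback : cj t (cj t⁻¹ g) = g := by
      have := hcjinv t⁻¹ g
      rwa [inv_inv] at this
    rcases h1 with h1 | h1
    · left; rw [← hback, h1]; simp [cj]
    · right; rw [← hback, h1]
  have horth : ∀ s t, cj s e ≠ cj t e → cj s e * cj t e = 0 := by
    intro s t hne
    have hsC := hcjcen s e hec
    have htC := hcjcen t e hec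
    have hs2 : cj s e * cj s e = cj s e := by rw [← hcjmul, hee]
    have ht2 : cj t e * cj t e = cj t e := by rw [← hcjmul, hee]
    have hi : cj s e * cj t e * (cj s e * cj t e) = cj s e * cj t e := by
      rw [mul_assoc, ← mul_assoc (cj t e), htC.commute hsC, mul_assoc (cj s e) (cj t e), ht2,
        ← mul_assoc, hs2]
    rcases hcjprim t _ (hsC.mul htC) hi (by rw [mul_assoc, ht2]) with h1 | h1
    · exact h1
    rcases hcjprim s _ (hsC.mul htC) hi (by
      rw [mul_assoc, htC.commute hsC, ← mul_assoc, hs2]) with h2 | h2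
    · exact h2
    exact absurd (h2.symm.trans h1) hne
  let O : Finset (Module.End (ZMod 2) V) := Finset.univ.image fun t => cj t e
  set Sg := ∑ x ∈ O, x with hSg
  have hidem : ∀ O' : Finset (Module.End (ZMod 2) V), O' ⊆ O →
      (∑ x ∈ O', x) * (∑ x ∈ O', x) = ∑ x ∈ O', x := by
    intro O' hO'
    rw [Finset.sum_mul]
    refine Finset.sum_congr rfl fun x hx => ?_
    obtain ⟨s, -, rfl⟩ := Finset.mem_image.1 (hO' hx)
    rw [Finset.mul_sum, Finset.sum_eq_single (cj s e)]
    · rw [← hcjmul, hee]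
    · intro y hy hne
      obtain ⟨t, -, rfl⟩ := Finset.mem_image.1 (hO' hy)
      exact horth s t hne.symm
    · exact fun h => absurd hx h
  have hOC : ∀ O' : Finset (Module.End (ZMod 2) V), O' ⊆ O → Cen ρ (∑ x ∈ O', x) := by
    intro O' hO'
    refine Finset.sum_induction _ (Cen ρ) (fun _ _ => Cen.add) cen_zero fun x hx => ?_
    obtain ⟨t, -, rfl⟩ := Finset.mem_image.1 (hO' hx)
    exact hcjcen t e hec
  have hcjsum : ∀ t (O' : Finset (Module.End (ZMod 2) V)),
      cj t (∑ x ∈ O', x) = ∑ x ∈ O', cj t x := fun t O' => by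
    simp only [cj, Finset.mul_sum, Finset.sum_mul]
  have hinj : ∀ t (O' : Finset (Module.End (ZMod 2) V)), cj t (∑ x ∈ O', x) =
      ∑ x ∈ O'.image (cj t), x := fun t O' => by
    rw [hcjsum, Finset.sum_image fun x _ y _ h => by
      have := congrArg (cj t⁻¹) h
      rwa [hcjinv, hcjinv] at this]
  have hSgc := hOC O subset_rfl
  have hSg1 : Sg = 1 := by
    have hT : ∀ t, cj t Sg = Sg := by
      intro t
      rw [hSg, hinj]
      congr 1
      rw [Finset.image_image]
      ext x
      simp only [Finset.mem_image, O, Function.comp_apply, Finset.mem_univ, true_and]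
      constructor
      · rintro ⟨s, rfl⟩; exact ⟨t * s, hcjcomp t s e⟩
      · rintro ⟨s, rfl⟩; exact ⟨t⁻¹ * s, by rw [← hcjcomp, mul_inv_cancel_left]⟩
    rcases hirr (LinearMap.range Sg) (fun g v hv => by
        obtain ⟨x, rfl⟩ := hv
        exact ⟨ρ g x, by rw [← Module.End.mul_apply, ← hSgc.commute_rho, Module.End.mul_apply]⟩)
      (fun t v hv => by
        obtain ⟨x, rfl⟩ := hv
        refine ⟨τ t x, ?_⟩
        have := hT t
        simp only [cj] at this
        rw [← Module.End.mul_apply, ← Module.End.mul_apply]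
        congr 1
        calc Sg * τ t = τ t * Sg * τ t⁻¹ * τ t := by rw [this]
          _ = τ t * Sg := by rw [mul_assoc, hττ', mul_one]) with h | h
    · exfalso
      apply hene
      have h0 : Sg = 0 := LinearMap.range_eq_bot.1 h
      have heO : e ∈ O := Finset.mem_image.2 ⟨1, Finset.mem_univ _, by simp [cj]⟩
      calc e = Sg * e := by
            rw [hSg, Finset.sum_mul, Finset.sum_eq_single e, hee]
            · intro y hy hne
              obtain ⟨t, -, rfl⟩ := Finset.mem_image.1 hy
              have h1 : cj 1 e = e := by simp [cj]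
              have h2 := horth t 1 (by rwa [h1])
              rwa [h1] at h2
            · exact fun h => absurd heO h
        _ = 0 := by rw [h0, zero_mul]
    · refine LinearMap.ext fun v => ?_
      obtain ⟨x, hx⟩ : v ∈ LinearMap.range Sg := h ▸ Submodule.mem_top
      rw [Module.End.one_apply, ← hx, ← Module.End.mul_apply, hidem O subset_rfl]
  -- the stabilizer is proper
  let S : Subgroup Γ :=
    { carrier := {t | cj t e = e}
      one_mem' := by simp [cj]
      mul_mem' := fun {s t} hs ht => by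
        show cj (s * t) e = e
        rw [hcjcomp, ht, hs]
      inv_mem' := fun {t} ht => by
        show cj t⁻¹ e = e
        conv_lhs => rw [← (ht : cj t e = e)]
        exact hcjinv t e }
  have hS : S ≠ ⊤ := by
    intro h
    refine he1 (Eq.trans ?_ hSg1)
    rw [hSg, show O = {e} from Finset.eq_singleton_iff_unique_mem.2
      ⟨Finset.mem_image.2 ⟨1, Finset.mem_univ _, by simp [cj]⟩, fun x hx => by
        obtain ⟨t, -, rfl⟩ := Finset.mem_image.1 hx
        exact (h ▸ Subgroup.mem_top t : t ∈ S)⟩, Finset.sum_singleton]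
  obtain ⟨T₁, hST, hT₁n, hidx⟩ := exists_index_two hΓ hS
  obtain ⟨t₀, ht₀⟩ : ∃ t₀, t₀ ∉ T₁ := by
    by_contra h
    push Not at h
    rw [(Subgroup.eq_top_iff' _).2 h, Subgroup.index_top] at hidx
    norm_num at hidx
  -- the two halves
  let O1 := O.filter fun x => ∃ t ∈ T₁, x = cj t e
  let O2 := O.filter fun x => ¬ ∃ t ∈ T₁, x = cj t e
  set f := ∑ x ∈ O1, x with hf
  set f' := ∑ x ∈ O2, x with hf'
  have hO1 : O1 ⊆ O := Finset.filter_subset _ _
  have hO2 : O2 ⊆ O := Finset.filter_subset _ _
  have hsum : f + f' = 1 := by rw [hf, hf', Finset.sum_filter_add_sum_filter_not, ← hSg, hSg1]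
  have hff' : f * f' = 0 := by
    rw [hf, hf', Finset.sum_mul]
    refine Finset.sum_eq_zero fun x hx => ?_
    rw [Finset.mul_sum]
    refine Finset.sum_eq_zero fun y hy => ?_
    obtain ⟨s, -, rfl⟩ := Finset.mem_image.1 (hO1 hx)
    obtain ⟨t, -, rfl⟩ := Finset.mem_image.1 (hO2 hy)
    exact horth s t fun h => (Finset.mem_filter.1 hy).2 (h ▸ (Finset.mem_filter.1 hx).2)
  have hff'' : f' * f = 0 := by rw [(hOC O2 hO2).commute (hOC O1 hO1)]; exact hff'
  have hmemT : ∀ t, cj t e ∈ O1 ↔ t ∈ T₁ := by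
    intro t
    constructor
    · intro h
      obtain ⟨s, hs, he'⟩ := (Finset.mem_filter.1 h).2
      have hst : s⁻¹ * t ∈ S := by
        show cj (s⁻¹ * t) e = e
        rw [hcjcomp, he', hcjinv]
      have := T₁.mul_mem hs (hST hst)
      rwa [mul_inv_cancel_left] at this
    · exact fun h => Finset.mem_filter.2 ⟨Finset.mem_image.2 ⟨t, Finset.mem_univ _, rfl⟩, t, h, rfl⟩
  have hmemT' : ∀ t, cj t e ∈ O2 ↔ t ∉ T₁ := fun t => by
    rw [← hmemT]
    simp only [O1, O2, Finset.mem_filter, Finset.mem_image, O, Finset.mem_univ, true_and]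
    exact ⟨fun h h' => h.2 h'.2, fun h => ⟨⟨t, rfl⟩, fun h' => h ⟨⟨t, rfl⟩, h'⟩⟩⟩
  have himg : ∀ (t : Γ) (P₁ P₂ : Γ → Prop) (A₁ A₂ : Finset (Module.End (ZMod 2) V)),
      (A₁ ⊆ O) → (A₂ ⊆ O) → (∀ s, cj s e ∈ A₁ ↔ P₁ s) → (∀ s, cj s e ∈ A₂ ↔ P₂ s) →
      (∀ s, P₁ s ↔ P₂ (t * s)) → cj t (∑ x ∈ A₁, x) = ∑ x ∈ A₂, x := by
    intro t P₁ P₂ A₁ A₂ hA₁ hA₂ h₁ h₂ hP
    rw [hinj]
    congr 1
    ext x
    constructor
    · intro hx
      obtain ⟨y, hy, rfl⟩ := Finset.mem_image.1 hx
      obtain ⟨s, -, rfl⟩ := Finset.mem_image.1 (hA₁ hy)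
      rw [← hcjcomp, h₂, ← hP, ← h₁]
      exact hy
    · intro hx
      obtain ⟨s, -, rfl⟩ := Finset.mem_image.1 (hA₂ hx)
      refine Finset.mem_image.2 ⟨cj (t⁻¹ * s) e, ?_, by rw [← hcjcomp, mul_inv_cancel_left]⟩
      rw [h₁, hP, mul_inv_cancel_left, ← h₂]
      exact hx
  have hmove : ∀ t g g', cj t g = g' → τ t * g = g' * τ t := fun t g g' h => by
    rw [← h]; simp only [cj]; rw [mul_assoc _ (τ t⁻¹), hττ', mul_one]
  refine ⟨T₁, t₀, f, f', hT₁n, hidx, ht₀, hsum, hidem O1 hO1, hidem O2 hO2, hff', hff'',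
    fun g => (hOC O1 hO1).commute_rho g, fun t ht => ?_, ?_, ?_, ?_⟩
  · exact hmove t f f (himg t (· ∈ T₁) (· ∈ T₁) O1 O1 hO1 hO1 hmemT hmemT
      fun s => (T₁.mul_mem_cancel_left ht).symm)
  · exact hmove t₀ f f' (himg t₀ (· ∈ T₁) (· ∉ T₁) O1 O2 hO1 hO2 hmemT hmemT' fun s => by
      rw [Subgroup.mul_mem_iff_of_index_two hidx]; simp [ht₀])
  · exact hmove t₀ f' f (himg t₀ (· ∉ T₁) (· ∈ T₁) O2 O1 hO2 hO1 hmemT' hmemT fun s => by
      rw [Subgroup.mul_mem_iff_of_index_two hidx]; simp [ht₀])
  · -- the adjoint permutes the idempotents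
    obtain ⟨y, hy, hye⟩ := hec
    have hec : Cen ρ e := ⟨y, hy, hye⟩
    set es := ρ.asAlgebraHom (star' y) with hes
    have hesC : Cen ρ es := ⟨_, hy.star', rfl⟩
    have hadj : ∀ u v, b (e u) v = b u (es v) := fun u v => by rw [← hye]; exact P.adjoint y u v
    have hadj' : ∀ u v, b (es u) v = b u (e v) := fun u v => by rw [P.symm, ← hadj, P.symm]
    have hext : ∀ g g' : Module.End (ZMod 2) V, (∀ u v, b u (g v) = b u (g' v)) → g = g' := by
      intro g g' h
      refine LinearMap.ext fun v => ?_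
      have h0 : g v + g' v = 0 := P.nondeg _ fun u => by
        rw [P.symm, P.add_right, h, P.val]
      calc g v = g v + (g' v + g' v) := by rw [← two_nsmul, ← Nat.cast_smul_eq_nsmul (ZMod 2),
            show ((2 : ℕ) : ZMod 2) = 0 from rfl, zero_smul, add_zero]
        _ = g' v := by rw [← add_assoc, h0, zero_add]
    have hes2 : es * es = es := hext _ _ fun u v => by
      rw [Module.End.mul_apply, ← hadj, ← hadj, ← Module.End.mul_apply, hee, hadj]
    have hes0 : es ≠ 0 := by
      intro h0
      apply hene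
      refine LinearMap.ext fun u => P.nondeg _ fun v => ?_
      rw [hadj, h0, LinearMap.zero_apply, P.zero_right]
    -- the adjoint is primitive
    have hesp : ∀ t, es * cj t e = 0 ∨ es = cj t e := by
      intro t
      set g := es * cj t e with hg
      have hctC := hcjcen t e hec
      have hgi : g * g = g := by
        rw [hg, mul_assoc, ← mul_assoc (cj t e), hctC.commute hesC, mul_assoc es (cj t e),
          ← hcjmul, hee, ← mul_assoc, hes2]
      rcases hcjprim t g (hesC.mul hctC) hgi (by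
        rw [hg, mul_assoc, ← hcjmul, hee]) with h | h
      · exact Or.inl h
      refine Or.inr ?_
      obtain ⟨z, hz, hze⟩ := hctC
      set gs := ρ.asAlgebraHom (star' z) with hgs
      have hgsC : Cen ρ gs := ⟨_, hz.star', rfl⟩
      have hadjg : ∀ u v, b (cj t e u) v = b u (gs v) := fun u v => by
        rw [← hze]; exact P.adjoint z u v
      have hadjg' : ∀ u v, b (gs u) v = b u (cj t e v) := fun u v => by
        rw [P.symm, ← hadjg, P.symm]
      have hgs2 : gs * gs = gs := hext _ _ fun u v => by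
        rw [Module.End.mul_apply, ← hadjg, ← hadjg, ← Module.End.mul_apply, ← hcjmul, hee, hadjg]
      have hgse : gs * e = gs := hext _ _ fun u v => by
        rw [Module.End.mul_apply, ← hadjg, ← hadj']
        rw [← Module.End.mul_apply, ← hg, h, hadjg]
      rcases hprim gs hgsC hgs2 hgse with h2 | h2
      · exfalso
        apply hene
        have hce : cj t e = 0 := LinearMap.ext fun u => P.nondeg _ fun v => by
          rw [hadjg, h2, LinearMap.zero_apply, P.zero_right]
        rw [← hcjinv t e, hce]; simp [cj]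
      · exact hext _ _ fun u v => by rw [← hadjg', h2, hadj]
    obtain ⟨s₀, hs₀⟩ : ∃ t, es = cj t e := by
      by_contra hno
      push Not at hno
      apply hes0
      rw [← mul_one es, ← hSg1, hSg, Finset.mul_sum]
      refine Finset.sum_eq_zero fun x hx => ?_
      obtain ⟨t, -, rfl⟩ := Finset.mem_image.1 hx
      exact (hesp t).resolve_right (hno t)
    -- adjoint of a conjugate
    have hinvb : ∀ t u v, b (τ t u) v = b u (τ t⁻¹ v) := fun t u v => by
      conv_lhs => rw [show v = τ t (τ t⁻¹ v) by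
        rw [← Module.End.mul_apply, hττ, Module.End.one_apply]]
      exact hτb t u _
    have hadjt : ∀ t u v, b (cj t e u) v = b u (cj (t * s₀) e v) := by
      intro t u v
      rw [hcjcomp, ← hs₀]
      simp only [cj, Module.End.mul_apply]
      rw [hinvb, hadj, hinvb, inv_inv]
    have hadjsum : ∀ (Q₁ Q₂ : Γ → Prop) (A₁ A₂ : Finset (Module.End (ZMod 2) V)),
        A₁ ⊆ O → A₂ ⊆ O → (∀ s, cj s e ∈ A₁ ↔ Q₁ s) → (∀ s, cj s e ∈ A₂ ↔ Q₂ s) →
        (∀ s, Q₁ s ↔ Q₂ (s * s₀)) → ∀ u v, b ((∑ x ∈ A₁, x) u) v = b u ((∑ x ∈ A₂, x) v) := by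
      intro Q₁ Q₂ A₁ A₂ hA₁ hA₂ h₁ h₂ hQ u v
      have hbs : ∀ (A : Finset (Module.End (ZMod 2) V)) (w : Module.End (ZMod 2) V → V),
          b (∑ x ∈ A, w x) v = ∏ x ∈ A, b (w x) v := fun A w => by
        induction A using Finset.induction with
        | empty => simp [P.zero_left]
        | insert x A hx ih => rw [Finset.sum_insert hx, Finset.prod_insert hx, P.add_left, ih]
      have hbs' : ∀ (A : Finset (Module.End (ZMod 2) V)) (w : Module.End (ZMod 2) V → V),
          b u (∑ x ∈ A, w x) = ∏ x ∈ A, b u (w x) := fun A w => by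
        induction A using Finset.induction with
        | empty => simp [P.zero_right]
        | insert x A hx ih => rw [Finset.sum_insert hx, Finset.prod_insert hx, P.add_right, ih]
      rw [LinearMap.sum_apply, LinearMap.sum_apply, hbs, hbs']
      have hch : ∀ x ∈ O, ∃ t, cj t e = x := fun x hx => by
        obtain ⟨t, -, ht⟩ := Finset.mem_image.1 hx
        exact ⟨t, ht⟩
      choose pick hpick using hch
      refine Finset.prod_bij (fun x hx => cj (pick x (hA₁ hx) * s₀) e) (fun x hx => ?_)
        (fun x hx y hy h => ?_) (fun y hy => ?_) (fun x hx => ?_)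
      · rw [h₂, ← hQ, ← h₁, hpick]; exact hx
      · rw [← hpick x (hA₁ hx), ← hpick y (hA₁ hy)]
        exact hext _ _ fun u' v' => by
          rw [P.symm, hadjt, h, ← hadjt, P.symm]
      · obtain ⟨s, -, rfl⟩ := Finset.mem_image.1 (hA₂ hy)
        have hx : cj (s * s₀⁻¹) e ∈ A₁ := by
          rw [h₁, hQ, inv_mul_cancel_right, ← h₂]; exact hy
        refine ⟨_, hx, ?_⟩
        have hp := hpick _ (hA₁ hx)
        refine hext _ _ fun u' v' => ?_
        rw [← hadjt, hp, hadjt, inv_mul_cancel_right]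
      · rw [← hadjt, hpick]
    by_cases hs : s₀ ∈ T₁
    · exact Or.inl (hadjsum (· ∈ T₁) (· ∈ T₁) O1 O1 hO1 hO1 hmemT hmemT
        fun s => (T₁.mul_mem_cancel_right hs).symm)
    · exact Or.inr (hadjsum (· ∈ T₁) (· ∉ T₁) O1 O2 hO1 hO2 hmemT hmemT' fun s => by
        rw [Subgroup.mul_mem_iff_of_index_two hidx]; simp [hs])

end Block

end Cfsg.Agent.Char8Extra
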