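import Mathlib
import Cfsg.Agent.Char.Virtual
import Cfsg.Agent.Char.Linear
import Cfsg.Agent.Char.Kernel
import Cfsg.Agent.CharInd.Induced

/-!
# Sections with a non-degenerate sign pairing

`E` normalised by an odd group `K` and a `2`-group `T`, with `E ⧸ C` elementary abelian and a sign
character `lam` of `C` making the commutator pairing non-degenerate, `K` without fixed points.
-/

set_option autoImplicit false
set_option linter.style.haveILetI false

namespace Cfsg.Agent.Char8Extra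

open Subgroup
open scoped commutatorElement

universe u

variable {X : Type u} [Group X]

/-- `f` is a character on the subgroup `H`. -/
def IsCharOn (H : Subgroup X) (f : X → ℂ) : Prop :=
  Cfsg.IsCharacter H (fun h : H => f (h : X))

/-- The data. -/
structure Setting (E C K T : Subgroup X) (lam : X → ℂ) : Prop where
  le : C ≤ E
  lam_mul : ∀ a ∈ C, ∀ b ∈ C, lam (a * b) = lam a * lam b
  lam_val : ∀ c ∈ C, lam c = 1 ∨ lam c = -1
  lam_conj : ∀ g ∈ E ⊔ (K ⊔ T), ∀ c ∈ C, lam (g * c * g⁻¹) = lam c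
  sq : ∀ e ∈ E, e * e ∈ C
  comm : ∀ a ∈ E, ∀ b ∈ E, ⁅a, b⁆ ∈ C
  nondeg : ∀ e ∈ E, (∀ b ∈ E, lam ⁅e, b⁆ = 1) → e ∈ C
  normE : ∀ g ∈ E ⊔ (K ⊔ T), ∀ e ∈ E, g * e * g⁻¹ ∈ E
  normC : ∀ g ∈ E ⊔ (K ⊔ T), ∀ c ∈ C, g * c * g⁻¹ ∈ C
  normK : ∀ t ∈ T, ∀ k ∈ K, t * k * t⁻¹ ∈ K
  fpf : ∀ e ∈ E, (∀ k ∈ K, ⁅k, e⁆ ∈ C) → e ∈ C
  disj : E ⊓ T = ⊥
  two : IsPGroup 2 T
  odd : Odd (Nat.card K)

/-- The extension to `E ⊔ T` of the character attached to `lam`. -/
def Good (E C T : Subgroup X) (lam : X → ℂ) : Prop :=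
  ∃ (d : ℕ) (f : X → ℂ), IsCharOn (E ⊔ T) f ∧ f 1 = d ∧ 0 < d ∧
    d * d * Nat.card C = Nat.card E ∧ ∀ c ∈ C, f c = d * lam c

/-- A subgroup between `C` and `E` invariant under `K` and `T`. -/
structure Inv (E C K T W : Subgroup X) : Prop where
  ge : C ≤ W
  le : W ≤ E
  conjK : ∀ g ∈ K, ∀ w ∈ W, g * w * g⁻¹ ∈ W
  conjT : ∀ g ∈ T, ∀ w ∈ W, g * w * g⁻¹ ∈ W

section Pairing

variable {E C K T : Subgroup X} {lam : X → ℂ} (S : Setting E C K T lam)
include S

theorem Setting.mem_M_of_E {g : X} (hg : g ∈ E) : g ∈ E ⊔ (K ⊔ T) := Subgroup.mem_sup_left hg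

theorem Setting.mem_M_of_K {g : X} (hg : g ∈ K) : g ∈ E ⊔ (K ⊔ T) :=
  Subgroup.mem_sup_right (Subgroup.mem_sup_left hg)

theorem Setting.mem_M_of_T {g : X} (hg : g ∈ T) : g ∈ E ⊔ (K ⊔ T) :=
  Subgroup.mem_sup_right (Subgroup.mem_sup_right hg)

theorem Setting.lam_one : lam 1 = 1 := by
  have h := S.lam_mul 1 (one_mem C) 1 (one_mem C)
  rw [mul_one] at h
  rcases S.lam_val 1 (one_mem C) with h1 | h1 <;> rw [h1] at h ⊢
  norm_num at h

theorem Setting.lam_ne_zero {c : X} (hc : c ∈ C) : lam c ≠ 0 := by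
  rcases S.lam_val c hc with h | h <;> rw [h] <;> norm_num

theorem Setting.lam_mul_self {c : X} (hc : c ∈ C) : lam c * lam c = 1 := by
  rcases S.lam_val c hc with h | h <;> rw [h] <;> norm_num

theorem Setting.lam_inv {c : X} (hc : c ∈ C) : lam c⁻¹ = lam c := by
  have h := S.lam_mul c hc c⁻¹ (inv_mem hc)
  rw [mul_inv_cancel, S.lam_one] at h
  exact mul_left_cancel₀ (S.lam_ne_zero hc) (h.symm.trans (S.lam_mul_self hc).symm)

theorem Setting.pair_comm {a b : X} (ha : a ∈ E) (hb : b ∈ E) : lam ⁅a, b⁆ = lam ⁅b, a⁆ := by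
  rw [← commutatorElement_inv b a, S.lam_inv (S.comm b hb a ha)]

theorem Setting.pair_mul_left {a b c : X} (ha : a ∈ E) (hb : b ∈ E) (hc : c ∈ E) :
    lam ⁅a * b, c⁆ = lam ⁅a, c⁆ * lam ⁅b, c⁆ := by
  rw [show ⁅a * b, c⁆ = (a * ⁅b, c⁆ * a⁻¹) * ⁅a, c⁆ by simp only [commutatorElement_def]; group,
    S.lam_mul _ (S.normC a (S.mem_M_of_E ha) _ (S.comm b hb c hc)) _ (S.comm a ha c hc),
    S.lam_conj a (S.mem_M_of_E ha) _ (S.comm b hb c hc), mul_comm]

theorem Setting.pair_mul_right {a b c : X} (ha : a ∈ E) (hb : b ∈ E) (hc : c ∈ E) :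
    lam ⁅a, b * c⁆ = lam ⁅a, b⁆ * lam ⁅a, c⁆ := by
  rw [S.pair_comm ha (mul_mem hb hc), S.pair_mul_left hb hc ha, S.pair_comm hb ha,
    S.pair_comm hc ha]

theorem Setting.pair_one {b : X} : lam ⁅(1 : X), b⁆ = 1 := by
  rw [commutatorElement_one_left, S.lam_one]

theorem Setting.pair_left_C {c b : X} (hc : c ∈ C) (hb : b ∈ E) : lam ⁅c, b⁆ = 1 := by
  rw [show ⁅c, b⁆ = c * (b * c⁻¹ * b⁻¹) by simp only [commutatorElement_def]; group,
    S.lam_mul c hc _ (S.normC b (S.mem_M_of_E hb) _ (inv_mem hc)),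
    S.lam_conj b (S.mem_M_of_E hb) _ (inv_mem hc), S.lam_inv hc, S.lam_mul_self hc]

theorem Setting.pair_conj {g a b : X} (hg : g ∈ E ⊔ (K ⊔ T)) (ha : a ∈ E) (hb : b ∈ E) :
    lam ⁅g * a * g⁻¹, g * b * g⁻¹⁆ = lam ⁅a, b⁆ := by
  rw [show ⁅g * a * g⁻¹, g * b * g⁻¹⁆ = g * ⁅a, b⁆ * g⁻¹ by
    simp only [commutatorElement_def]; group]
  exact S.lam_conj g hg _ (S.comm a ha b hb)

/-- The orthogonal of a subgroup of `E`. -/
def Setting.orth (W : Subgroup X) (hW : W ≤ E) : Subgroup X where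
  carrier := {e | e ∈ E ∧ ∀ w ∈ W, lam ⁅e, w⁆ = 1}
  one_mem' := ⟨one_mem E, fun _ _ => S.pair_one⟩
  mul_mem' := fun {a b} ha hb => ⟨mul_mem ha.1 hb.1, fun w hw => by
    rw [S.pair_mul_left ha.1 hb.1 (hW hw), ha.2 w hw, hb.2 w hw, mul_one]⟩
  inv_mem' := fun {a} ha => ⟨inv_mem ha.1, fun w hw => by
    have h := S.pair_mul_left ha.1 (inv_mem ha.1) (hW hw)
    rwa [mul_inv_cancel, S.pair_one, ha.2 w hw, one_mul, eq_comm] at h⟩

theorem Setting.mem_orth {W : Subgroup X} {hW : W ≤ E} {e : X} :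
    e ∈ S.orth W hW ↔ e ∈ E ∧ ∀ w ∈ W, lam ⁅e, w⁆ = 1 := Iff.rfl

theorem Setting.C_le_orth {W : Subgroup X} (hW : W ≤ E) : C ≤ S.orth W hW :=
  fun _ hc => ⟨S.le hc, fun _ hw => S.pair_left_C hc (hW hw)⟩

theorem Setting.orth_le {W : Subgroup X} (hW : W ≤ E) : S.orth W hW ≤ E := fun _ h => h.1

theorem Setting.inv_orth {W : Subgroup X} (hW : Inv E C K T W) :
    Inv E C K T (S.orth W hW.le) := by
  refine ⟨S.C_le_orth hW.le, S.orth_le hW.le, fun g hg e he => ?_, fun g hg e he => ?_⟩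
  · refine ⟨S.normE g (S.mem_M_of_K hg) e he.1, fun w hw => ?_⟩
    have hw' : g⁻¹ * w * g ∈ W := by simpa using hW.conjK g⁻¹ (inv_mem hg) w hw
    have := S.pair_conj (S.mem_M_of_K hg) he.1 (hW.le hw')
    rw [show g * (g⁻¹ * w * g) * g⁻¹ = w by group, he.2 _ hw'] at this
    exact this
  · refine ⟨S.normE g (S.mem_M_of_T hg) e he.1, fun w hw => ?_⟩
    have hw' : g⁻¹ * w * g ∈ W := by simpa using hW.conjT g⁻¹ (inv_mem hg) w hw
    have := S.pair_conj (S.mem_M_of_T hg) he.1 (hW.le hw')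
    rw [show g * (g⁻¹ * w * g) * g⁻¹ = w by group, he.2 _ hw'] at this
    exact this

end Pairing

/-- Homomorphisms into `ℂˣ` trivial on a subgroup. -/
theorem card_hom_le_index {Q : Type*} [Group Q] [Finite Q] (N : Subgroup Q)
    {R : Subgroup (Q →* ℂˣ)} (hR : ∀ f ∈ R, N ≤ f.ker) : Nat.card R ≤ N.index := by
  classical
  haveI := Fintype.ofFinite (Q ⧸ N)
  -- a homomorphism is determined by its values on representatives
  have hfin : ∀ (f : Q →* ℂˣ) (x : Q), ((f x : ℂˣ) : ℂ) ^ Nat.card Q = 1 := fun f x => by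
    rw [← Units.val_pow_eq_pow_val, ← map_pow, pow_card_eq_one', map_one, Units.val_one]
  let L := Subgroup.normalClosure ((commutator Q ⊔ N : Subgroup Q) : Set Q)
  have hL : ∀ f ∈ R, L ≤ f.ker := fun f hf => by
    refine normalClosure_le_normal ?_
    intro x hx
    exact sup_le (Abelianization.commutator_subset_ker f) (hR f hf) hx
  haveI := Char.monoidHom_complex_finite (G := Q ⧸ L)
  let Φ : R → (Q ⧸ L →* ℂˣ) := fun f => QuotientGroup.lift L f.1 (hL f.1 f.2)
  have hΦ : Function.Injective Φ := fun f g h => Subtype.ext (MonoidHom.ext fun x =>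
    DFunLike.congr_fun h (x : Q ⧸ L))
  refine (Nat.card_le_card_of_injective Φ hΦ).trans ?_
  rw [Char.card_monoidHom_complex]
  refine le_trans (Nat.le_of_dvd Nat.card_pos (Subgroup.index_dvd_card _)) ?_
  have hdvd : L.index ∣ N.index :=
    index_dvd_of_le (le_trans le_sup_right (fun x hx => subset_normalClosure hx))
  exact Nat.le_of_dvd (Nat.pos_of_ne_zero index_ne_zero_of_finite) hdvd

/-- A pairing bounds the index of its kernel. -/
theorem index_ker_le {P Q : Type*} [Group P] [Group Q] [Finite Q] (Ψ : P →* (Q →* ℂˣ))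
    (N : Subgroup Q) (hN : ∀ x, N ≤ (Ψ x).ker) : Ψ.ker.index ≤ N.index := by
  rw [Subgroup.index_ker]
  exact card_hom_le_index N fun f hf => by
    obtain ⟨x, rfl⟩ := hf
    exact hN x

section Orth

variable {E C K T : Subgroup X} {lam : X → ℂ} (S : Setting E C K T lam)
include S

/-- The commutator pairing with values in `ℂˣ`. -/
noncomputable def Setting.unit {a b : X} (ha : a ∈ E) (hb : b ∈ E) : ℂˣ :=
  Units.mk0 (lam ⁅a, b⁆) (S.lam_ne_zero (S.comm a ha b hb))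

theorem Setting.card_orth [Finite X] {W : Subgroup X} (hW : W ≤ E) (hC : C ≤ W) :
    Nat.card (S.orth W hW) * Nat.card W = Nat.card E * Nat.card C := by
  let Ψ : E →* (W →* ℂˣ) :=
    { toFun := fun e =>
        { toFun := fun w => S.unit e.2 (hW w.2)
          map_one' := Units.ext (by
            show lam ⁅(e : X), (1 : X)⁆ = 1
            rw [commutatorElement_one_right, S.lam_one])
          map_mul' := fun a b => Units.ext (S.pair_mul_right e.2 (hW a.2) (hW b.2)) }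
      map_one' := MonoidHom.ext fun w => Units.ext S.pair_one
      map_mul' := fun a b => MonoidHom.ext fun w =>
        Units.ext (S.pair_mul_left a.2 b.2 (hW w.2)) }
  have hker : Ψ.ker = (S.orth W hW).subgroupOf E := by
    ext e
    rw [MonoidHom.mem_ker, mem_subgroupOf, S.mem_orth]
    constructor
    · exact fun h => ⟨e.2, fun w hw => by
        have h' := congrArg Units.val (DFunLike.congr_fun h (⟨w, hw⟩ : W))
        exact h'⟩
    · exact fun h => MonoidHom.ext fun w => Units.ext (h.2 w w.2)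
  let Ψ' : W →* (E →* ℂˣ) :=
    { toFun := fun w =>
        { toFun := fun e => S.unit (hW w.2) e.2
          map_one' := Units.ext (by
            show lam ⁅(w : X), (1 : X)⁆ = 1
            rw [commutatorElement_one_right, S.lam_one])
          map_mul' := fun a b => Units.ext (S.pair_mul_right (hW w.2) a.2 b.2) }
      map_one' := MonoidHom.ext fun e => Units.ext S.pair_one
      map_mul' := fun a b => MonoidHom.ext fun e =>
        Units.ext (S.pair_mul_left (hW a.2) (hW b.2) e.2) }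
  have hker' : Ψ'.ker = C.subgroupOf W := by
    ext w
    rw [MonoidHom.mem_ker, mem_subgroupOf]
    constructor
    · exact fun h => S.nondeg w (hW w.2) fun b hb => by
        have h' := congrArg Units.val (DFunLike.congr_fun h (⟨b, hb⟩ : E))
        exact h'
    · exact fun h => MonoidHom.ext fun e => Units.ext (S.pair_left_C h e.2)
  have h1 := index_ker_le Ψ (C.subgroupOf W) fun e w hw => by
    rw [MonoidHom.mem_ker]
    exact Units.ext ((S.pair_comm e.2 (hW w.2)).trans (S.pair_left_C hw e.2))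
  have h2 := index_ker_le Ψ' ((S.orth W hW).subgroupOf E) fun w e he => by
    rw [MonoidHom.mem_ker]
    have he' : (e : X) ∈ S.orth W hW := he
    exact Units.ext ((S.pair_comm (hW w.2) e.2).trans (he'.2 w w.2))
  rw [hker] at h1
  rw [hker'] at h2
  have e1 := relIndex_mul_relIndex ⊥ C W bot_le hC
  have e2 := relIndex_mul_relIndex ⊥ (S.orth W hW) E bot_le (S.orth_le hW)
  simp only [relIndex_bot_left] at e1 e2
  rw [← e1, ← e2]
  have h3 : (S.orth W hW).relIndex E = C.relIndex W := le_antisymm h1 h2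
  rw [h3]
  ring

theorem Setting.orth_orth [Finite X] {W : Subgroup X} (hW : W ≤ E) (hC : C ≤ W) :
    S.orth (S.orth W hW) (S.orth_le hW) = W := by
  have hle : W ≤ S.orth (S.orth W hW) (S.orth_le hW) := fun w hw =>
    ⟨hW hw, fun e he => (S.pair_comm (hW hw) he.1).trans (he.2 w hw)⟩
  refine (eq_of_le_of_card_ge hle ?_).symm
  have h1 := S.card_orth hW hC
  have h2 := S.card_orth (S.orth_le hW) (S.C_le_orth hW)
  refine le_of_eq (Nat.eq_of_mul_eq_mul_right (Nat.card_pos (α := S.orth W hW)) ?_)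
  linarith

end Orth

/-- Invariant extension of a sign character to an isotropic subgroup, averaged over the odd
group. -/
theorem exists_invariant_extension [Finite X] {C W K : Subgroup X} {lam : X → ℂ} (hCW : C ≤ W)
    (hmul : ∀ a ∈ C, ∀ b ∈ C, lam (a * b) = lam a * lam b)
    (hval : ∀ c ∈ C, lam c = 1 ∨ lam c = -1)
    (hiso : ∀ a ∈ W, ∀ b ∈ W, ⁅a, b⁆ ∈ C ∧ lam ⁅a, b⁆ = 1)
    (hinv : ∀ k ∈ K, ∀ c ∈ C, lam (k * c * k⁻¹) = lam c)
    (hKW : ∀ k ∈ K, ∀ w ∈ W, k * w * k⁻¹ ∈ W) (hKC : ∀ k ∈ K, ∀ c ∈ C, k * c * k⁻¹ ∈ C)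
    (hodd : Odd (Nat.card K)) :
    ∃ mu : X → ℂ, (∀ a ∈ W, ∀ b ∈ W, mu (a * b) = mu a * mu b) ∧ (∀ a ∈ W, mu a ≠ 0) ∧
      (∀ c ∈ C, mu c = lam c) ∧ ∀ k ∈ K, ∀ w ∈ W, mu (k * w * k⁻¹) = mu w := by
  classical
  haveI := Fintype.ofFinite X
  haveI := Fintype.ofFinite K
  have hone : lam 1 = 1 := by
    have h := hmul 1 (one_mem C) 1 (one_mem C)
    rw [mul_one] at h
    rcases hval 1 (one_mem C) with h1 | h1 <;> rw [h1] at h ⊢
    norm_num at h
  have hne : ∀ c ∈ C, lam c ≠ 0 := fun c hc => by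
    rcases hval c hc with h | h <;> rw [h] <;> norm_num
  let lamU : C.subgroupOf W →* ℂˣ :=
    { toFun := fun c => Units.mk0 (lam ((c : W) : X)) (hne _ c.2)
      map_one' := Units.ext hone
      map_mul' := fun a b => Units.ext (hmul _ a.2 _ b.2) }
  let ab : C.subgroupOf W →* Abelianization W := Abelianization.of.comp (C.subgroupOf W).subtype
  let N : Subgroup W :=
    { carrier := {w | (w : X) ∈ C ∧ lam w = 1}
      one_mem' := ⟨one_mem C, hone⟩
      mul_mem' := fun {a b} ha hb => ⟨mul_mem ha.1 hb.1, by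
        show lam ((a : X) * b) = 1
        rw [hmul _ ha.1 _ hb.1, ha.2, hb.2, mul_one]⟩
      inv_mem' := fun {a} ha => ⟨inv_mem ha.1, by
        have h := hmul _ ha.1 _ (inv_mem ha.1)
        rw [mul_inv_cancel, hone, ha.2, one_mul] at h
        exact h.symm⟩ }
  have hNcomm : commutator W ≤ N := by
    rw [_root_.commutator_def, commutator_le]
    intro a _ b _
    exact hiso _ a.2 _ b.2
  have hker : ab.ker ≤ lamU.ker := fun c hc => by
    rw [MonoidHom.mem_ker] at hc ⊢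
    exact Units.ext (hNcomm ((QuotientGroup.eq_one_iff _).1 hc)).2
  obtain ⟨μ₁, hμ₁⟩ := MonoidHom.restrict_surjective (M := ℂ) ab.range
    (ab.rangeRestrict.liftOfSurjective ab.rangeRestrict_surjective
      ⟨lamU, by rwa [MonoidHom.ker_rangeRestrict]⟩)
  let μ₀ : W →* ℂˣ := μ₁.comp Abelianization.of
  have hμ₀ : ∀ (c : X) (hc : c ∈ C), (μ₀ ⟨c, hCW hc⟩ : ℂ) = lam c := fun c hc => by
    have := DFunLike.congr_fun hμ₁ (ab.rangeRestrict ⟨⟨c, hCW hc⟩, hc⟩)
    rw [show (ab.rangeRestrict.liftOfSurjective ab.rangeRestrict_surjective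
      ⟨lamU, by rwa [MonoidHom.ker_rangeRestrict]⟩) (ab.rangeRestrict ⟨⟨c, hCW hc⟩, hc⟩) =
        lamU ⟨⟨c, hCW hc⟩, hc⟩ from MonoidHom.liftOfRightInverse_comp_apply _ _ _ _ _] at this
    exact congrArg Units.val this
  let F : X → ℂ := fun w => if hw : w ∈ W then
    ∏ k : K, (μ₀ ⟨(k : X) * w * (k : X)⁻¹, hKW k k.2 w hw⟩ : ℂ) else 0
  refine ⟨F, fun a ha b hb => ?_, fun a ha => ?_, fun c hc => ?_, fun k hk w hw => ?_⟩
  · simp only [F, dif_pos ha, dif_pos hb, dif_pos (mul_mem ha hb)]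
    rw [← Finset.prod_mul_distrib]
    refine Finset.prod_congr rfl fun k _ => ?_
    rw [← Units.val_mul, ← map_mul]
    exact congrArg (fun x => ((μ₀ x : ℂˣ) : ℂ)) (Subtype.ext (by simp [mul_assoc]))
  · simp only [F, dif_pos ha]
    exact Finset.prod_ne_zero_iff.2 fun k _ => Units.ne_zero _
  · simp only [F, dif_pos (hCW hc)]
    rw [Finset.prod_congr rfl fun (k : K) _ => (hμ₀ _ (hKC k k.2 c hc)).trans (hinv k k.2 c hc),
      Finset.prod_const, Finset.card_univ, ← Nat.card_eq_fintype_card]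
    obtain ⟨m, hm⟩ := hodd
    rw [hm, pow_succ, pow_mul, sq]
    rcases hval c hc with h | h <;> rw [h] <;> norm_num
  · simp only [F, dif_pos hw, dif_pos (hKW k hk w hw)]
    refine Fintype.prod_equiv (Equiv.mulRight (⟨k, hk⟩ : K)) _ _ fun j => ?_
    exact congrArg (fun x => ((μ₀ x : ℂˣ) : ℂ)) (Subtype.ext (by simp [mul_assoc]))

end Cfsg.Agent.Char8Extra
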