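import Cfsg.Agent.Char8Extra.Basic
import Cfsg.Agent.GlauberCorr.HomMult
import Cfsg.Agent.CharExt.Gallagher
import Cfsg.Agent.S0886

/-!
# Characters attached to a section with a non-degenerate sign pairing
-/

set_option autoImplicit false
set_option linter.style.haveILetI false
set_option linter.unusedSectionVars false
set_option linter.unusedFintypeInType false

namespace Cfsg.Agent.Char8Extra

open Subgroup
open scoped commutatorElement ComplexConjugate

universe u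

variable {X : Type u} [Group X]

theorem IsCharOn.mono {H G : Subgroup X} {f : X → ℂ} (h : IsCharOn G f) (hHG : H ≤ G) :
    IsCharOn H f :=
  CharInd.isCharacter_comp (Subgroup.inclusion hHG) h

theorem IsCharOn.congr {G : Subgroup X} {f f' : X → ℂ} (h : IsCharOn G f)
    (e : ∀ x ∈ G, f x = f' x) : IsCharOn G f' := by
  unfold IsCharOn at h ⊢
  rwa [show (fun x : G => f' (x : X)) = fun x : G => f (x : X) from funext fun x => (e x x.2).symm]

theorem IsCharOn.class_fun {G : Subgroup X} {f : X → ℂ} (h : IsCharOn G f) {g x : X} (hg : g ∈ G)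
    (hx : x ∈ G) : f (g * x * g⁻¹) = f x :=
  Char.isCharacter_isClassFunction h ⟨x, hx⟩ ⟨g, hg⟩

theorem isCharOn_of_mul {G : Subgroup X} {f : X → ℂ} (hmul : ∀ a ∈ G, ∀ b ∈ G, f (a * b) = f a * f b)
    (hne : ∀ a ∈ G, f a ≠ 0) : IsCharOn G f := by
  have h1 : f 1 = 1 := by
    have h := hmul 1 (one_mem G) 1 (one_mem G)
    rw [mul_one] at h
    exact mul_left_cancel₀ (hne 1 (one_mem G)) (h.symm.trans (mul_one _).symm)
  exact Char.isCharacter_of_irr (Char.isIrrCharacter_monoidHom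
    ({ toFun := fun g => Units.mk0 (f g) (hne g g.2)
       map_one' := Units.ext h1
       map_mul' := fun a b => Units.ext (hmul a a.2 b b.2) } : G →* ℂˣ))

/-- Conjugating the argument. -/
theorem IsCharOn.conj {G H : Subgroup X} {f : X → ℂ} (h : IsCharOn G f) (t : X)
    (hH : ∀ x ∈ H, t * x * t⁻¹ ∈ G) : IsCharOn H fun x => f (t * x * t⁻¹) :=
  CharInd.isCharacter_comp
    (MonoidHom.mk' (fun x : H => (⟨t * x * t⁻¹, hH x x.2⟩ : G)) fun a b =>
      Subtype.ext (by simp [mul_assoc])) h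

open scoped Classical in
/-- Induction of functions between subgroups. -/
noncomputable def indOn [Fintype X] (H G : Subgroup X) (f : X → ℂ) (x : X) : ℂ :=
  (Nat.card H : ℂ)⁻¹ *
    ∑ y : X, if y ∈ G ∧ y⁻¹ * x * y ∈ H then f (y⁻¹ * x * y) else 0

theorem isCharOn_indOn [Fintype X] {H G : Subgroup X} (hHG : H ≤ G) {f : X → ℂ}
    (hf : IsCharOn H f) : IsCharOn G (indOn H G f) := by
  classical
  haveI := Fintype.ofFinite G
  have hc : Cfsg.IsCharacter (H.subgroupOf G) fun h => f ((h : G) : X) :=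
    CharInd.isCharacter_comp (subgroupOfEquivOfLe hHG).toMonoidHom hf
  unfold IsCharOn
  rw [show (fun x : G => indOn H G f x) = Cfsg.indFun (H.subgroupOf G) fun h => f ((h : G) : X) from ?_]
  · exact CharInd.isCharacter_indFun _ hc
  funext x
  rw [indOn, Cfsg.indFun, Nat.card_congr (subgroupOfEquivOfLe hHG).toEquiv]
  congr 1
  refine Eq.trans (Finset.sum_subset (Finset.filter_subset (· ∈ G) Finset.univ) fun y _ hy =>
      if_neg fun hc' => hy (Finset.mem_filter.2 ⟨Finset.mem_univ _, hc'.1⟩)).symm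
    ((Finset.sum_subtype (p := (· ∈ G)) (F := this) _ (fun y => by simp) _).trans ?_)
  refine Finset.sum_congr rfl fun y _ => ?_
  by_cases hy : (y : X)⁻¹ * x * y ∈ H
  · rw [if_pos ⟨y.2, hy⟩, CharInd.extendByZero_mem _ _ (show y⁻¹ * x * y ∈ H.subgroupOf G from hy)]
    rfl
  · rw [if_neg fun h => hy h.2, CharInd.extendByZero_notMem _ _ (show y⁻¹ * x * y ∉ H.subgroupOf G from hy)]

/-- An invariant irreducible character extends over a cyclic quotient. -/
theorem extend_cyclic [Finite X] {G₁ G : Subgroup X} (hle : G₁ ≤ G)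
    (hnorm : ∀ g ∈ G, ∀ x ∈ G₁, g * x * g⁻¹ ∈ G₁) (g₀ : X) (hg₀ : g₀ ∈ G)
    (hgen : ∀ g ∈ G, ∃ (i : ℤ) (x : X), x ∈ G₁ ∧ g = g₀ ^ i * x) {f : X → ℂ}
    (hf : Cfsg.IsIrrCharacter G₁ fun x : G₁ => f (x : X))
    (hinv : ∀ g ∈ G, ∀ x ∈ G₁, f (g * x * g⁻¹) = f x) :
    ∃ F : X → ℂ, IsCharOn G F ∧ ∀ x ∈ G₁, F x = f x := by
  classical
  let N := G₁.subgroupOf G
  haveI : N.Normal := ⟨fun x hx g => hnorm g g.2 _ hx⟩
  have hcyc : IsCyclic (G ⧸ N) := by
    refine ⟨⟨((⟨g₀, hg₀⟩ : G) : G ⧸ N), fun q => ?_⟩⟩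
    induction q using QuotientGroup.induction_on with
    | _ g =>
      obtain ⟨i, x, hx, hgx⟩ := hgen g g.2
      refine ⟨i, ?_⟩
      show ((⟨g₀, hg₀⟩ : G) : G ⧸ N) ^ i = g
      rw [← QuotientGroup.mk_zpow, QuotientGroup.eq]
      show ((⟨g₀, hg₀⟩ ^ i : G) : X)⁻¹ * g ∈ G₁
      rw [SubgroupClass.coe_zpow, hgx, inv_mul_cancel_left]
      exact hx
  have hirr : Cfsg.IsIrrCharacter N fun n => f ((n : G) : X) :=
    Char.isIrrCharacter_comp hf (subgroupOfEquivOfLe hle).toMonoidHom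
      (subgroupOfEquivOfLe hle).surjective
  obtain ⟨χ, hχ, hres⟩ := Cfsg.Agent.S0886.result N hcyc _ hirr fun g n => hinv g g.2 _ n.2
  refine ⟨fun x => if hx : x ∈ G then χ ⟨x, hx⟩ else 0, ?_, fun x hx => ?_⟩
  · unfold IsCharOn
    rw [show (fun x : G => if hx : (x : X) ∈ G then χ ⟨x, hx⟩ else 0) = χ from
      funext fun x => dif_pos x.2]
    exact Char.isCharacter_of_irr hχ
  · simp only [dif_pos (hle hx)]
    exact hres ⟨⟨x, hle hx⟩, hx⟩

section Setting

variable {E C K T : Subgroup X} {lam : X → ℂ} (S : Setting E C K T lam)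
include S

/-- Values of a character of the given degree on `E`. -/
theorem Setting.value_eq_zero {f : X → ℂ} [Finite X] (hf : IsCharOn E f) {d : ℕ} (h1 : f 1 = d)
    (hC : ∀ c ∈ C, f c = d * lam c) {e : X} (he : e ∈ E) (hne : e ∉ C) : f e = 0 := by
  obtain ⟨b, hb, hbne⟩ : ∃ b ∈ E, lam ⁅b, e⁆ ≠ 1 := by
    by_contra h
    push Not at h
    exact hne (S.nondeg e he fun b hb => (S.pair_comm he hb).trans (h b hb))
  have hm1 : lam ⁅b, e⁆ = -1 := (S.lam_val _ (S.comm b hb e he)).resolve_left hbne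
  have hce : ⁅b, e⁆ ∈ E := S.le (S.comm b hb e he)
  by_cases hd : d = 0
  · subst hd
    obtain ⟨n, ρ, hρ⟩ := hf
    have h0 := congrFun hρ ⟨e, he⟩
    have h10 := congrFun hρ 1
    simp only [OneMemClass.coe_one, h1, Nat.cast_zero, Representation.char_one,
      Module.finrank_fin_fun, Nat.cast_eq_zero] at h10
    subst h10
    rw [← h0]
    simp [Representation.character, Subsingleton.elim (ρ _) 0]
  have hnorm : ‖f ⁅b, e⁆‖ = (f ((1 : E) : X)).re := by
    rw [OneMemClass.coe_one, h1, hC _ (S.comm b hb e he), hm1]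
    simp
  obtain ⟨ω, hω, hmul⟩ := Char.isCharacter_mul_of_norm_eq (g := (⟨_, hce⟩ : E)) hf hnorm
  simp only [OneMemClass.coe_one, h1, hC _ (S.comm b hb e he), hm1] at hω
  have hω1 : ω = -1 := by
    have : (d : ℂ) ≠ 0 := Nat.cast_ne_zero.2 hd
    refine mul_right_cancel₀ this ?_
    rw [← hω]; ring
  have h2 : f (⁅b, e⁆ * e) = -1 * f e := by
    rw [← hω1]; exact (hmul ⟨e, he⟩).1
  rw [show ⁅b, e⁆ * e = b * e * b⁻¹ by simp only [commutatorElement_def]; group,
    hf.class_fun hb he] at h2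
  linear_combination h2 / 2

theorem Setting.irr_on_E {f : X → ℂ} [Finite X] (hf : IsCharOn E f) {d : ℕ} (h1 : f 1 = d)
    (hcard : d * d * Nat.card C = Nat.card E) (hC : ∀ c ∈ C, f c = d * lam c) :
    Cfsg.IsIrrCharacter E fun e : E => f (e : X) := by
  classical
  haveI := Fintype.ofFinite X
  refine Char.isIrrCharacter_iff_classInner.2 ⟨hf, ?_⟩
  rw [Cfsg.classInner]
  have hE : (Nat.card E : ℂ) ≠ 0 := Char.card_ne_zero_complex
  rw [inv_mul_eq_iff_eq_mul₀ hE, mul_one]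
  have hterm : ∀ e : E, f (e : X) * conj (f (e : X)) =
      if (e : X) ∈ C then ((d * d : ℕ) : ℂ) else 0 := by
    intro e
    split_ifs with he
    · rw [hC _ he]
      rcases S.lam_val _ he with h | h <;> rw [h] <;> simp
    · rw [S.value_eq_zero hf h1 hC e.2 he]; simp
  rw [Finset.sum_congr rfl fun e _ => hterm e, ← Finset.sum_filter, Finset.sum_const, nsmul_eq_mul,
    ← Fintype.card_subtype, ← Nat.card_eq_fintype_card,
    show Nat.card {e : E // (e : X) ∈ C} = Nat.card C from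
      Nat.card_congr (subgroupOfEquivOfLe S.le).toEquiv, ← Nat.cast_mul, mul_comm (Nat.card C),
    hcard]

/-- Any two such characters agree on `E`. -/
theorem Setting.agree {f f' : X → ℂ} [Finite X] (hf : IsCharOn E f) (hf' : IsCharOn E f') {d : ℕ}
    (h1 : f 1 = d) (h1' : f' 1 = d) (hC : ∀ c ∈ C, f c = d * lam c)
    (hC' : ∀ c ∈ C, f' c = d * lam c) {e : X} (he : e ∈ E) : f e = f' e := by
  by_cases hc : e ∈ C
  · rw [hC e hc, hC' e hc]
  · rw [S.value_eq_zero hf h1 hC he hc, S.value_eq_zero hf' h1' hC' he hc]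

/-- Conjugating by an element of `E ⊔ T` or `K` does not change the values on `E`. -/
theorem Setting.invariant {f : X → ℂ} [Finite X] (hf : IsCharOn E f) {d : ℕ} (h1 : f 1 = d)
    (hC : ∀ c ∈ C, f c = d * lam c) {g e : X} (hg : g ∈ E ⊔ (K ⊔ T)) (he : e ∈ E) :
    f (g * e * g⁻¹) = f e := by
  by_cases hc : e ∈ C
  · rw [hC e hc, hC _ (S.normC g hg e hc), S.lam_conj g hg e hc]
  · rw [S.value_eq_zero hf h1 hC he hc, S.value_eq_zero hf h1 hC (S.normE g hg e he) fun h => hc ?_]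
    simpa [mul_assoc] using S.normC g⁻¹ (inv_mem hg) _ h

theorem Setting.exists_decomp {T₁ : Subgroup X} (hT : T₁ ≤ T) {g : X} (hg : g ∈ E ⊔ T₁) :
    ∃ e ∈ E, ∃ t ∈ T₁, g = e * t := by
  rw [Subgroup.sup_eq_closure] at hg
  induction hg using Subgroup.closure_induction with
  | mem x hx =>
    rcases hx with hx | hx
    · exact ⟨x, hx, 1, one_mem _, (mul_one x).symm⟩
    · exact ⟨1, one_mem _, x, hx, (one_mul x).symm⟩
  | one => exact ⟨1, one_mem _, 1, one_mem _, (one_mul 1).symm⟩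
  | mul x y _ _ hx hy =>
    obtain ⟨e, he, t, ht, rfl⟩ := hx
    obtain ⟨e', he', t', ht', rfl⟩ := hy
    exact ⟨e * (t * e' * t⁻¹), mul_mem he (S.normE t (S.mem_M_of_T (hT ht)) e' he'), t * t',
      mul_mem ht ht', by group⟩
  | inv x _ hx =>
    obtain ⟨e, he, t, ht, rfl⟩ := hx
    refine ⟨t⁻¹ * e⁻¹ * t, ?_, t⁻¹, inv_mem ht, by group⟩
    simpa using S.normE t⁻¹ (inv_mem (S.mem_M_of_T (hT ht))) _ (inv_mem he)

theorem Setting.decomp_unique {e e' t t' : X} (he : e ∈ E) (he' : e' ∈ E) (ht : t ∈ T) (ht' : t' ∈ T)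
    (h : e * t = e' * t') : e = e' ∧ t = t' := by
  have h1 : e'⁻¹ * e ∈ E ⊓ T := by
    refine ⟨E.mul_mem (E.inv_mem he') he, ?_⟩
    rw [show e'⁻¹ * e = t' * t⁻¹ by
      rw [eq_mul_inv_iff_mul_eq, mul_assoc, h, inv_mul_cancel_left]]
    exact T.mul_mem ht' (T.inv_mem ht)
  rw [S.disj, mem_bot, inv_mul_eq_one] at h1
  subst h1
  exact ⟨rfl, mul_left_cancel h⟩

theorem Setting.card_sup {E₁ T₁ : Subgroup X} (hE : E₁ ≤ E) (hT : T₁ ≤ T)
    (hnorm : ∀ t ∈ T₁, ∀ e ∈ E₁, t * e * t⁻¹ ∈ E₁) :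
    Nat.card (E₁ ⊔ T₁ : Subgroup X) = Nat.card E₁ * Nat.card T₁ := by
  rw [← Nat.card_prod]
  refine (Nat.card_congr (Equiv.ofBijective
    (fun p : E₁ × T₁ => (⟨p.1 * p.2, mul_mem (mem_sup_left p.1.2) (mem_sup_right p.2.2)⟩ :
      (E₁ ⊔ T₁ : Subgroup X))) ⟨?_, ?_⟩)).symm
  · rintro ⟨e, t⟩ ⟨e', t'⟩ h
    obtain ⟨h1, h2⟩ := S.decomp_unique (hE e.2) (hE e'.2) (hT t.2) (hT t'.2) (congrArg Subtype.val h)
    exact Prod.ext (Subtype.ext h1) (Subtype.ext h2)
  · rintro ⟨g, hg⟩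
    suffices ∃ e ∈ E₁, ∃ t ∈ T₁, g = e * t by
      obtain ⟨e, he, t, ht, rfl⟩ := this
      exact ⟨(⟨e, he⟩, ⟨t, ht⟩), rfl⟩
    rw [Subgroup.sup_eq_closure] at hg
    induction hg using Subgroup.closure_induction with
    | mem x hx =>
      rcases hx with hx | hx
      · exact ⟨x, hx, 1, one_mem _, (mul_one x).symm⟩
      · exact ⟨1, one_mem _, x, hx, (one_mul x).symm⟩
    | one => exact ⟨1, one_mem _, 1, one_mem _, (one_mul 1).symm⟩
    | mul x y _ _ hx hy =>
      obtain ⟨e, he, t, ht, rfl⟩ := hx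
      obtain ⟨e', he', t', ht', rfl⟩ := hy
      exact ⟨e * (t * e' * t⁻¹), mul_mem he (hnorm t ht e' he'), t * t', mul_mem ht ht', by group⟩
    | inv x _ hx =>
      obtain ⟨e, he, t, ht, rfl⟩ := hx
      refine ⟨t⁻¹ * e⁻¹ * t, ?_, t⁻¹, inv_mem ht, by group⟩
      simpa using hnorm t⁻¹ (inv_mem ht) _ (inv_mem he)

/-- Such a character is irreducible on `E ⊔ T₁`. -/
theorem Setting.irr_sup [Finite X] {T₁ : Subgroup X} {f : X → ℂ} (hf : IsCharOn (E ⊔ T₁) f) {d : ℕ}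
    (h1 : f 1 = d) (hcard : d * d * Nat.card C = Nat.card E) (hC : ∀ c ∈ C, f c = d * lam c) :
    Cfsg.IsIrrCharacter (E ⊔ T₁ : Subgroup X) fun g : (E ⊔ T₁ : Subgroup X) => f (g : X) := by
  have hle : E ≤ E ⊔ T₁ := le_sup_left
  refine GlauberCorr.irr_of_restrict (N := E.subgroupOf (E ⊔ T₁)) hf ?_
  exact Char.isIrrCharacter_comp (S.irr_on_E (hf.mono hle) h1 hcard hC)
    (subgroupOfEquivOfLe hle).toMonoidHom (subgroupOfEquivOfLe hle).surjective

/-- A character of `E` belonging to `lam`. -/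
theorem Setting.exists_char [Finite X] :
    ∃ (d : ℕ) (f : X → ℂ), IsCharOn E f ∧ f 1 = d ∧ 0 < d ∧
      d * d * Nat.card C = Nat.card E ∧ ∀ c ∈ C, f c = d * lam c := by
  classical
  haveI := Fintype.ofFinite X
  have hlC : IsCharOn C lam := isCharOn_of_mul S.lam_mul fun c hc => S.lam_ne_zero hc
  have hI : IsCharOn E (indOn C E lam) := isCharOn_indOn S.le hlC
  -- the value of the induced character on `C`
  have hIC : ∀ c ∈ C, indOn C E lam c = ((Nat.card E : ℂ) / Nat.card C) * lam c := by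
    intro c hc
    rw [indOn, Finset.sum_congr rfl fun y _ => show (if y ∈ E ∧ y⁻¹ * c * y ∈ C then
        lam (y⁻¹ * c * y) else 0) = (if y ∈ E then lam c else 0) by
      by_cases hy : y ∈ E
      · have h2 : y⁻¹ * c * y ∈ C := by
          simpa using S.normC y⁻¹ (S.mem_M_of_E (inv_mem hy)) c hc
        rw [if_pos ⟨hy, h2⟩, if_pos hy]
        simpa using S.lam_conj y⁻¹ (S.mem_M_of_E (inv_mem hy)) c hc
      · rw [if_neg fun h => hy h.1, if_neg hy],
      ← Finset.sum_filter, Finset.sum_const, nsmul_eq_mul, ← Fintype.card_subtype,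
      ← Nat.card_eq_fintype_card]
    ring
  have hI0 : (fun e : E => indOn C E lam e) ≠ 0 := by
    intro h
    have := congrFun h 1
    simp only [OneMemClass.coe_one, Pi.zero_apply, hIC 1 (one_mem C), S.lam_one, mul_one,
      div_eq_zero_iff, Nat.cast_eq_zero, Nat.card_pos.ne', or_self] at this
  obtain ⟨θ, n, hn, hθn⟩ := Char.exists_irr_constituent hI hI0
  have hrest := Char.isCharacter_sub_constituent hI hn hθn
  obtain ⟨d, hd0, hd⟩ := Char.irr_one_pos θ.2
  obtain ⟨r, hr⟩ := Char.isCharacter_one_nat hrest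
  -- the constituent is scalar on `C`
  have hθC : ∀ (c : X) (hc : c ∈ C), (θ : E → ℂ) ⟨c, S.le hc⟩ = d * lam c := by
    intro c hc
    obtain ⟨b, hb⟩ : ∃ b : E → ℂ, b = (fun e : E => indOn C E lam e) - (θ : E → ℂ) := ⟨_, rfl⟩
    have hsum : (θ : E → ℂ) ⟨c, S.le hc⟩ + b ⟨c, S.le hc⟩ =
        ((d : ℂ) + r) * lam c := by
      rw [hb, Pi.sub_apply, add_sub_cancel, hIC c hc]
      congr 1
      rw [Pi.sub_apply, hd, OneMemClass.coe_one, hIC 1 (one_mem C), S.lam_one, mul_one] at hr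
      rw [← hr]; ring
    have hbc : Cfsg.IsCharacter E b := hb ▸ hrest
    have n1 : ‖(θ : E → ℂ) ⟨c, S.le hc⟩‖ ≤ (d : ℝ) := by
      have := Char.isCharacter_norm_le (Char.isCharacter_of_irr θ.2) ⟨c, S.le hc⟩
      rwa [hd, Complex.natCast_re] at this
    have n2 : ‖b ⟨c, S.le hc⟩‖ ≤ (r : ℝ) := by
      have := Char.isCharacter_norm_le hbc ⟨c, S.le hc⟩
      rwa [hb, hr, Complex.natCast_re, ← hb] at this
    have r1 := (Complex.re_le_norm ((θ : E → ℂ) ⟨c, S.le hc⟩ * lam c))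
    have r2 := (Complex.re_le_norm (b ⟨c, S.le hc⟩ * lam c))
    have hn1 : ‖lam c‖ = 1 := by
      rcases S.lam_val c hc with h | h <;> rw [h] <;> simp
    rw [norm_mul, hn1, mul_one] at r1 r2
    have h3 : ((θ : E → ℂ) ⟨c, S.le hc⟩ * lam c).re + (b ⟨c, S.le hc⟩ * lam c).re = (d : ℝ) + r := by
      rw [← Complex.add_re, ← add_mul, hsum, mul_assoc, S.lam_mul_self hc, mul_one]
      simp
    have h4 : ((θ : E → ℂ) ⟨c, S.le hc⟩ * lam c).re = d := by linarith
    have h5 : ‖(θ : E → ℂ) ⟨c, S.le hc⟩ * lam c‖ = d := by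
      rw [norm_mul, hn1, mul_one]; linarith
    have h6 : (θ : E → ℂ) ⟨c, S.le hc⟩ * lam c = d := by
      refine Complex.ext (by rw [h4, Complex.natCast_re]) ?_
      rw [Complex.natCast_im]
      have h7 := Complex.sq_norm ((θ : E → ℂ) ⟨c, S.le hc⟩ * lam c)
      rw [h5, Complex.normSq_apply, h4] at h7
      exact mul_self_eq_zero.1 (by linarith)
    rw [← h6, mul_assoc, S.lam_mul_self hc, mul_one]
  let f : X → ℂ := fun x => if hx : x ∈ E then (θ : E → ℂ) ⟨x, hx⟩ else 0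
  have hfE : ∀ e : E, f (e : X) = (θ : E → ℂ) e := fun e => dif_pos e.2
  have hf : IsCharOn E f := by
    unfold IsCharOn
    rw [funext hfE]
    exact Char.isCharacter_of_irr θ.2
  have hf1 : f 1 = d := (hfE 1).trans hd
  have hfC : ∀ c ∈ C, f c = d * lam c := fun c hc => (hfE ⟨c, S.le hc⟩).trans (hθC c hc)
  refine ⟨d, f, hf, hf1, hd0, ?_, hfC⟩
  have hnorm := Char.classInner_irr_self θ.2
  have hE : (Nat.card E : ℂ) ≠ 0 := Char.card_ne_zero_complex
  rw [Cfsg.classInner, inv_mul_eq_iff_eq_mul₀ hE, mul_one] at hnorm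
  have hterm : ∀ e : E, (θ : E → ℂ) e * conj ((θ : E → ℂ) e) =
      if (e : X) ∈ C then ((d * d : ℕ) : ℂ) else 0 := by
    intro e
    rw [← hfE]
    split_ifs with he
    · rw [hfC _ he]
      rcases S.lam_val _ he with h | h <;> rw [h] <;> simp
    · rw [S.value_eq_zero hf hf1 hfC e.2 he]; simp
  rw [Finset.sum_congr rfl fun e _ => hterm e, ← Finset.sum_filter, Finset.sum_const, nsmul_eq_mul,
    ← Fintype.card_subtype, ← Nat.card_eq_fintype_card,
    show Nat.card {e : E // (e : X) ∈ C} = Nat.card C from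
      Nat.card_congr (subgroupOfEquivOfLe S.le).toEquiv, ← Nat.cast_mul, mul_comm (Nat.card C),
    Nat.cast_inj] at hnorm
  exact hnorm

/-- `E = C` : a linear character. -/
theorem Setting.linear_of_le (h : E ≤ C) :
    ∃ mu : X → ℂ, (∀ a ∈ E ⊔ T, ∀ b ∈ E ⊔ T, mu (a * b) = mu a * mu b) ∧
      (∀ a ∈ E ⊔ T, mu a ≠ 0) ∧ ∀ e ∈ E, ∀ t ∈ T, mu (e * t) = lam e := by
  classical
  have hdec := fun g (hg : g ∈ E ⊔ T) => S.exists_decomp le_rfl hg
  let μ : X → ℂ := fun g => if hg : g ∈ E ⊔ T then lam (hdec g hg).choose else 0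
  have hμ : ∀ e ∈ E, ∀ t ∈ T, μ (e * t) = lam e := fun e he t ht => by
    have hg : e * t ∈ E ⊔ T := mul_mem (mem_sup_left he) (mem_sup_right ht)
    simp only [μ, dif_pos hg]
    obtain ⟨he', t', ht', heq⟩ := (hdec _ hg).choose_spec
    rw [(S.decomp_unique he' he ht' ht heq.symm).1]
  refine ⟨μ, fun a ha b hb => ?_, fun a ha => ?_, hμ⟩
  · obtain ⟨e, he, t, ht, rfl⟩ := hdec a ha
    obtain ⟨e', he', t', ht', rfl⟩ := hdec b hb
    have he'' := S.normE t (S.mem_M_of_T ht) e' he'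
    rw [show e * t * (e' * t') = e * (t * e' * t⁻¹) * (t * t') by group,
      hμ _ (mul_mem he he'') _ (mul_mem ht ht'), hμ _ he _ ht, hμ _ he' _ ht',
      S.lam_mul _ (h he) _ (h he''), S.lam_conj t (S.mem_M_of_T ht) e' (h he')]
  · obtain ⟨e, he, t, ht, rfl⟩ := hdec a ha
    rw [hμ _ he _ ht]; exact S.lam_ne_zero (h he)

theorem Setting.good_of_le (h : E ≤ C) : Good E C T lam := by
  obtain ⟨μ, hmul, hne, hμ⟩ := S.linear_of_le h
  have hEC : E = C := le_antisymm h S.le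
  refine ⟨1, μ, isCharOn_of_mul hmul hne, ?_, one_pos, by rw [hEC]; ring, fun c hc => ?_⟩
  · rw [← mul_one (1 : X), hμ 1 (one_mem E) 1 (one_mem T), S.lam_one]; simp
  · rw [← mul_one c, hμ c (S.le hc) 1 (one_mem T), mul_one]; simp

/-- Multiplying by an element of `C` multiplies the value by the sign. -/
theorem Setting.scalar [Finite X] {G : Subgroup X} {f : X → ℂ} (hf : IsCharOn G f) (hCG : C ≤ G)
    {d : ℕ} (hd : 0 < d) (h1 : f 1 = d) (hC : ∀ c ∈ C, f c = d * lam c) {c x : X} (hc : c ∈ C)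
    (hx : x ∈ G) : f (c * x) = lam c * f x := by
  have hnorm : ‖f c‖ = (f ((1 : G) : X)).re := by
    rw [OneMemClass.coe_one, h1, hC c hc]
    rcases S.lam_val c hc with h | h <;> rw [h] <;> simp
  obtain ⟨ω, hω, hmul⟩ := Char.isCharacter_mul_of_norm_eq (g := (⟨c, hCG hc⟩ : G)) hf hnorm
  simp only [OneMemClass.coe_one, h1, hC c hc] at hω
  have hω1 : ω = lam c := mul_right_cancel₀ (b := (d : ℂ)) (Nat.cast_ne_zero.2 hd.ne')
    (by rw [← hω]; ring)
  rw [← hω1]
  exact (hmul ⟨x, hx⟩).1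

end Setting

end Cfsg.Agent.Char8Extra
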