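import Cfsg.Agent.Char8Extra.Lift

/-!
# The irreducible sections
-/

set_option autoImplicit false
set_option linter.style.haveILetI false
set_option linter.unusedSectionVars false
set_option linter.unusedFintypeInType false

namespace Cfsg.Agent.Char8Extra

open Subgroup
open scoped commutatorElement

universe u

/-- The induction hypothesis below `n`. -/
def Below (n : ℕ) : Prop :=
  ∀ (Z : Type u) [Group Z] [Finite Z] (E C K T : Subgroup Z) (lam : Z → ℂ),
    Setting E C K T lam → C.relIndex E < n → Good E C T lam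

variable {X : Type u} [Group X] [Finite X] {E C K T : Subgroup X} {lam : X → ℂ}

theorem card_eq_relIndex_mul {A B : Subgroup X} (h : A ≤ B) :
    Nat.card B = A.relIndex B * Nat.card A := by
  have h1 := relIndex_mul_relIndex ⊥ A B bot_le h
  simp only [relIndex_bot_left] at h1
  rw [← h1, mul_comm]

theorem Setting.good_of_inv_isotropic (S : Setting E C K T lam)
    (IH : Below.{u} (C.relIndex E)) {W : Subgroup X} (hW : Inv E C K T W) (hne : W ≠ C)
    (hiso : ∀ a ∈ W, ∀ b ∈ W, lam ⁅a, b⁆ = 1) : Good E C T lam := by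
  obtain ⟨mu, Sμ, hmu⟩ := S.isotropic_setting hW hiso
  refine S.good_of_isotropic hW hmu (IH X _ _ K T mu Sμ ?_)
  have h1 := S.card_orth hW.le hW.ge
  rw [card_eq_relIndex_mul Sμ.le, card_eq_relIndex_mul S.le, card_eq_relIndex_mul hW.ge] at h1
  set a := C.relIndex W
  set m := W.relIndex (S.orth W hW.le)
  have h2 : m * a * a = C.relIndex E := by
    have hpos : 0 < Nat.card C * Nat.card C := Nat.mul_pos Nat.card_pos Nat.card_pos
    refine Nat.eq_of_mul_eq_mul_right hpos ?_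
    linarith
  have ha : 2 ≤ a := by
    rcases Nat.lt_or_ge a 2 with h | h
    · exfalso
      have ha0 : a ≠ 0 := fun h0 => by
        have := card_eq_relIndex_mul hW.ge
        rw [show C.relIndex W = 0 from h0, zero_mul] at this
        exact Nat.card_pos.ne' this
      have : a = 1 := by omega
      exact hne (le_antisymm (relIndex_eq_one.1 this) hW.ge)
    · exact h
  have hm : 0 < m := Nat.pos_of_ne_zero fun h0 => by
    have := card_eq_relIndex_mul Sμ.le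
    rw [show W.relIndex (S.orth W hW.le) = 0 from h0, zero_mul] at this
    exact Nat.card_pos.ne' this
  rw [← h2]
  calc m < m * 2 := by omega
    _ ≤ m * a := Nat.mul_le_mul_left _ ha
    _ ≤ m * a * a := Nat.le_mul_of_pos_right _ (by omega)

theorem relIndex_lt {A B D : Subgroup X} (hAB : A ≤ B) (hBD : B ≤ D) (hne : B ≠ D) :
    A.relIndex B < A.relIndex D := by
  refine Nat.lt_of_mul_lt_mul_right (a := Nat.card A) ?_
  rw [← card_eq_relIndex_mul hAB, ← card_eq_relIndex_mul (hAB.trans hBD)]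
  exact lt_of_le_of_ne (card_le_of_le hBD)
    fun h => hne (eq_of_le_of_card_ge hBD h.ge)

variable {V : Type u} [AddCommGroup V] [Module (ZMod 2) V] [Finite V] {q : X → V} {bb : V → V → ℂ}
  {ρ : Representation (ZMod 2) K V} {τ : Representation (ZMod 2) T V}
  {Y : Type u} [Group Y] [Finite Y] {π : X → Y} {c : X → MulAut Y}

/-- An invariant isotropic subspace after replacing the odd group by an isometry. -/
theorem Setting.good_of_involution (S : Setting E C K T lam) (M : Model E C K T lam q bb ρ τ)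
    (Cv : Cover E C K T lam π c) (IH : Below.{u} (C.relIndex E)) (hcm : ∃ x ∈ C, lam x = -1)
    {l : ℕ} (hl : Odd l) {A : Module.End (ZMod 2) V} (hAl : A ^ l = 1)
    (hcomm : ∀ g, ρ g * A = A * ρ g) (hiso : ∀ u v, bb (A u) (A v) = bb u v)
    (hfree : ∀ v, A v = v → v = 0) (hT : ∀ t, ∃ i : ℕ, τ t * A * τ t⁻¹ = A ^ i)
    {U : Submodule (ZMod 2) V} (hU0 : U ≠ ⊥) (hUA : ∀ v ∈ U, A v ∈ U)
    (hUT : ∀ t, ∀ v ∈ U, τ t v ∈ U) (hUiso : ∀ x ∈ U, ∀ y ∈ U, bb x y = 1) : Good E C T lam := by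
  classical
  have hinj : Function.Injective A := by
    intro v w h
    obtain ⟨m, hm⟩ := hl
    have h1 := congrArg (fun x => (A ^ (2 * m)) x) h
    simp only [← Module.End.mul_apply, ← pow_succ, ← hm, hAl, Module.End.one_apply] at h1
    exact h1
  obtain ⟨φ, hφ⟩ := Cv.exists_lift M S hcm A hcomm hiso hinj
  have hφl : φ ^ l = 1 := Cv.unique M S (A := 1) (hAl ▸ hφ.pow Cv M l) (Cv.lifts_one M)
  haveI : Finite (MulAut Y) :=
    Finite.of_injective (fun ψ : MulAut Y => (ψ : Y → Y)) DFunLike.coe_injective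
  have hTφ : ∀ t : T, ∃ i : ℕ, c t * φ * (c t)⁻¹ = φ ^ i := by
    intro t
    obtain ⟨i, hi⟩ := hT t
    refine ⟨i, Cv.unique M S ⟨fun e he f hf h => ?_, fun k hk y => ?_, fun x hx => ?_⟩
      (hφ.pow Cv M i)⟩
    · have htM := S.mem_M_of_T t.2
      have he' : (t : X)⁻¹ * e * (t : X)⁻¹⁻¹ ∈ E := S.normE _ (inv_mem htM) e he
      obtain ⟨f₀, hf₀, hf₀'⟩ := Cv.surj (φ (π ((t : X)⁻¹ * e * (t : X)⁻¹⁻¹)))
      have h1 := hφ.induces _ he' f₀ hf₀ hf₀'.symm
      rw [MulAut.mul_apply, MulAut.mul_apply, ← Cv.c_inv htM, Cv.act _ (inv_mem htM) e he, ← hf₀',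
        Cv.act _ htM f₀ hf₀] at h
      rw [(Cv.lifts_one M).induces _ (S.normE _ htM f₀ hf₀) f hf h, Module.End.one_apply,
        ← M.tau t f₀ hf₀, h1, show q ((t : X)⁻¹ * e * (t : X)⁻¹⁻¹) = τ t⁻¹ (q e) from
          (M.tau t⁻¹ e he).symm, ← hi]
      rfl
    · have htM := S.mem_M_of_T t.2
      have hk' : (t : X)⁻¹ * k * (t : X)⁻¹⁻¹ ∈ K := S.normK _ (inv_mem t.2) k hk
      have e1 : (c t)⁻¹ * c k = c ((t : X)⁻¹ * k * (t : X)⁻¹⁻¹) * (c t)⁻¹ := by
        rw [← Cv.c_inv htM, ← Cv.cmul _ (inv_mem htM) _ (S.mem_M_of_K hk),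
          ← Cv.cmul _ (S.mem_M_of_K hk') _ (inv_mem htM)]
        congr 1; group
      have e2 : φ * c ((t : X)⁻¹ * k * (t : X)⁻¹⁻¹) = c ((t : X)⁻¹ * k * (t : X)⁻¹⁻¹) * φ :=
        MulEquiv.ext fun z => hφ.commK _ hk' z
      have e3 : c t * c ((t : X)⁻¹ * k * (t : X)⁻¹⁻¹) = c k * c t := by
        rw [← Cv.cmul _ htM _ (S.mem_M_of_K hk'), ← Cv.cmul _ (S.mem_M_of_K hk) _ htM]
        congr 1; group
      have e4 : c t * φ * (c t)⁻¹ * c k = c k * (c t * φ * (c t)⁻¹) := by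
        rw [mul_assoc (c t * φ), e1, ← mul_assoc, mul_assoc (c t) φ, e2, ← mul_assoc, e3]
        simp only [mul_assoc]
      exact DFunLike.congr_fun e4 y
    · rw [MulAut.mul_apply, MulAut.mul_apply, ← Cv.c_inv (S.mem_M_of_T t.2),
        Cv.cfix S (inv_mem (S.mem_M_of_T t.2)) hx, hφ.fix x hx, Cv.cfix S (S.mem_M_of_T t.2) hx]
  -- the new ambient group
  let Z := Y ⋊[MonoidHom.id (MulAut Y)] MulAut Y
  haveI : Finite Z := Finite.of_injective (fun z : Z => (z.left, z.right)) fun a b h =>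
    SemidirectProduct.ext (congrArg Prod.fst h) (congrArg Prod.snd h)
  let il : Y →* Z := SemidirectProduct.inl
  let ir : MulAut Y →* Z := SemidirectProduct.inr
  have hact : ∀ ψ y, ir ψ * il y * (ir ψ)⁻¹ = il (ψ y) := fun ψ y => by
    simp only [il, ir]
    rw [← map_inv]
    exact (SemidirectProduct.inl_aut (φ := MonoidHom.id (MulAut Y)) ψ y).symm
  let cT : T →* MulAut Y := MonoidHom.mk' (fun t => c t)
    fun s t => Cv.cmul _ (S.mem_M_of_T s.2) _ (S.mem_M_of_T t.2)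
  let πh : E →* Y := MonoidHom.mk' (fun e => π e) fun a b => Cv.mul _ a.2 _ b.2
  let E' : Subgroup Z := il.range
  let C' : Subgroup Z := ((C.subgroupOf E).map πh).map il
  let K' : Subgroup Z := zpowers (ir φ)
  let T' : Subgroup Z := (ir.comp cT).range
  have memE : ∀ x, x ∈ E' → ∃ e ∈ E, il (π e) = x := by
    rintro x ⟨y, rfl⟩
    obtain ⟨e, he, rfl⟩ := Cv.surj y
    exact ⟨e, he, rfl⟩
  have memC : ∀ x, x ∈ C' → ∃ e ∈ C, il (π e) = x := by
    rintro x ⟨y, ⟨e, he, rfl⟩, rfl⟩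
    exact ⟨e, he, rfl⟩
  have inC : ∀ e ∈ C, il (π e) ∈ C' := fun e he => ⟨π e, ⟨⟨e, S.le he⟩, he, rfl⟩, rfl⟩
  have inE : ∀ e, il (π e) ∈ E' := fun e => ⟨π e, rfl⟩
  have memK : ∀ x, x ∈ K' → ∃ j : ℕ, ir (φ ^ j) = x := by
    intro x hx
    obtain ⟨j, hj⟩ := (isOfFinOrder_of_finite (ir φ)).mem_powers_iff_mem_zpowers.2 hx
    exact ⟨j, (map_pow ir φ j).trans hj⟩
  let lam' : Z → ℂ := fun x => if h : ∃ e ∈ C, il (π e) = x then lam h.choose else 0
  have hlam' : ∀ e ∈ C, lam' (il (π e)) = lam e := fun e he => by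
    have h : ∃ e' ∈ C, il (π e') = il (π e) := ⟨e, he, rfl⟩
    simp only [lam', dif_pos h]
    exact Cv.lam_congr S h.choose_spec.1 he (SemidirectProduct.inl_injective h.choose_spec.2)
  have hπcomm : ∀ a ∈ E, ∀ b ∈ E, ⁅il (π a), il (π b)⁆ = il (π ⁅a, b⁆) := fun a ha b hb => by
    simp only [commutatorElement_def]
    rw [Cv.mul _ (mul_mem (mul_mem ha hb) (inv_mem ha)) _ (inv_mem hb),
      Cv.mul _ (mul_mem ha hb) _ (inv_mem ha), Cv.mul a ha b hb, Cv.map_inv ha, Cv.map_inv hb]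
    simp only [map_mul, map_inv]
  have hcent : ∀ g ∈ E' ⊔ (K' ⊔ T'), ∀ x ∈ C', g * x * g⁻¹ = x := by
    suffices h : E' ⊔ (K' ⊔ T') ≤ Subgroup.centralizer (C' : Set Z) by
      intro g hg x hx
      rw [← Subgroup.mem_centralizer_iff.1 (h hg) x hx, mul_inv_cancel_right]
    have key : ∀ g, (∀ e ∈ C, g * il (π e) * g⁻¹ = il (π e)) →
        g ∈ Subgroup.centralizer (C' : Set Z) := fun g h =>
      Subgroup.mem_centralizer_iff.2 fun x hx => by
        obtain ⟨e, he, rfl⟩ := memC x hx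
        exact (mul_inv_eq_iff_eq_mul.1 (h e he)).symm
    refine sup_le ?_ (sup_le ?_ ?_)
    · rintro g ⟨y, rfl⟩
      refine key _ fun e he => ?_
      rw [← map_inv, ← map_mul, ← map_mul, ← Cv.central S he y, mul_inv_cancel_right]
    · rw [zpowers_le]
      exact key _ fun e he => by rw [hact, hφ.fix e he]
    · rintro g ⟨t, rfl⟩
      exact key _ fun e he => by
        show ir (c t) * il (π e) * (ir (c t))⁻¹ = _
        rw [hact, Cv.cfix S (S.mem_M_of_T t.2) he]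
  have hE' : ∀ x : Z, x ∈ E' ↔ x.right = 1 := fun x =>
    ⟨fun ⟨_, h⟩ => h ▸ rfl, fun h => ⟨x.left, SemidirectProduct.ext rfl h.symm⟩⟩
  have hnE : ∀ g : Z, ∀ x ∈ E', g * x * g⁻¹ ∈ E' := by
    intro g x hx
    rw [hE'] at hx ⊢
    rw [SemidirectProduct.mul_right, SemidirectProduct.mul_right, SemidirectProduct.inv_right, hx,
      mul_one, mul_inv_cancel]
  have S' : Setting E' C' K' T' lam' := by
    refine ⟨fun x hx => ?_, fun a ha b hb => ?_, fun x hx => ?_, fun g hg x hx => ?_,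
      fun x hx => ?_, fun a ha b hb => ?_, fun x hx h => ?_, fun g _ x hx => hnE g x hx,
      fun g hg x hx => ?_, fun t ht k hk => ?_, fun x hx h => ?_, ?_, ?_, ?_⟩
    · obtain ⟨e, -, rfl⟩ := memC x hx
      exact inE e
    · obtain ⟨u, hu, rfl⟩ := memC a ha
      obtain ⟨v, hv, rfl⟩ := memC b hb
      rw [← map_mul, ← Cv.mul _ (S.le hu) _ (S.le hv), hlam' _ hu, hlam' _ hv,
        hlam' _ (mul_mem hu hv), S.lam_mul u hu v hv]
    · obtain ⟨e, he, rfl⟩ := memC x hx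
      rw [hlam' e he]; exact S.lam_val e he
    · rw [hcent g hg x hx]
    · obtain ⟨e, he, rfl⟩ := memE x hx
      rw [← map_mul, ← Cv.mul e he e he]
      exact inC _ (S.sq e he)
    · obtain ⟨u, hu, rfl⟩ := memE a ha
      obtain ⟨v, hv, rfl⟩ := memE b hb
      rw [hπcomm u hu v hv]
      exact inC _ (S.comm u hu v hv)
    · obtain ⟨e, he, rfl⟩ := memE x hx
      refine inC e (S.nondeg e he fun b hb => ?_)
      rw [← hlam' _ (S.comm e he b hb), ← hπcomm e he b hb]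
      exact h _ (inE b)
    · rw [hcent g hg x hx]; exact hx
    · obtain ⟨t, rfl⟩ := ht
      obtain ⟨j, hj⟩ := mem_zpowers_iff.1 hk
      subst hj
      obtain ⟨i, hi⟩ := hTφ t
      have e1 : (ir.comp cT) t * ir φ * ((ir.comp cT) t)⁻¹ = ir φ ^ i := by
        show ir (c t) * ir φ * (ir (c t))⁻¹ = _
        rw [← map_inv, ← map_mul, ← map_mul, hi, map_pow]
      rw [← conj_zpow, e1]
      exact zpow_mem (pow_mem (mem_zpowers _) i) j
    · obtain ⟨e, he, rfl⟩ := memE x hx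
      refine inC e ((M.zero_iff e he).1 (hfree _ ?_))
      obtain ⟨z, hz, hz'⟩ := memC _ (h (ir φ) (mem_zpowers _))
      rw [commutatorElement_def, hact, ← map_inv, ← map_mul] at hz'
      obtain ⟨f, hf, hf'⟩ := Cv.surj (φ (π e))
      have h1 := hφ.induces e he f hf hf'.symm
      have h2 : π z = π (f * e⁻¹) := by
        rw [Cv.mul f hf _ (inv_mem he), hf', Cv.map_inv he]
        exact SemidirectProduct.inl_injective hz'
      have h3 := (Cv.eq_iff (S.le hz) (mul_mem hf (inv_mem he))).1 h2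
      have h4 : f * e⁻¹ ∈ C := by simpa using mul_mem hz h3.1
      have h5 := (M.zero_iff _ (mul_mem hf (inv_mem he))).2 h4
      rw [M.add f hf _ (inv_mem he), M.map_inv he, h1] at h5
      calc A (q e) = A (q e) + (q e + q e) := by rw [ZModModule.add_self, add_zero]
        _ = q e := by rw [← add_assoc, h5, zero_add]
    · rw [eq_bot_iff]
      rintro x ⟨hx, ⟨t, rfl⟩⟩
      have h1 : cT t = 1 := (hE' _).1 hx
      rw [mem_bot, MonoidHom.comp_apply, h1, map_one]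
    · exact S.two.of_surjective _ (ir.comp cT).rangeRestrict_surjective
    · show Odd (Nat.card (zpowers (ir φ)))
      rw [Nat.card_zpowers]
      exact hl.of_dvd_nat (orderOf_dvd_of_pow_eq_one (by rw [← map_pow, hφl, map_one]))
  have hidx : C'.relIndex E' = C.relIndex E := by
    show (((C.subgroupOf E).map πh).map il).relIndex il.range = _
    rw [MonoidHom.range_eq_map, relIndex_map_map_of_injective _ _ SemidirectProduct.inl_injective,
      relIndex_top_right, index_map_eq _ (fun y => ?_) (fun e he => ?_)]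
    · rfl
    · obtain ⟨e, he, rfl⟩ := Cv.surj y
      exact ⟨⟨e, he⟩, rfl⟩
    · exact ((Cv.one_iff e e.2).1 he).1
  -- the isotropic subgroup
  let W' : Subgroup Z := (((M.pre U).subgroupOf E).map πh).map il
  have memW : ∀ x, x ∈ W' → ∃ e ∈ M.pre U, il (π e) = x := by
    rintro x ⟨y, ⟨e, he, rfl⟩, rfl⟩
    exact ⟨e, he, rfl⟩
  have inW : ∀ e ∈ M.pre U, il (π e) ∈ W' := fun e he => ⟨π e, ⟨⟨e, he.1⟩, he, rfl⟩, rfl⟩
  have hW' : Inv E' C' K' T' W' := by
    refine ⟨fun x hx => ?_, fun x hx => ?_, fun g hg x hx => ?_, fun g hg x hx => ?_⟩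
    · obtain ⟨e, he, rfl⟩ := memC x hx
      exact inW e ⟨S.le he, by rw [(M.zero_iff e (S.le he)).2 he]; exact U.zero_mem⟩
    · obtain ⟨e, -, rfl⟩ := memW x hx
      exact inE e
    · obtain ⟨j, rfl⟩ := memK g hg
      obtain ⟨e, he, rfl⟩ := memW x hx
      obtain ⟨f, hf, hf'⟩ := Cv.surj ((φ ^ j) (π e))
      rw [hact, ← hf']
      refine inW f ⟨hf, ?_⟩
      rw [(hφ.pow Cv M j).induces e he.1 f hf hf'.symm]
      clear hf' hg
      induction j with
      | zero => rw [pow_zero]; exact he.2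
      | succ j ih => rw [pow_succ', Module.End.mul_apply]; exact hUA _ ih
    · obtain ⟨t, rfl⟩ := hg
      obtain ⟨e, he, rfl⟩ := memW x hx
      show ir (c t) * il (π e) * (ir (c t))⁻¹ ∈ W'
      rw [hact, Cv.act _ (S.mem_M_of_T t.2) e he.1]
      refine inW _ ⟨S.normE _ (S.mem_M_of_T t.2) e he.1, ?_⟩
      rw [← M.tau t e he.1]
      exact hUT t _ he.2
  have hne : W' ≠ C' := by
    intro h
    refine hU0 (M.eq_bot_of_pre fun e he => ?_)
    obtain ⟨z, hz, hz'⟩ := memC _ (h ▸ inW e he)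
    have h3 := (Cv.eq_iff (S.le hz) he.1).1 (SemidirectProduct.inl_injective hz')
    simpa using mul_mem hz h3.1
  obtain ⟨d, f', hf', hf'1, hd, hcard, hfC⟩ :=
    S'.good_of_inv_isotropic (hidx.symm ▸ IH) hW' hne (fun a ha b hb => by
      obtain ⟨u, hu, rfl⟩ := memW a ha
      obtain ⟨v, hv, rfl⟩ := memW b hb
      rw [hπcomm u hu.1 v hv.1, hlam' _ (S.comm u hu.1 v hv.1)]
      exact (M.isotropic_iff).2 hUiso u hu v hv)
  -- pulling back
  have hdec := fun g : (E ⊔ T : Subgroup X) => S.exists_decomp le_rfl g.2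
  choose ep hepE tp htpT hdec using hdec
  have hmem : ∀ g, il (π (ep g)) * ir (c (tp g)) ∈ E' ⊔ T' := fun g =>
    mul_mem (mem_sup_left (inE _)) (mem_sup_right ⟨⟨tp g, htpT g⟩, rfl⟩)
  let Ψ : (E ⊔ T : Subgroup X) →* (E' ⊔ T' : Subgroup Z) := MonoidHom.mk'
    (fun g => ⟨_, hmem g⟩) fun a b => by
    apply Subtype.ext
    show il (π (ep (a * b))) * ir (c (tp (a * b))) =
      il (π (ep a)) * ir (c (tp a)) * (il (π (ep b)) * ir (c (tp b)))
    have htM := S.mem_M_of_T (htpT a)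
    have hconj := S.normE _ htM _ (hepE b)
    obtain ⟨e1, e2⟩ := S.decomp_unique (hepE (a * b)) (mul_mem (hepE a) hconj) (htpT (a * b))
      (mul_mem (htpT a) (htpT b)) (by
        rw [← hdec (a * b), Subgroup.coe_mul, hdec a, hdec b]
        group)
    rw [e1, e2, Cv.mul _ (hepE a) _ hconj, map_mul, ← Cv.act _ htM _ (hepE b),
      Cv.cmul _ htM _ (S.mem_M_of_T (htpT b)), map_mul, ← hact]
    simp only [mul_assoc]
    exact congrArg _ (congrArg _ (congrArg _ (inv_mul_cancel_left _ _)))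
  let f : X → ℂ := fun x => if hx : x ∈ E ⊔ T then f' (Ψ ⟨x, hx⟩) else 0
  have hfdef : ∀ g : (E ⊔ T : Subgroup X), f g = f' (Ψ g) := fun g => dif_pos g.2
  have hfC' : ∀ x ∈ C, f x = d * lam x := by
    intro x hx
    have hx' : x ∈ E ⊔ T := mem_sup_left (S.le hx)
    rw [hfdef ⟨x, hx'⟩, ← hlam' x hx, ← hfC _ (inC x hx)]
    congr 1
    show il (π (ep ⟨x, hx'⟩)) * ir (c (tp ⟨x, hx'⟩)) = il (π x)
    obtain ⟨e1, e2⟩ := S.decomp_unique (hepE ⟨x, hx'⟩) (S.le hx) (htpT ⟨x, hx'⟩) (one_mem T)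
      (by rw [← hdec]; simp)
    rw [e1, e2, Cv.c_one, map_one, mul_one]
  refine ⟨d, f, ?_, ?_, hd, ?_, hfC'⟩
  · unfold IsCharOn
    rw [funext hfdef]
    exact CharInd.isCharacter_comp Ψ hf'
  · rw [hfC' 1 (one_mem C), S.lam_one, mul_one]
  · rw [card_eq_relIndex_mul S'.le, hidx] at hcard
    rw [card_eq_relIndex_mul S.le, Nat.eq_of_mul_eq_mul_right Nat.card_pos hcard]

/-- A subgroup of `T` acting trivially on the cover with cyclic quotient. -/
theorem Setting.good_of_centralizing (S : Setting E C K T lam) (Cv : Cover E C K T lam π c)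
    {T₁ : Subgroup X} (hT₁ : T₁ ≤ T) (hnorm : ∀ t ∈ T, ∀ s ∈ T₁, t * s * t⁻¹ ∈ T₁)
    (htriv : ∀ s ∈ T₁, c s = 1) {t₀ : X} (ht₀ : t₀ ∈ T)
    (hcover : ∀ t ∈ T, ∃ i : ℤ, (t₀ ^ i)⁻¹ * t ∈ T₁) : Good E C T lam := by
  classical
  obtain ⟨d, f₀, hf₀, hf₀1, hd, hcard, hf₀C⟩ := S.exists_char
  let πh : E →* Y := MonoidHom.mk' (fun e => π e) fun a b => Cv.mul _ a.2 _ b.2
  have hπs : Function.Surjective πh := fun y => by
    obtain ⟨e, he, rfl⟩ := Cv.surj y
    exact ⟨⟨e, he⟩, rfl⟩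
  obtain ⟨θ, hθ, hθf⟩ := Char.isCharacter_exists_descend hf₀ πh.ker fun e he => by
    obtain ⟨h1, h2⟩ := (Cv.one_iff e e.2).1 he
    simp only [OneMemClass.coe_one]
    rw [hf₀C _ h1, h2, mul_one, hf₀1]
  let ι := QuotientGroup.quotientKerEquivOfSurjective πh hπs
  let θY : Y → ℂ := fun y => θ (ι.symm y)
  have hθY : ∀ e ∈ E, θY (π e) = f₀ e := fun e he => by
    show θ (ι.symm (πh ⟨e, he⟩)) = _
    rw [show ι.symm (πh ⟨e, he⟩) = ((⟨e, he⟩ : E) : E ⧸ πh.ker) from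
      ι.symm_apply_apply ((⟨e, he⟩ : E) : E ⧸ πh.ker), ← hθf]
  set G := E ⊔ T₁ with hG
  have hdec := fun g : G => S.exists_decomp hT₁ g.2
  choose ep hepE tp htpT hdec using hdec
  let Θ : G →* Y := MonoidHom.mk' (fun g => π (ep g)) fun a b => by
    have htM := S.mem_M_of_T (hT₁ (htpT a))
    have hconj := S.normE _ htM _ (hepE b)
    obtain ⟨e1, -⟩ := S.decomp_unique (hepE (a * b)) (mul_mem (hepE a) hconj) (hT₁ (htpT (a * b)))
      (hT₁ (mul_mem (htpT a) (htpT b))) (by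
        rw [← hdec (a * b), Subgroup.coe_mul, hdec a, hdec b]
        group)
    show π (ep (a * b)) = π (ep a) * π (ep b)
    rw [e1, Cv.mul _ (hepE a) _ hconj, ← Cv.act _ htM _ (hepE b), htriv _ (htpT a),
      MulAut.one_apply]
  let f : X → ℂ := fun x => if hx : x ∈ G then θY (Θ ⟨x, hx⟩) else 0
  have hfdef : ∀ g : G, f g = θY (Θ g) := fun g => dif_pos g.2
  have hfe : ∀ e ∈ E, ∀ s ∈ T₁, f (e * s) = f₀ e := by
    intro e he s hs
    have hg : e * s ∈ G := mul_mem (mem_sup_left he) (mem_sup_right hs)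
    rw [hfdef ⟨_, hg⟩]
    show θY (π (ep ⟨_, hg⟩)) = _
    obtain ⟨e1, -⟩ := S.decomp_unique (hepE ⟨_, hg⟩) he (hT₁ (htpT ⟨_, hg⟩)) (hT₁ hs) (hdec _).symm
    rw [e1, hθY e he]
  have hfC : ∀ x ∈ C, f x = d * lam x := fun x hx => by
    rw [← mul_one x, hfe x (S.le hx) 1 (one_mem T₁), mul_one, hf₀C x hx]
  have hfc : IsCharOn G f := by
    unfold IsCharOn
    rw [funext hfdef]
    exact CharInd.isCharacter_comp (ι.symm.toMonoidHom.comp Θ) hθ
  have hf1 : f 1 = d := by rw [hfC 1 (one_mem C), S.lam_one, mul_one]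
  have hirr := (S.mono_T hT₁).irr_sup hfc hf1 hcard hfC
  have hnormG : ∀ g ∈ E ⊔ T, ∀ x ∈ G, g * x * g⁻¹ ∈ G := by
    intro g hg x hx
    obtain ⟨e, he, t, ht, rfl⟩ := S.exists_decomp le_rfl hg
    have h2 : t * x * t⁻¹ ∈ G :=
      Setting.conj_sup_mem (fun w hw => S.normE t (S.mem_M_of_T ht) w hw) (hnorm t ht) hx
    rw [show e * t * x * (e * t)⁻¹ = e * (t * x * t⁻¹) * e⁻¹ by group]
    exact mul_mem (mul_mem (mem_sup_left he) h2) (inv_mem (mem_sup_left he))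
  obtain ⟨F, hF, hFres⟩ := extend_cyclic (sup_le_sup_left hT₁ _) hnormG t₀ (mem_sup_right ht₀)
    (fun g hg => by
      obtain ⟨e, he, t, ht, rfl⟩ := S.exists_decomp le_rfl hg
      obtain ⟨i, hi⟩ := hcover t ht
      have hti : (t₀ ^ i)⁻¹ ∈ T := inv_mem (zpow_mem ht₀ i)
      refine ⟨i, (t₀ ^ i)⁻¹ * e * (t₀ ^ i)⁻¹⁻¹ * ((t₀ ^ i)⁻¹ * t),
        mul_mem (mem_sup_left (S.normE _ (S.mem_M_of_T hti) e he)) (mem_sup_right hi), by group⟩)
    hirr (fun g hg x hx => by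
      obtain ⟨e₀, he₀, t, ht, rfl⟩ := S.exists_decomp le_rfl hg
      obtain ⟨e, he, s, hs, rfl⟩ := S.exists_decomp hT₁ hx
      have hg : e₀ * t ∈ E ⊔ T := mul_mem (mem_sup_left he₀) (mem_sup_right ht)
      have hgM : e₀ * t ∈ E ⊔ (K ⊔ T) := mul_mem (S.mem_M_of_E he₀) (S.mem_M_of_T ht)
      have hs' := hnorm t ht s hs
      have hge := S.normE _ hgM e he
      set s' := t * s * t⁻¹ with hs'def
      have hz : e₀ * (s' * e₀⁻¹ * s'⁻¹) ∈ E :=
        mul_mem he₀ (S.normE s' (S.mem_M_of_T (hT₁ hs')) _ (inv_mem he₀))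
      rw [show e₀ * t * (e * s) * (e₀ * t)⁻¹ =
          (e₀ * t * e * (e₀ * t)⁻¹) * (e₀ * (s' * e₀⁻¹ * s'⁻¹)) * s' by rw [hs'def]; group,
        hfe _ (mul_mem hge hz) _ hs', hfe e he s hs, ← hθY _ (mul_mem hge hz), Cv.mul _ hge _ hz,
        Cv.mul _ he₀ _ (S.normE s' (S.mem_M_of_T (hT₁ hs')) _ (inv_mem he₀)),
        ← Cv.act s' (S.mem_M_of_T (hT₁ hs')) _ (inv_mem he₀), htriv s' hs', MulAut.one_apply,
        Cv.map_inv he₀, mul_inv_cancel, mul_one, hθY _ hge]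
      exact S.invariant hf₀ hf₀1 hf₀C hgM he)
  refine ⟨d, F, hF, ?_, hd, hcard, fun x hx => ?_⟩
  · rw [hFres 1 (one_mem _), hf1]
  · rw [hFres x (mem_sup_left (S.le hx)), hfC x hx]

end Cfsg.Agent.Char8Extra
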