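import Cfsg.Agent.Char8Extra.Model

/-!
# Lifting a symplectic isometry to an automorphism of the cover
-/

set_option autoImplicit false
set_option linter.style.haveILetI false
set_option linter.unusedSectionVars false
set_option linter.unusedFintypeInType false

namespace Cfsg.Agent.Char8Extra

open Subgroup
open scoped commutatorElement

universe u

variable {X : Type u} [Group X] [Finite X] {E C K T : Subgroup X} {lam : X → ℂ}
  {Y : Type u} [Group Y] [Finite Y] {π : X → Y} {c : X → MulAut Y}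
  (Cv : Cover E C K T lam π c)

section Cover

include Cv

theorem Cover.map_one : π 1 = 1 := by
  have h := Cv.mul 1 (one_mem E) 1 (one_mem E)
  rw [mul_one] at h
  exact left_eq_mul.1 h

theorem Cover.map_inv {e : X} (he : e ∈ E) : π e⁻¹ = (π e)⁻¹ := by
  refine eq_inv_of_mul_eq_one_right ?_
  rw [← Cv.mul e he e⁻¹ (inv_mem he), mul_inv_cancel, Cv.map_one]

theorem Cover.eq_iff {a b : X} (ha : a ∈ E) (hb : b ∈ E) :
    π a = π b ↔ a⁻¹ * b ∈ C ∧ lam (a⁻¹ * b) = 1 := by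
  rw [← Cv.one_iff _ (mul_mem (inv_mem ha) hb), Cv.mul _ (inv_mem ha) b hb, Cv.map_inv ha,
    inv_mul_eq_one]

theorem Cover.c_one : c 1 = 1 := by
  have h := Cv.cmul 1 (one_mem _) 1 (one_mem _)
  rw [mul_one] at h
  exact left_eq_mul.1 h

theorem Cover.c_inv {g : X} (hg : g ∈ E ⊔ (K ⊔ T)) : c g⁻¹ = (c g)⁻¹ := by
  refine eq_inv_of_mul_eq_one_right ?_
  rw [← Cv.cmul g hg g⁻¹ (inv_mem hg), mul_inv_cancel, Cv.c_one]

theorem Cover.lam_congr (S : Setting E C K T lam) {a b : X} (ha : a ∈ C) (hb : b ∈ C)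
    (h : π a = π b) : lam a = lam b := by
  obtain ⟨h1, h2⟩ := (Cv.eq_iff (S.le ha) (S.le hb)).1 h
  rw [S.lam_mul _ (inv_mem ha) b hb, S.lam_inv ha] at h2
  calc lam a = lam a * (lam a * lam b) := by rw [h2, mul_one]
    _ = lam b := by rw [← mul_assoc, S.lam_mul_self ha, one_mul]

theorem Cover.cfix (S : Setting E C K T lam) {g x : X} (hg : g ∈ E ⊔ (K ⊔ T)) (hx : x ∈ C) :
    c g (π x) = π x := by
  rw [Cv.act g hg x (S.le hx), Cv.eq_iff (S.normE g hg x (S.le hx)) (S.le hx)]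
  have h1 := S.normC g hg x hx
  refine ⟨mul_mem (inv_mem h1) hx, ?_⟩
  rw [S.lam_mul _ (inv_mem h1) x hx, S.lam_inv h1, S.lam_conj g hg x hx, S.lam_mul_self hx]

theorem Cover.central (S : Setting E C K T lam) {x : X} (hx : x ∈ C) (y : Y) :
    π x * y = y * π x := by
  obtain ⟨e, he, rfl⟩ := Cv.surj y
  have h := Cv.cfix S (S.mem_M_of_E he) hx
  rw [Cv.act e (S.mem_M_of_E he) x (S.le hx), Cv.mul _ (mul_mem he (S.le hx)) _ (inv_mem he),
    Cv.mul e he x (S.le hx), Cv.map_inv he, mul_inv_eq_iff_eq_mul] at h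
  exact h.symm

variable {V : Type u} [AddCommGroup V] [Module (ZMod 2) V] [Finite V] {q : X → V} {bb : V → V → ℂ}
  {ρ : Representation (ZMod 2) K V} {τ : Representation (ZMod 2) T V}
  (M : Model E C K T lam q bb ρ τ)

end Cover

variable {V : Type u} [AddCommGroup V] [Module (ZMod 2) V] [Finite V] {q : X → V} {bb : V → V → ℂ}
  {ρ : Representation (ZMod 2) K V} {τ : Representation (ZMod 2) T V}

/-- `ψ` induces the linear map `A`, commutes with `K` and fixes the image of `C`. -/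
structure Lifts (E C K : Subgroup X) (π : X → Y) (c : X → MulAut Y) (q : X → V)
    (A : Module.End (ZMod 2) V) (ψ : MulAut Y) : Prop where
  induces : ∀ e ∈ E, ∀ f ∈ E, ψ (π e) = π f → q f = A (q e)
  commK : ∀ k ∈ K, ∀ y, ψ (c k y) = c k (ψ y)
  fix : ∀ x ∈ C, ψ (π x) = π x

theorem Lifts.mul {A B : Module.End (ZMod 2) V} {φ ψ : MulAut Y}
    (hs : ∀ y : Y, ∃ e ∈ E, π e = y)
    (h : Lifts E C K π c q A φ) (h' : Lifts E C K π c q B ψ) :
    Lifts E C K π c q (A * B) (φ * ψ) := by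
  refine ⟨fun e he f hf heq => ?_, fun k hk y => ?_, fun x hx => ?_⟩
  · obtain ⟨g, hg, hg'⟩ := hs (ψ (π e))
    rw [MulAut.mul_apply, ← hg'] at heq
    rw [h.induces g hg f hf heq, h'.induces e he g hg hg'.symm]
    rfl
  · simp only [MulAut.mul_apply, h'.commK k hk, h.commK k hk]
  · rw [MulAut.mul_apply, h'.fix x hx, h.fix x hx]

theorem Cover.lifts_one (Cv : Cover E C K T lam π c) (M : Model E C K T lam q bb ρ τ) :
    Lifts E C K π c q 1 1 := by
  refine ⟨fun e he f hf h => ?_, fun _ _ _ => rfl, fun _ _ => rfl⟩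
  rw [MulAut.one_apply, Cv.eq_iff he hf] at h
  rw [Module.End.one_apply]
  have h1 := (M.zero_iff _ (mul_mem (inv_mem he) hf)).2 h.1
  rw [M.add _ (inv_mem he) f hf, M.map_inv he] at h1
  calc q f = q e + (q e + q f) := by rw [← add_assoc, ZModModule.add_self, zero_add]
    _ = q e := by rw [h1, add_zero]

theorem Lifts.pow {A : Module.End (ZMod 2) V} {φ : MulAut Y} (Cv : Cover E C K T lam π c)
    (M : Model E C K T lam q bb ρ τ) (h : Lifts E C K π c q A φ) :
    ∀ n : ℕ, Lifts E C K π c q (A ^ n) (φ ^ n)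
  | 0 => by simpa using Cv.lifts_one M
  | n + 1 => by simpa [pow_succ] using (Lifts.pow Cv M h n).mul Cv.surj h

/-- Lifts are unique. -/
theorem Cover.unique (Cv : Cover E C K T lam π c) (M : Model E C K T lam q bb ρ τ)
    (S : Setting E C K T lam) {A : Module.End (ZMod 2) V} {φ ψ : MulAut Y}
    (hφ : Lifts E C K π c q A φ) (hψ : Lifts E C K π c q A ψ) : φ = ψ := by
  classical
  have hex : ∀ e : X, ∃ z ∈ C, e ∈ E → φ (π e) = π z * ψ (π e) := by
    intro e
    by_cases he : e ∈ E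
    · obtain ⟨f, hf, hf'⟩ := Cv.surj (φ (π e))
      obtain ⟨g, hg, hg'⟩ := Cv.surj (ψ (π e))
      refine ⟨f * g⁻¹, (M.zero_iff _ (mul_mem hf (inv_mem hg))).1 ?_, fun _ => ?_⟩
      · rw [M.add f hf _ (inv_mem hg), M.map_inv hg, hφ.induces e he f hf hf'.symm,
          hψ.induces e he g hg hg'.symm, ZModModule.add_self]
      · rw [Cv.mul f hf _ (inv_mem hg), Cv.map_inv hg, hf', hg', inv_mul_cancel_right]
    · exact ⟨1, one_mem C, fun h => absurd h he⟩
  choose z hzC hz using hex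
  have hν : ∀ e ∈ E, lam (z e) = 1 := by
    intro e he
    refine S.invariant_hom_eq_one S.le le_rfl (fun g hg w hw => S.normE g (S.mem_M_of_K hg) w hw)
      (ν := fun x => lam (z x)) (fun a ha b hb => ?_) (fun a ha => S.lam_ne_zero (hzC a))
      (fun x hx => ?_) (fun g hg w hw => ?_) he
    · show lam (z (a * b)) = lam (z a) * lam (z b)
      rw [← S.lam_mul _ (hzC a) _ (hzC b)]
      refine Cv.lam_congr S (hzC _) (mul_mem (hzC a) (hzC b)) ?_
      have h1 := hz _ (mul_mem ha hb)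
      rw [Cv.mul a ha b hb, map_mul, map_mul, hz a ha, hz b hb] at h1
      rw [Cv.mul _ (S.le (hzC a)) _ (S.le (hzC b))]
      refine mul_right_cancel (b := ψ (π a) * ψ (π b)) (h1.symm.trans ?_)
      calc π (z a) * ψ (π a) * (π (z b) * ψ (π b))
          = π (z a) * (ψ (π a) * π (z b)) * ψ (π b) := by simp only [mul_assoc]
        _ = π (z a) * (π (z b) * ψ (π a)) * ψ (π b) := by rw [← Cv.central S (hzC b)]
        _ = π (z a) * π (z b) * (ψ (π a) * ψ (π b)) := by simp only [mul_assoc]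
    · show lam (z x) = 1
      rw [← S.lam_one]
      refine Cv.lam_congr S (hzC _) (one_mem C) ?_
      have h1 := hz x (S.le hx)
      rw [hφ.fix x hx, hψ.fix x hx] at h1
      rw [Cv.map_one]
      exact right_eq_mul.1 h1
    · show lam (z (g * w * g⁻¹)) = lam (z w)
      refine Cv.lam_congr S (hzC _) (hzC w) ?_
      have h1 := hz _ (S.normE g (S.mem_M_of_K hg) w hw)
      rw [← Cv.act g (S.mem_M_of_K hg) w hw, hφ.commK g hg, hψ.commK g hg, hz w hw, map_mul,
        Cv.cfix S (S.mem_M_of_K hg) (hzC w)] at h1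
      exact (mul_right_cancel h1).symm
  refine MulEquiv.ext fun y => ?_
  obtain ⟨e, he, rfl⟩ := Cv.surj y
  rw [hz e he, (Cv.one_iff _ (S.le (hzC e))).2 ⟨hzC e, hν e he⟩, one_mul]

/-- An element of `T` trivial on the space is trivial on the cover. -/
theorem Cover.c_eq_one (Cv : Cover E C K T lam π c) (M : Model E C K T lam q bb ρ τ)
    (S : Setting E C K T lam) (t : T) (ht : τ t = 1) : c t = 1 := by
  have htM := S.mem_M_of_T t.2
  -- elements of `K` trivial on the space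
  have hK1 : ∀ j : K, ρ j = 1 → c j = 1 := by
    intro j hj
    refine MulEquiv.ext fun y => ?_
    obtain ⟨e, he, rfl⟩ := Cv.surj y
    have hjM := S.mem_M_of_K j.2
    set d := (j : X) * e * (j : X)⁻¹ * e⁻¹ with hd
    have hjE := S.normE _ hjM e he
    have hdC : d ∈ C := by
      refine (M.zero_iff _ (mul_mem hjE (inv_mem he))).1 ?_
      rw [M.add _ hjE _ (inv_mem he), ← M.rho j e he, hj, M.map_inv he, Module.End.one_apply,
        ZModModule.add_self]
    have hstep : c j (π e) = π d * π e := by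
      rw [Cv.act _ hjM e he, ← Cv.mul d (S.le hdC) e he, hd, inv_mul_cancel_right]
    have hpow : ∀ n : ℕ, c ((j : X) ^ n) (π e) = π d ^ n * π e := by
      intro n
      induction n with
      | zero => rw [pow_zero, pow_zero, Cv.c_one, MulAut.one_apply, one_mul]
      | succ n ih =>
        rw [pow_succ', Cv.cmul _ hjM _ (pow_mem hjM n), MulAut.mul_apply, ih, map_mul, map_pow,
          Cv.cfix S hjM hdC, hstep, ← mul_assoc, ← pow_succ]
    have h1 := hpow (Nat.card K)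
    rw [show (j : X) ^ Nat.card K = 1 by
      rw [← SubgroupClass.coe_pow, pow_card_eq_one', OneMemClass.coe_one], Cv.c_one,
      MulAut.one_apply, right_eq_mul] at h1
    have hsq : π d ^ 2 = 1 := by
      rw [pow_two, ← Cv.mul d (S.le hdC) d (S.le hdC), Cv.one_iff _ (S.le (mul_mem hdC hdC))]
      exact ⟨mul_mem hdC hdC, (S.lam_mul d hdC d hdC).trans (S.lam_mul_self hdC)⟩
    obtain ⟨m, hm⟩ := S.odd
    rw [hm, pow_succ, pow_mul, hsq, one_pow, one_mul] at h1
    rw [hstep, h1, one_mul, MulAut.one_apply]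
  refine Cv.unique M S (A := 1) ⟨fun e he f hf h => ?_, fun k hk y => ?_, fun x hx =>
    Cv.cfix S htM hx⟩ (Cv.lifts_one M)
  · have h1 := (Cv.lifts_one M).induces _ (S.normE _ htM e he) f hf ((Cv.act _ htM e he).symm.trans h)
    rw [h1, Module.End.one_apply, ← M.tau t e he, ht]
  · let j : K := ⟨k⁻¹ * ((t : X) * k * (t : X)⁻¹), mul_mem (inv_mem hk) (S.normK t t.2 k hk)⟩
    have hj : ρ j = 1 := by
      refine LinearMap.ext fun v => ?_
      obtain ⟨e, he, rfl⟩ := M.surj v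
      rw [M.rho j e he, Module.End.one_apply]
      have e0 : (t : X)⁻¹ * e * (t : X) ∈ E := by simpa using S.normE _ (inv_mem htM) e he
      have ht' : ∀ w ∈ E, q ((t : X) * w * (t : X)⁻¹) = q w := fun w hw => by
        rw [← M.tau t w hw, ht, Module.End.one_apply]
      have h1 : q ((t : X)⁻¹ * e * (t : X)) = q e := by
        rw [← ht' _ e0]; congr 1; group
      have hke : k * ((t : X)⁻¹ * e * (t : X)) * k⁻¹ ∈ E := S.normE k (S.mem_M_of_K hk) _ e0
      rw [show (j : X) * e * (j : X)⁻¹ = k⁻¹ *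
          ((t : X) * (k * ((t : X)⁻¹ * e * (t : X)) * k⁻¹) * (t : X)⁻¹) * k⁻¹⁻¹ by
        simp only [j]; group,
        ← M.rho ⟨k⁻¹, inv_mem hk⟩ _ (S.normE _ htM _ hke), ht' _ hke, ← M.rho ⟨k, hk⟩ _ e0, h1,
        ← Module.End.mul_apply, ← map_mul, show (⟨k⁻¹, inv_mem hk⟩ : K) * ⟨k, hk⟩ = 1 from
          Subtype.ext (inv_mul_cancel k), _root_.map_one, Module.End.one_apply]
    have hkM := S.mem_M_of_K hk
    have hjM := S.mem_M_of_K j.2
    have hc : c t * c k = c k * c t := by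
      rw [← Cv.cmul _ htM _ hkM, show (t : X) * k = k * j * t by simp only [j]; group,
        Cv.cmul _ (mul_mem hkM hjM) _ htM, Cv.cmul _ hkM _ hjM, hK1 j hj, mul_one]
    exact DFunLike.congr_fun hc y

/-- Existence of lifts. -/
theorem Cover.exists_lift (Cv : Cover E C K T lam π c) (M : Model E C K T lam q bb ρ τ)
    (S : Setting E C K T lam) (hcm : ∃ x ∈ C, lam x = -1) (A : Module.End (ZMod 2) V)
    (hcomm : ∀ g, ρ g * A = A * ρ g) (hiso : ∀ u v, bb (A u) (A v) = bb u v)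
    (hinj : Function.Injective A) : ∃ φ : MulAut Y, Lifts E C K π c q A φ := by
  classical
  let W₂ : Subgroup (X × X) :=
    { carrier := {p | p.1 ∈ E ∧ p.2 ∈ E ∧ q p.2 = A (q p.1)}
      one_mem' := ⟨one_mem E, one_mem E, by
        show q 1 = A (q 1)
        rw [M.map_one, map_zero]⟩
      mul_mem' := fun {a b} ha hb => ⟨mul_mem ha.1 hb.1, mul_mem ha.2.1 hb.2.1, by
        show q (a.2 * b.2) = A (q (a.1 * b.1))
        rw [M.add _ ha.2.1 _ hb.2.1, M.add _ ha.1 _ hb.1, map_add, ha.2.2, hb.2.2]⟩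
      inv_mem' := fun {a} ha => ⟨inv_mem ha.1, inv_mem ha.2.1, by
        show q a.2⁻¹ = A (q a.1⁻¹)
        rw [M.map_inv ha.2.1, M.map_inv ha.1, ha.2.2]⟩ }
  let diag : X →* X × X := (MonoidHom.id X).prod (MonoidHom.id X)
  let K₂ : Subgroup (X × X) := K.map diag
  have hK₂ : ∀ p ∈ K₂, ∃ k ∈ K, p = (k, k) := by
    rintro p ⟨k, hk, rfl⟩
    exact ⟨k, hk, rfl⟩
  have hKW : ∀ k ∈ K, ∀ p ∈ W₂, (k * p.1 * k⁻¹, k * p.2 * k⁻¹) ∈ W₂ := fun k hk p hp => by
    refine ⟨S.normE k (S.mem_M_of_K hk) _ hp.1, S.normE k (S.mem_M_of_K hk) _ hp.2.1, ?_⟩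
    rw [← M.rho ⟨k, hk⟩ _ hp.1, ← M.rho ⟨k, hk⟩ _ hp.2.1, hp.2.2, ← Module.End.mul_apply, hcomm,
      Module.End.mul_apply]
  obtain ⟨mu, hmul, hne, hmuC, hmuK⟩ := exists_invariant_extension (C := C.prod C) (W := W₂)
    (K := K₂) (lam := fun p => lam p.1 * lam p.2)
    (fun p hp => ⟨S.le hp.1, S.le hp.2, by
      rw [(M.zero_iff _ (S.le hp.2)).2 hp.2, (M.zero_iff _ (S.le hp.1)).2 hp.1, map_zero]⟩)
    (fun a ha b hb => by
      show lam (a.1 * b.1) * lam (a.2 * b.2) = _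
      rw [S.lam_mul _ ha.1 _ hb.1, S.lam_mul _ ha.2 _ hb.2]; ring)
    (fun p hp => by
      rcases S.lam_val _ hp.1 with h | h <;> rcases S.lam_val _ hp.2 with h' | h' <;>
        simp [h, h'])
    (fun a ha b hb => by
      refine ⟨⟨S.comm _ ha.1 _ hb.1, S.comm _ ha.2.1 _ hb.2.1⟩, ?_⟩
      show lam ⁅a.1, b.1⁆ * lam ⁅a.2, b.2⁆ = 1
      rw [← M.pair _ ha.2.1 _ hb.2.1, ha.2.2, hb.2.2, hiso, M.pair _ ha.1 _ hb.1]
      exact S.lam_mul_self (S.comm _ ha.1 _ hb.1))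
    (fun p hp x hx => by
      obtain ⟨k, hk, rfl⟩ := hK₂ p hp
      show lam (k * x.1 * k⁻¹) * lam (k * x.2 * k⁻¹) = _
      rw [S.lam_conj k (S.mem_M_of_K hk) _ hx.1, S.lam_conj k (S.mem_M_of_K hk) _ hx.2])
    (fun p hp x hx => by
      obtain ⟨k, hk, rfl⟩ := hK₂ p hp
      exact hKW k hk x hx)
    (fun p hp x hx => by
      obtain ⟨k, hk, rfl⟩ := hK₂ p hp
      exact ⟨S.normC k (S.mem_M_of_K hk) _ hx.1, S.normC k (S.mem_M_of_K hk) _ hx.2⟩)
    (by
      rw [← Nat.card_congr (K.equivMapOfInjective diag fun a b h => congrArg Prod.fst h).toEquiv]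
      exact S.odd)
  have hmu1 : mu 1 = 1 := by
    rw [hmuC 1 (one_mem _)]
    show lam 1 * lam 1 = 1
    rw [S.lam_one, one_mul]
  have hfc : ∀ e : X, ∃ f ∈ E, q f = A (q e) := fun e => M.surj _
  choose fc hfcE hfc using hfc
  have hindep : ∀ p ∈ W₂, mu p * mu p = mu (p.1, fc p.1) * mu (p.1, fc p.1) := by
    intro p hp
    have hmem : (p.1, fc p.1) ∈ W₂ := ⟨hp.1, hfcE _, hfc _⟩
    have hx : (fc p.1)⁻¹ * p.2 ∈ C := by
      refine (M.zero_iff _ (mul_mem (inv_mem (hfcE _)) hp.2.1)).1 ?_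
      rw [M.add _ (inv_mem (hfcE _)) _ hp.2.1, M.map_inv (hfcE _), hp.2.2, hfc,
        ZModModule.add_self]
    have hxC : ((1 : X), (fc p.1)⁻¹ * p.2) ∈ C.prod C := ⟨one_mem C, hx⟩
    have heq : p = (p.1, fc p.1) * ((1 : X), (fc p.1)⁻¹ * p.2) := by
      refine Prod.ext ?_ ?_
      · show p.1 = p.1 * 1
        rw [mul_one]
      · show p.2 = fc p.1 * ((fc p.1)⁻¹ * p.2)
        rw [mul_inv_cancel_left]
    conv_lhs => rw [heq]
    rw [hmul _ hmem _ ⟨S.le hxC.1, S.le hxC.2, by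
      show q _ = A (q 1)
      rw [(M.zero_iff _ (S.le hx)).2 hx, M.map_one, map_zero]⟩, hmuC _ hxC]
    show _ * (lam 1 * lam _) * (_ * (lam 1 * lam _)) = _
    linear_combination (mu (p.1, fc p.1) * mu (p.1, fc p.1)) * lam 1 * lam 1 * S.lam_mul_self hx +
      (mu (p.1, fc p.1) * mu (p.1, fc p.1)) * S.lam_mul_self (one_mem C)
  have hsign : ∀ p ∈ W₂, mu p = 1 ∨ mu p = -1 := by
    intro p hp
    rw [← mul_self_eq_one_iff, hindep p hp]
    refine S.invariant_hom_eq_one S.le le_rfl (fun g hg w hw => S.normE g (S.mem_M_of_K hg) w hw)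
      (ν := fun x => mu (x, fc x) * mu (x, fc x)) (fun a ha b hb => ?_)
      (fun a ha => mul_ne_zero (hne _ ⟨ha, hfcE _, hfc _⟩) (hne _ ⟨ha, hfcE _, hfc _⟩))
      (fun x hx => ?_) (fun g hg w hw => ?_) hp.1
    · have ha' : (a, fc a) ∈ W₂ := ⟨ha, hfcE _, hfc _⟩
      have hb' : (b, fc b) ∈ W₂ := ⟨hb, hfcE _, hfc _⟩
      show mu (a * b, fc (a * b)) * mu (a * b, fc (a * b)) = _
      have h1 := hindep _ (mul_mem ha' hb')
      simp only [Prod.mk_mul_mk] at h1
      rw [← h1, ← Prod.mk_mul_mk, hmul _ ha' _ hb']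
      ring
    · have hx' : (x, (1 : X)) ∈ C.prod C := ⟨hx, one_mem C⟩
      have hmem : (x, (1 : X)) ∈ W₂ := ⟨S.le hx, one_mem E, by
        rw [(M.zero_iff _ (S.le hx)).2 hx, M.map_one, map_zero]⟩
      show mu (x, fc x) * mu (x, fc x) = 1
      rw [← hindep _ hmem, hmuC _ hx']
      show lam x * lam 1 * (lam x * lam 1) = 1
      linear_combination lam 1 * lam 1 * S.lam_mul_self hx + S.lam_mul_self (one_mem C)
    · have hw' : (w, fc w) ∈ W₂ := ⟨hw, hfcE _, hfc _⟩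
      show mu (g * w * g⁻¹, fc (g * w * g⁻¹)) * mu (g * w * g⁻¹, fc (g * w * g⁻¹)) = _
      rw [← hindep _ (hKW g hg _ hw')]
      rw [show mu (g * w * g⁻¹, g * fc w * g⁻¹) = mu (w, fc w) from
        hmuK (g, g) ⟨g, hg, rfl⟩ _ hw']
  -- the graph
  let G : X → X → Prop := fun e f => (e, f) ∈ W₂ ∧ mu (e, f) = 1
  have hGex : ∀ e ∈ E, ∃ f, G e f := by
    intro e he
    have hmem : (e, fc e) ∈ W₂ := ⟨he, hfcE _, hfc _⟩
    rcases hsign _ hmem with h | h
    · exact ⟨_, hmem, h⟩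
    obtain ⟨x, hx, hx'⟩ := hcm
    have hxW : ((1 : X), x) ∈ W₂ := ⟨one_mem E, S.le hx, by
      rw [(M.zero_iff _ (S.le hx)).2 hx, M.map_one, map_zero]⟩
    refine ⟨fc e * x, ?_, ?_⟩
    · simpa using mul_mem hmem hxW
    · have h1 := hmul _ hmem _ hxW
      rw [Prod.mk_mul_mk, mul_one] at h1
      rw [h1, h, hmuC _ ⟨one_mem C, hx⟩]
      show -1 * (lam 1 * lam x) = 1
      rw [S.lam_one, hx']; norm_num
  have hwd : ∀ e f e' f', G e f → G e' f' → (π e = π e' ↔ π f = π f') := by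
    intro e f e' f' h h'
    have hmem : (e⁻¹ * e', f⁻¹ * f') ∈ W₂ := by simpa using mul_mem (inv_mem h.1) h'.1
    have hmu' : mu (e⁻¹ * e', f⁻¹ * f') = 1 := by
      have h1 := hmul _ h.1 _ hmem
      rw [Prod.mk_mul_mk, mul_inv_cancel_left, mul_inv_cancel_left, h.2, h'.2, one_mul] at h1
      exact h1.symm
    obtain ⟨ha, hb, hab⟩ := hmem
    rw [Cv.eq_iff h.1.1 h'.1.1, Cv.eq_iff h.1.2.1 h'.1.2.1]
    constructor
    · rintro ⟨hc1, hl1⟩
      have hc2 : f⁻¹ * f' ∈ C := (M.zero_iff _ hb).1 (by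
        rw [hab, (M.zero_iff _ ha).2 hc1, map_zero])
      refine ⟨hc2, ?_⟩
      have h2 := hmuC _ (show (e⁻¹ * e', f⁻¹ * f') ∈ C.prod C from ⟨hc1, hc2⟩)
      rw [hmu'] at h2
      simpa [hl1] using h2.symm
    · rintro ⟨hc2, hl2⟩
      have hc1 : e⁻¹ * e' ∈ C := (M.zero_iff _ ha).1 (hinj (by
        rw [← hab, (M.zero_iff _ hb).2 hc2, map_zero]))
      refine ⟨hc1, ?_⟩
      have h2 := hmuC _ (show (e⁻¹ * e', f⁻¹ * f') ∈ C.prod C from ⟨hc1, hc2⟩)
      rw [hmu'] at h2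
      simpa [hl2] using h2.symm
  choose r hrE hr using Cv.surj
  choose s hs using fun y => hGex (r y) (hrE y)
  let φ₀ : Y → Y := fun y => π (s y)
  have hkey : ∀ e f, G e f → φ₀ (π e) = π f := fun e f h =>
    (hwd _ _ _ _ (hs (π e)) h).1 (hr _)
  let φh : Y →* Y := MonoidHom.mk' φ₀ fun y y' => by
    have h1 : G (r y * r y') (s y * s y') := ⟨mul_mem (hs y).1 (hs y').1, by
      have := hmul _ (hs y).1 _ (hs y').1
      rw [(hs y).2, (hs y').2, one_mul] at this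
      simpa using this⟩
    have h2 := hkey _ _ h1
    rw [Cv.mul _ (hrE y) _ (hrE y'), hr, hr, Cv.mul _ (hs y).1.2.1 _ (hs y').1.2.1] at h2
    exact h2
  have hφinj : Function.Injective φ₀ := fun y y' h => by
    rw [← hr y, ← hr y', (hwd _ _ _ _ (hs y) (hs y')).2 h]
  let φ : MulAut Y := MulEquiv.ofBijective φh (Finite.injective_iff_bijective.1 hφinj)
  have hφ : ∀ y, φ y = φ₀ y := fun _ => rfl
  refine ⟨φ, fun e he f hf h => ?_, fun k hk y => ?_, fun x hx => ?_⟩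
  · obtain ⟨g, hg⟩ := hGex e he
    rw [hφ, hkey e g hg, Cv.eq_iff hg.1.2.1 hf] at h
    have h1 := (M.zero_iff _ (mul_mem (inv_mem hg.1.2.1) hf)).2 h.1
    rw [M.add _ (inv_mem hg.1.2.1) f hf, M.map_inv hg.1.2.1, hg.1.2.2] at h1
    calc q f = A (q e) + (A (q e) + q f) := by rw [← add_assoc, ZModModule.add_self, zero_add]
      _ = A (q e) := by rw [h1, add_zero]
  · have hkM := S.mem_M_of_K hk
    have h1 : G (k * r y * k⁻¹) (k * s y * k⁻¹) :=
      ⟨hKW k hk _ (hs y).1, (hmuK (k, k) ⟨k, hk, rfl⟩ _ (hs y).1).trans (hs y).2⟩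
    have h2 := hkey _ _ h1
    rw [← Cv.act k hkM _ (hrE y), hr, ← Cv.act k hkM _ (hs y).1.2.1] at h2
    exact h2
  · refine hkey x x ⟨⟨S.le hx, S.le hx, by
      rw [(M.zero_iff _ (S.le hx)).2 hx, map_zero]⟩, ?_⟩
    rw [hmuC _ (show (x, x) ∈ C.prod C from ⟨hx, hx⟩)]
    exact S.lam_mul_self hx

end Cfsg.Agent.Char8Extra
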