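import Cfsg.Agent.Char8Extra.Irreducible

/-!
# The character attached to a section always extends over the `2`-group
-/

set_option autoImplicit false
set_option linter.style.haveILetI false
set_option linter.unusedSectionVars false
set_option linter.unusedFintypeInType false

namespace Cfsg.Agent.Char8Extra

open Subgroup
open scoped commutatorElement

universe u

/-- A nontrivial normal subgroup of a `2`-group of units contains a central involution. -/
theorem exists_central_involution {G R : Type*} [Group G] [Finite G] [Monoid R] [Finite R]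
    (hG : IsPGroup 2 G) (f : G →* R) {N : Subgroup G} (hN : N.Normal)
    (hne : ∃ x ∈ N, f x ≠ 1) :
    ∃ u ∈ N, f u ≠ 1 ∧ f u * f u = 1 ∧ ∀ g, f g * f u = f u * f g := by
  classical
  haveI : Fact (Nat.Prime 2) := ⟨Nat.prime_two⟩
  let F : G →* Rˣ := f.toHomUnits
  have hF : ∀ g, (F g : R) = f g := fun g => rfl
  haveI : Finite Rˣ := Finite.of_injective Units.val Units.val_injective
  let N₀ : Subgroup Rˣ := N.map F
  have hnorm : ∀ g, ∀ n ∈ N₀, F g * n * (F g)⁻¹ ∈ N₀ := by
    rintro g _ ⟨x, hx, rfl⟩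
    exact ⟨g * x * g⁻¹, hN.conj_mem x hx g, by rw [map_mul, map_mul, map_inv]⟩
  letI : MulAction G N₀ :=
    { smul := fun g n => ⟨F g * n * (F g)⁻¹, hnorm g n n.2⟩
      one_smul := fun n => Subtype.ext (by show F 1 * n * (F 1)⁻¹ = _; simp)
      mul_smul := fun g h n => Subtype.ext (by
        show F (g * h) * n * (F (g * h))⁻¹ = F g * (F h * n * (F h)⁻¹) * (F g)⁻¹
        rw [map_mul]; group) }
  haveI : Nontrivial N₀ := by
    obtain ⟨x, hx, hx1⟩ := hne
    refine ⟨⟨⟨F x, x, hx, rfl⟩, 1, fun h => hx1 ?_⟩⟩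
    exact congrArg (fun n : N₀ => ((n : Rˣ) : R)) h
  have hP : IsPGroup 2 N₀ := (hG.to_subgroup N).map F
  obtain ⟨m, hm0, hm⟩ := (IsPGroup.nontrivial_iff_card hP).1 inferInstance
  obtain ⟨z, hz, hz1⟩ := IsPGroup.exists_fixed_point_of_prime_dvd_card_of_fixed_point hG N₀
    (hm ▸ dvd_pow_self 2 hm0.ne') (a := (1 : N₀)) (fun g => Subtype.ext (by
      show F g * 1 * (F g)⁻¹ = 1
      simp))
  obtain ⟨k, hk⟩ := hP z
  have hne' : ∃ j, z ^ 2 ^ j ≠ 1 ∧ (z ^ 2 ^ j) * (z ^ 2 ^ j) = 1 := by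
    clear_value N₀
    induction k with
    | zero => exact absurd (by simpa using hk) (Ne.symm hz1)
    | succ k ih =>
      by_cases h : z ^ 2 ^ k = 1
      · exact ih h
      · exact ⟨k, h, by rw [← pow_add, ← mul_two, ← pow_succ]; exact hk⟩
  obtain ⟨j, hj1, hj2⟩ := hne'
  obtain ⟨u, hu, hu'⟩ := (z ^ 2 ^ j : N₀).2
  have hval : f u = (((z ^ 2 ^ j : N₀) : Rˣ) : R) := congrArg Units.val hu'
  refine ⟨u, hu, fun h => hj1 (Subtype.ext (Units.ext ?_)), ?_, fun g => ?_⟩
  · rw [← hval, h]; rfl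
  · rw [hval, ← Units.val_mul, ← Subgroup.coe_mul, hj2]; rfl
  · have hc : Commute (F g) ((z : N₀) : Rˣ) := by
      have := congrArg Subtype.val (hz g)
      exact mul_inv_eq_iff_eq_mul.1 this
    have := congrArg Units.val ((hc.pow_right (2 ^ j)).eq)
    rw [hval, ← hF g, SubgroupClass.coe_pow]
    exact this

variable {X : Type u} [Group X] [Finite X] {E C K T : Subgroup X} {lam : X → ℂ}

/-- The irreducible case. -/
theorem Setting.good_of_irreducible (S : Setting E C K T lam) (IH : Below.{u} (C.relIndex E))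
    (hEC : ¬ E ≤ C) (hirr : ∀ W, Inv E C K T W → W = C ∨ W = E) : Good E C T lam := by
  classical
  obtain ⟨V, _, _, _, q, bb, ρ, τ, M⟩ := S.exists_model
  have P := M.pairing S
  have htb := M.tau_pair S
  haveI : Nontrivial V := by
    obtain ⟨e, he, hne⟩ := SetLike.not_le_iff_exists.1 hEC
    exact ⟨⟨q e, 0, fun h => hne ((M.zero_iff e he).1 h)⟩⟩
  let σ : T → (K ≃* K) := fun t =>
    { toFun := fun k => ⟨t * k * (t : X)⁻¹, S.normK t t.2 k k.2⟩
      invFun := fun k => ⟨(t : X)⁻¹ * k * (t : X)⁻¹⁻¹, S.normK _ (inv_mem t.2) k k.2⟩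
      left_inv := fun k => Subtype.ext (by simp [mul_assoc])
      right_inv := fun k => Subtype.ext (by simp [mul_assoc])
      map_mul' := fun a b => Subtype.ext (by simp [mul_assoc]) }
  have hττ : ∀ t : T, τ t * τ t⁻¹ = 1 := fun t => by rw [← map_mul, mul_inv_cancel, map_one]
  have hτ'τ : ∀ t : T, τ t⁻¹ * τ t = 1 := fun t => by rw [← map_mul, inv_mul_cancel, map_one]
  have hσ : ∀ t g, τ t * ρ g * τ t⁻¹ = ρ (σ t g) := fun t g => by
    refine LinearMap.ext fun v => ?_
    obtain ⟨e, he, rfl⟩ := M.surj v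
    have htM := S.mem_M_of_T t.2
    have h1 : (t : X)⁻¹ * e * (t : X)⁻¹⁻¹ ∈ E := S.normE _ (inv_mem htM) e he
    rw [Module.End.mul_apply, Module.End.mul_apply, M.tau t⁻¹ e he, Subgroup.coe_inv,
      M.rho g _ h1, M.tau t _ (S.normE _ (S.mem_M_of_K g.2) _ h1), M.rho (σ t g) e he]
    congr 1
    show _ = (t : X) * g * (t : X)⁻¹ * e * ((t : X) * g * (t : X)⁻¹)⁻¹
    group
  have hirrU : ∀ W : Submodule (ZMod 2) V, (∀ g, ∀ v ∈ W, ρ g v ∈ W) →
      (∀ t, ∀ v ∈ W, τ t v ∈ W) → W = ⊥ ∨ W = ⊤ := by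
    intro W hK hT
    rcases hirr _ (M.inv_pre S le_rfl hK fun t _ => hT t) with h | h
    · exact Or.inl (M.eq_bot_of_pre h.le)
    · exact Or.inr (M.eq_top_of_pre h.ge)
  by_cases hidem : ∀ e, Cen ρ e → e * e = e → e = 0 ∨ e = 1
  · -- the field case
    obtain ⟨l, A, hl, hlodd, hAl, hcomm, hiso, hfree, hpow⟩ :=
      P.exists_isometry S.odd (M.fix S) hidem
    choose i hi using fun t => hpow (σ t) (τ t) (τ t⁻¹) (hττ t) (hτ'τ t) (hσ t)
    obtain ⟨Y, _, _, π, c, Cv⟩ := S.exists_cover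
    haveI : Fact l.Prime := ⟨hl⟩
    have hA1 : A ≠ 1 := fun h => by
      obtain ⟨v, hv⟩ := exists_ne (0 : V)
      exact hv (hfree v (by rw [h, Module.End.one_apply]))
    have hord : orderOf A = l := orderOf_eq_prime hAl hA1
    have hfin : IsOfFinOrder A := isOfFinOrder_iff_pow_eq_one.2 ⟨l, hl.pos, hAl⟩
    have hcast : ∀ a b : ℕ, A ^ a = A ^ b → (a : ZMod l) = (b : ZMod l) := fun a b h => by
      have h1 := hfin.pow_eq_pow_iff_modEq.1 h
      rw [hord] at h1
      exact (ZMod.natCast_eq_natCast_iff _ _ _).2 h1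
    have hconjpow : ∀ (t : T) (j : ℕ), τ t * A ^ j * τ t⁻¹ = (A ^ i t) ^ j := by
      intro t j
      induction j with
      | zero => rw [pow_zero, pow_zero, mul_one, hττ]
      | succ j ih =>
        rw [pow_succ, pow_succ, ← ih, ← hi t]
        simp only [mul_assoc]
        rw [← mul_assoc (τ t⁻¹) (τ t), hτ'τ, one_mul]
    let iM : T →* ZMod l :=
      { toFun := fun t => (i t : ZMod l)
        map_one' := by
          rw [← Nat.cast_one]
          refine hcast _ _ ?_
          rw [← hi, inv_one, map_one, one_mul, mul_one, pow_one]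
        map_mul' := fun s t => by
          rw [← Nat.cast_mul]
          refine hcast _ _ ?_
          rw [← hi (s * t), mul_inv_rev, map_mul, map_mul, pow_mul, ← hconjpow s (i t), ← hi t]
          simp only [mul_assoc] }
    let ι : T →* (ZMod l)ˣ := iM.toHomUnits
    have hker : ∀ t : T, t ∈ ι.ker → τ t * A = A * τ t := by
      intro t ht
      have h1 : (i t : ZMod l) = ((1 : ℕ) : ZMod l) := by
        rw [Nat.cast_one]; exact congrArg Units.val ht
      have h2 : A ^ i t = A := by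
        conv_rhs => rw [← pow_one A]
        exact hfin.pow_eq_pow_iff_modEq.2 (by rw [hord]; exact (ZMod.natCast_eq_natCast_iff _ _ _).1 h1)
      calc τ t * A = τ t * A * τ t⁻¹ * τ t := by rw [mul_assoc _ (τ t⁻¹), hτ'τ, mul_one]
        _ = A * τ t := by rw [hi, h2]
    by_cases htriv : ∀ t ∈ ι.ker, τ t = 1
    · obtain ⟨g, hg⟩ := IsCyclic.exists_generator (α := ι.range)
      obtain ⟨t₀, ht₀⟩ := g.2
      refine S.good_of_centralizing Cv (T₁ := ι.ker.map T.subtype) (map_subtype_le _) ?_ ?_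
        t₀.2 ?_
      · rintro t ht _ ⟨s, hs, rfl⟩
        exact ⟨⟨t, ht⟩ * s * (⟨t, ht⟩ : T)⁻¹, (MonoidHom.normal_ker ι).conj_mem s hs _, rfl⟩
      · rintro _ ⟨s, hs, rfl⟩
        exact Cv.c_eq_one M S s (htriv s hs)
      · intro t ht
        obtain ⟨n, hn⟩ := mem_zpowers_iff.1 (hg ⟨ι ⟨t, ht⟩, ⟨t, ht⟩, rfl⟩)
        refine ⟨n, (t₀ ^ n)⁻¹ * ⟨t, ht⟩, ?_, rfl⟩
        rw [SetLike.mem_coe, MonoidHom.mem_ker, map_mul, map_inv, map_zpow, ht₀,
          ← SubgroupClass.coe_zpow, hn, inv_mul_cancel]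
    · push Not at htriv
      haveI : Finite (Module.End (ZMod 2) V) :=
        Finite.of_injective (fun f : Module.End (ZMod 2) V => (f : V → V)) DFunLike.coe_injective
      obtain ⟨u, hu, hu1, hu2, huc⟩ :=
        exists_central_involution S.two τ (MonoidHom.normal_ker ι) htriv
      have hcm : ∃ x ∈ C, lam x = -1 := by
        by_contra h
        push Not at h
        exact hEC fun e he => S.nondeg e he fun b hb =>
          (S.lam_val _ (S.comm e he b hb)).resolve_right (h _ (S.comm e he b hb))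
      have hinv : ∀ x y, bb (τ u x) y = bb x (τ u y) := fun x y => by
        conv_lhs => rw [show y = τ u (τ u y) by rw [← Module.End.mul_apply, hu2, Module.End.one_apply]]
        exact htb u x _
      refine S.good_of_involution M Cv IH hcm hlodd hAl hcomm hiso hfree (fun t => ⟨i t, hi t⟩)
        (U := LinearMap.range (τ u + 1)) (fun h => hu1 ?_) ?_ ?_ ?_
      · rw [LinearMap.range_eq_bot] at h
        refine LinearMap.ext fun v => ?_
        have h1 := DFunLike.congr_fun h v
        rw [LinearMap.add_apply, Module.End.one_apply, LinearMap.zero_apply] at h1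
        calc τ u v = τ u v + (v + v) := by rw [ZModModule.add_self, add_zero]
          _ = v := by rw [← add_assoc, h1, zero_add]
      · rintro _ ⟨v, rfl⟩
        refine ⟨A v, ?_⟩
        rw [LinearMap.add_apply, LinearMap.add_apply, Module.End.one_apply, Module.End.one_apply,
          map_add, ← Module.End.mul_apply, hker u hu, Module.End.mul_apply]
      · rintro t _ ⟨v, rfl⟩
        refine ⟨τ t v, ?_⟩
        rw [LinearMap.add_apply, LinearMap.add_apply, Module.End.one_apply, Module.End.one_apply,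
          map_add, ← Module.End.mul_apply, ← huc t, Module.End.mul_apply]
      · rintro _ ⟨x, rfl⟩ _ ⟨y, rfl⟩
        simp only [LinearMap.add_apply, Module.End.one_apply, P.add_left, P.add_right]
        rw [htb, hinv x y]
        linear_combination (bb x (τ u y) * bb x (τ u y)) * P.val x y + P.val x (τ u y)
  · -- two blocks
    push Not at hidem
    obtain ⟨e₀, he₀, he₀i, he₀0, he₀1⟩ := hidem
    obtain ⟨T₁, t₀, f, f', hT₁n, hidx, ht₀, hsum, hff, hf'f', hff', hf'f, hfρ, hfτ, ht₀f, ht₀f',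
      hadj⟩ := P.exists_block S.odd S.two τ σ hσ htb hirrU he₀ he₀i he₀0 he₀1
    set T₁' := T₁.map T.subtype with hT₁'
    have hT₁le : T₁' ≤ T := map_subtype_le _
    have hmem : ∀ t : T, (t : X) ∈ T₁' ↔ t ∈ T₁ := fun t =>
      ⟨fun ⟨s, hs, h⟩ => (Subtype.ext h : s = t) ▸ hs, fun h => ⟨t, h, rfl⟩⟩
    have hnorm : ∀ t ∈ T, ∀ s ∈ T₁', t * s * t⁻¹ ∈ T₁' := by
      rintro t ht _ ⟨s, hs, rfl⟩
      exact ⟨⟨t, ht⟩ * s * (⟨t, ht⟩ : T)⁻¹, hT₁n.conj_mem s hs _, rfl⟩
    have hsq : (t₀ : X) * t₀ ∈ T₁' :=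
      (hmem (t₀ * t₀)).2 (by rw [Subgroup.mul_mem_iff_of_index_two hidx])
    have hcover : ∀ t ∈ T, t ∈ T₁' ∨ (t₀ : X)⁻¹ * t ∈ T₁' := by
      intro t ht
      by_cases h : (⟨t, ht⟩ : T) ∈ T₁
      · exact Or.inl ((hmem ⟨t, ht⟩).2 h)
      · refine Or.inr ((hmem (t₀⁻¹ * ⟨t, ht⟩)).2 ?_)
        rw [Subgroup.mul_mem_iff_of_index_two hidx, inv_mem_iff]
        exact iff_of_false ht₀ h
    have hf'ρ : ∀ g, ρ g * f' = f' * ρ g := fun g => by
      rw [show f' = 1 - f from eq_sub_of_add_eq' hsum, mul_sub, sub_mul, hfρ, mul_one, one_mul]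
    have hfix : ∀ v, v ∈ LinearMap.range f ↔ f v = v := fun v =>
      ⟨fun ⟨x, hx⟩ => by rw [← hx, ← Module.End.mul_apply, hff], fun h => ⟨v, h⟩⟩
    have hfix' : ∀ v, v ∈ LinearMap.range f' ↔ f' v = v := fun v =>
      ⟨fun ⟨x, hx⟩ => by rw [← hx, ← Module.End.mul_apply, hf'f'], fun h => ⟨v, h⟩⟩
    have hsplit : ∀ v, f v + f' v = v := fun v => by
      rw [← LinearMap.add_apply, hsum, Module.End.one_apply]
    have hrange' : ∀ v, v ∈ LinearMap.range f' ↔ f v = 0 := fun v => by
      rw [hfix']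
      refine ⟨fun h => ?_, fun h => ?_⟩
      · rw [← h, ← Module.End.mul_apply, hff', LinearMap.zero_apply]
      · have := hsplit v
        rwa [h, zero_add] at this
    have hrange : ∀ v, v ∈ LinearMap.range f ↔ f' v = 0 := fun v => by
      rw [hfix]
      refine ⟨fun h => ?_, fun h => ?_⟩
      · rw [← h, ← Module.End.mul_apply, hf'f, LinearMap.zero_apply]
      · have := hsplit v
        rwa [h, add_zero] at this
    have hW : Inv E C K T₁' (M.pre (LinearMap.range f)) := by
      refine M.inv_pre S hT₁le (fun g v hv => ?_) (fun t ht v hv => ?_)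
      · obtain ⟨x, rfl⟩ := hv
        exact ⟨ρ g x, by rw [← Module.End.mul_apply, ← hfρ, Module.End.mul_apply]⟩
      · obtain ⟨x, rfl⟩ := hv
        exact ⟨τ t x, by rw [← Module.End.mul_apply, ← hfτ t ((hmem t).1 ht), Module.End.mul_apply]⟩
    have hint : M.pre (LinearMap.range f) ⊓ M.pre (LinearMap.range f') = C := by
      ext e
      constructor
      · rintro ⟨⟨he, h1⟩, ⟨-, h2⟩⟩
        refine (M.zero_iff e he).1 ?_
        rw [← (hfix _).1 h1]
        exact (hrange' _).1 h2
      · intro he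
        refine ⟨⟨S.le he, ?_⟩, ⟨S.le he, ?_⟩⟩ <;>
          rw [(M.zero_iff e (S.le he)).2 he] <;> exact Submodule.zero_mem _
    have hto' : ∀ w ∈ M.pre (LinearMap.range f), (t₀ : X) * w * (t₀ : X)⁻¹ ∈
        M.pre (LinearMap.range f') := by
      rintro w ⟨hw, x, hx⟩
      refine ⟨S.normE _ (S.mem_M_of_T t₀.2) w hw, τ t₀ x, ?_⟩
      rw [← M.tau t₀ w hw, ← Module.End.mul_apply, ← ht₀f, Module.End.mul_apply, hx]
    have hto : ∀ w ∈ M.pre (LinearMap.range f'), (t₀ : X) * w * (t₀ : X)⁻¹ ∈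
        M.pre (LinearMap.range f) := by
      rintro w ⟨hw, x, hx⟩
      refine ⟨S.normE _ (S.mem_M_of_T t₀.2) w hw, τ t₀ x, ?_⟩
      rw [← M.tau t₀ w hw, ← Module.End.mul_apply, ← ht₀f', Module.End.mul_apply, hx]
    rcases hadj with hadj | hadj
    · have horth : (S.mono_T hT₁le).orth _ hW.le = M.pre (LinearMap.range f') := by
        refine M.orth_pre S hT₁le hW.le fun v => ?_
        rw [hrange']
        constructor
        · rintro h w ⟨x, rfl⟩
          rw [← hadj, h, P.zero_left]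
        · intro h
          exact P.nondeg _ fun y => by rw [hadj]; exact h _ ⟨y, rfl⟩
      refine S.good_of_swap hT₁le hnorm t₀.2 hsq hcover hW (by rw [horth, hint])
        (by rw [horth]; exact hto') (by rw [horth]; exact hto) ?_
      refine IH X _ C K T₁' lam ((S.mono_T hT₁le).block_setting hW (by rw [horth, hint]))
        (relIndex_lt hW.ge hW.le fun h => hEC ?_)
      intro e he
      have h1 : ∀ w ∈ E, w ∈ M.pre (LinearMap.range f') → w ∈ C := fun w hw hw' =>
        hint.le ⟨h.ge hw, hw'⟩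
      have h2 := h1 _ (S.normE _ (S.mem_M_of_T t₀.2) e he) (hto' e (h.ge he))
      simpa [mul_assoc] using S.normC _ (inv_mem (S.mem_M_of_T t₀.2)) _ h2
    · refine S.good_of_pair hT₁le hnorm t₀.2 hsq hcover (W := M.pre (LinearMap.range f))
        (W' := M.pre (LinearMap.range f')) hW ?_ hint ?_ ?_ hto' hto
      · refine M.orth_pre S hT₁le hW.le fun v => ?_
        constructor
        · rintro hv w ⟨x, rfl⟩
          rw [P.symm, hadj, (hrange v).1 hv, P.zero_right]
        · intro h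
          rw [hrange]
          exact P.nondeg _ fun y => by rw [P.symm, ← hadj, P.symm]; exact h _ ⟨y, rfl⟩
      · intro e he
        obtain ⟨a, ha, ha'⟩ := M.surj (f (q e))
        refine ⟨a, ⟨ha, q e, ha'.symm⟩, a⁻¹ * e,
          ⟨mul_mem (inv_mem ha) he, q e, ?_⟩, (mul_inv_cancel_left a e).symm⟩
        rw [M.add _ (inv_mem ha) e he, M.map_inv ha, ha']
        calc f' (q e) = f (q e) + (f (q e) + f' (q e)) := by
              rw [← add_assoc, ZModModule.add_self, zero_add]
          _ = f (q e) + q e := by rw [hsplit]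
      · rintro w ⟨hw, hw'⟩
        have h1 : (t₀ : X)⁻¹ * w * (t₀ : X)⁻¹⁻¹ ∈ E :=
          S.normE _ (inv_mem (S.mem_M_of_T t₀.2)) w hw
        have h2 := M.tau t₀⁻¹ w hw
        rw [Subgroup.coe_inv] at h2
        rw [inv_inv] at h1 h2
        refine ⟨h1, (hrange _).2 ?_⟩
        rw [← h2]
        have h3 : τ t₀ (f' (τ t₀⁻¹ (q w))) = 0 := by
          rw [← Module.End.mul_apply, ht₀f', Module.End.mul_apply, ← Module.End.mul_apply (τ t₀),
            hττ, Module.End.one_apply]
          exact (hrange' _).1 hw'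
        rw [← Module.End.one_apply (R := ZMod 2) (f' (τ t₀⁻¹ (q w))), ← hτ'τ t₀,
          Module.End.mul_apply, h3, map_zero]

/-- Every section has its character on `E ⊔ T`. -/
theorem Setting.good (S : Setting E C K T lam) : Good E C T lam := by
  suffices h : ∀ n : ℕ, ∀ (Z : Type u) [Group Z] [Finite Z] (E C K T : Subgroup Z) (lam : Z → ℂ),
      Setting E C K T lam → C.relIndex E = n → Good E C T lam from h _ X E C K T lam S rfl
  intro n
  induction n using Nat.strong_induction_on with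
  | _ n ih =>
    intro Z _ _ E C K T lam S hn
    have IH : Below.{u} (C.relIndex E) := fun Z' _ _ E' C' K' T' lam' S' hlt =>
      ih _ (hn ▸ hlt) Z' E' C' K' T' lam' S' rfl
    by_cases hEC : E ≤ C
    · exact S.good_of_le hEC
    by_cases hirr : ∀ W, Inv E C K T W → W = C ∨ W = E
    · exact S.good_of_irreducible IH hEC hirr
    push Not at hirr
    obtain ⟨W, hW, hWC, hWE⟩ := hirr
    have hI : Inv E C K T (W ⊓ S.orth W hW.le) := by
      have hO := S.inv_orth hW
      exact ⟨le_inf hW.ge hO.ge, inf_le_left.trans hW.le,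
        fun g hg w hw => ⟨hW.conjK g hg w hw.1, hO.conjK g hg w hw.2⟩,
        fun g hg w hw => ⟨hW.conjT g hg w hw.1, hO.conjT g hg w hw.2⟩⟩
    by_cases hint : W ⊓ S.orth W hW.le = C
    · refine S.good_of_block hW hint
        (IH Z _ C K T lam (S.block_setting hW hint) (relIndex_lt hW.ge hW.le hWE))
        (IH Z _ C K T lam (S.block_setting (S.inv_orth hW) (S.inf_orth_orth hW hint))
          (relIndex_lt (S.C_le_orth hW.le) (S.orth_le hW.le) fun h => hWC ?_))
      rw [h, inf_eq_left.2 hW.le] at hint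
      exact hint
    · exact S.good_of_inv_isotropic IH hI hint fun a ha b hb => ha.2.2 b hb.1

end Cfsg.Agent.Char8Extra
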