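import Cfsg.Agent.Char8Extra.Steps
import Cfsg.Agent.Char8Extra.Algebra

/-!
# The symplectic space and the cover of a section
-/

set_option autoImplicit false
set_option linter.style.haveILetI false
set_option linter.unusedSectionVars false
set_option linter.unusedFintypeInType false

namespace Cfsg.Agent.Char8Extra

open Subgroup
open scoped commutatorElement

universe u

variable {X : Type u} [Group X] [Finite X]

/-- Linear data of `E` modulo `C`. -/
structure Model (E C K T : Subgroup X) (lam : X → ℂ) {V : Type u} [AddCommGroup V]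
    [Module (ZMod 2) V] (q : X → V) (bb : V → V → ℂ) (ρ : Representation (ZMod 2) K V)
    (τ : Representation (ZMod 2) T V) : Prop where
  add : ∀ a ∈ E, ∀ b ∈ E, q (a * b) = q a + q b
  surj : ∀ v, ∃ e ∈ E, q e = v
  zero_iff : ∀ e ∈ E, (q e = 0 ↔ e ∈ C)
  rho : ∀ (k : K), ∀ e ∈ E, ρ k (q e) = q (k * e * (k : X)⁻¹)
  tau : ∀ (t : T), ∀ e ∈ E, τ t (q e) = q (t * e * (t : X)⁻¹)
  pair : ∀ a ∈ E, ∀ b ∈ E, bb (q a) (q b) = lam ⁅a, b⁆

/-- The group `E` modulo the kernel of `lam`, with the conjugation automorphisms. -/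
structure Cover (E C K T : Subgroup X) (lam : X → ℂ) {Y : Type u} [Group Y] (π : X → Y)
    (c : X → MulAut Y) : Prop where
  mul : ∀ a ∈ E, ∀ b ∈ E, π (a * b) = π a * π b
  surj : ∀ y, ∃ e ∈ E, π e = y
  one_iff : ∀ e ∈ E, (π e = 1 ↔ e ∈ C ∧ lam e = 1)
  cmul : ∀ g ∈ E ⊔ (K ⊔ T), ∀ h ∈ E ⊔ (K ⊔ T), c (g * h) = c g * c h
  act : ∀ g ∈ E ⊔ (K ⊔ T), ∀ e ∈ E, c g (π e) = π (g * e * g⁻¹)

variable {E C K T : Subgroup X} {lam : X → ℂ}

theorem Setting.exists_model (S : Setting E C K T lam) :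
    ∃ (V : Type u) (_ : AddCommGroup V) (_ : Module (ZMod 2) V) (_ : Finite V) (q : X → V)
      (bb : V → V → ℂ) (ρ : Representation (ZMod 2) K V) (τ : Representation (ZMod 2) T V),
      Model E C K T lam q bb ρ τ := by
  classical
  let N : Subgroup E := C.subgroupOf E
  haveI : N.Normal := ⟨fun x hx g => S.normC g (S.mem_M_of_E g.2) _ hx⟩
  letI : CommGroup (E ⧸ N) :=
    { (inferInstance : Group (E ⧸ N)) with
      mul_comm := fun a b => by
        induction a using QuotientGroup.induction_on with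
        | _ a =>
          induction b using QuotientGroup.induction_on with
          | _ b =>
            refine QuotientGroup.eq.2 ?_
            show ((a * b : E) : X)⁻¹ * ((b * a : E) : X) ∈ C
            rw [show ((a * b : E) : X)⁻¹ * ((b * a : E) : X) = ⁅(b : X)⁻¹, (a : X)⁻¹⁆ by
              simp only [commutatorElement_def, Subgroup.coe_mul]; group]
            exact S.comm _ (inv_mem b.2) _ (inv_mem a.2) }
  letI : Module (ZMod 2) (Additive (E ⧸ N)) := AddCommGroup.zmodModule (fun x => by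
    obtain ⟨e, he⟩ := QuotientGroup.mk'_surjective N x.toMul
    rw [two_nsmul]
    apply Additive.toMul.injective
    rw [toMul_add, toMul_zero, ← he, QuotientGroup.mk'_apply, ← QuotientGroup.mk_mul,
      QuotientGroup.eq_one_iff]
    exact S.sq e e.2)
  let qE : E → Additive (E ⧸ N) := fun e => Additive.ofMul (e : E ⧸ N)
  let q : X → Additive (E ⧸ N) := fun x => if hx : x ∈ E then qE ⟨x, hx⟩ else 0
  have hq : ∀ (e : X) (he : e ∈ E), q e = qE ⟨e, he⟩ := fun e he => dif_pos he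
  have hadd : ∀ a ∈ E, ∀ b ∈ E, q (a * b) = q a + q b := fun a ha b hb => by
    rw [hq a ha, hq b hb, hq _ (mul_mem ha hb)]
    exact congrArg Additive.ofMul (QuotientGroup.mk_mul N (⟨a, ha⟩ : E) ⟨b, hb⟩)
  have hsurj : ∀ v, ∃ e ∈ E, q e = v := fun v => by
    obtain ⟨e, he⟩ := QuotientGroup.mk'_surjective N v.toMul
    exact ⟨e, e.2, (hq e e.2).trans (congrArg Additive.ofMul he)⟩
  have hzero : ∀ e ∈ E, (q e = 0 ↔ e ∈ C) := fun e he => by
    rw [hq e he]
    exact ofMul_eq_zero.trans (QuotientGroup.eq_one_iff _)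
  have hcongr : ∀ a ∈ E, ∀ b ∈ E, q a = q b → a⁻¹ * b ∈ C := fun a ha b hb h => by
    rw [hq a ha, hq b hb] at h
    have h' := QuotientGroup.eq.1 (show ((⟨a, ha⟩ : E) : E ⧸ N) = ((⟨b, hb⟩ : E) : E ⧸ N) from
      congrArg Additive.toMul h)
    exact h'
  let L : (E ⊔ (K ⊔ T) : Subgroup X) → Additive (E ⧸ N) →+ Additive (E ⧸ N) := fun g =>
    MonoidHom.toAdditive (QuotientGroup.map N N
      (MonoidHom.mk' (fun e : E => (⟨g * e * (g : X)⁻¹, S.normE g g.2 e e.2⟩ : E))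
        fun a b => Subtype.ext (by simp [mul_assoc]))
      (fun x hx => S.normC g g.2 _ hx))
  have hL : ∀ g (e : X), e ∈ E → L g (q e) = q (g * e * (g : X)⁻¹) := fun g e he => by
    rw [hq e he, hq _ (S.normE g g.2 e he)]
    rfl
  let ρ₀ : (E ⊔ (K ⊔ T) : Subgroup X) →* Module.End (ZMod 2) (Additive (E ⧸ N)) :=
    { toFun := fun g => (L g).toZModLinearMap 2
      map_one' := LinearMap.ext fun v => by
        obtain ⟨e, he, rfl⟩ := hsurj v
        show L 1 (q e) = q e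
        rw [hL 1 e he]
        simp
      map_mul' := fun g h => LinearMap.ext fun v => by
        obtain ⟨e, he, rfl⟩ := hsurj v
        show L (g * h) (q e) = L g (L h (q e))
        rw [hL _ e he, hL h e he, hL g _ (S.normE h h.2 e he)]
        congr 1
        simp [mul_assoc] }
  have hsurj' := hsurj
  choose r hrE hr using hsurj'
  let bb : Additive (E ⧸ N) → Additive (E ⧸ N) → ℂ := fun v w => lam ⁅r v, r w⁆
  have hb : ∀ a ∈ E, ∀ b ∈ E, bb (q a) (q b) = lam ⁅a, b⁆ := by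
    intro a ha b hb
    have key : ∀ x ∈ E, ∀ y ∈ E, ∀ z ∈ E, q x = q y → lam ⁅y, z⁆ = lam ⁅x, z⁆ := by
      intro x hx y hy z hz h
      have hc := hcongr x hx y hy h
      conv_lhs => rw [show y = x * (x⁻¹ * y) by group]
      rw [S.pair_mul_left hx (S.le hc) hz, S.pair_left_C hc hz, mul_one]
    show lam ⁅r (q a), r (q b)⁆ = _
    rw [key a ha _ (hrE _) _ (hrE _) (hr _).symm, S.pair_comm ha (hrE _),
      key b hb _ (hrE _) _ ha (hr _).symm, S.pair_comm hb ha]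
  refine ⟨_, inferInstance, inferInstance, inferInstance, q, bb,
    ρ₀.comp (Subgroup.inclusion (le_sup_of_le_right le_sup_left)),
    ρ₀.comp (Subgroup.inclusion (le_sup_of_le_right le_sup_right)),
    ⟨hadd, fun v => ⟨r v, hrE v, hr v⟩, hzero, fun k e he => ?_, fun t e he => ?_, hb⟩⟩
  · exact hL _ e he
  · exact hL _ e he

theorem Setting.exists_cover (S : Setting E C K T lam) :
    ∃ (Y : Type u) (_ : Group Y) (_ : Finite Y) (π : X → Y) (c : X → MulAut Y),
      Cover E C K T lam π c := by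
  classical
  let N : Subgroup E :=
    { carrier := {e | (e : X) ∈ C ∧ lam e = 1}
      one_mem' := ⟨one_mem C, S.lam_one⟩
      mul_mem' := fun {a b} ha hb => ⟨mul_mem ha.1 hb.1, by
        show lam ((a : X) * b) = 1
        rw [S.lam_mul _ ha.1 _ hb.1, ha.2, hb.2, mul_one]⟩
      inv_mem' := fun {a} ha => ⟨inv_mem ha.1, by
        show lam (a : X)⁻¹ = 1
        rw [S.lam_inv ha.1, ha.2]⟩ }
  have hN : ∀ g ∈ E ⊔ (K ⊔ T), ∀ x ∈ C, lam x = 1 → g * x * g⁻¹ ∈ C ∧ lam (g * x * g⁻¹) = 1 :=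
    fun g hg x hx h => ⟨S.normC g hg x hx, (S.lam_conj g hg x hx).trans h⟩
  haveI : N.Normal := ⟨fun x hx g => hN g (S.mem_M_of_E g.2) _ hx.1 hx.2⟩
  let M := (E ⊔ (K ⊔ T) : Subgroup X)
  let F : M → (E ⧸ N →* E ⧸ N) := fun g => QuotientGroup.map N N
    (MonoidHom.mk' (fun e : E => (⟨g * e * (g : X)⁻¹, S.normE g g.2 e e.2⟩ : E))
      fun a b => Subtype.ext (by simp [mul_assoc]))
    (fun x hx => hN g g.2 _ hx.1 hx.2)
  let π : X → E ⧸ N := fun x => if hx : x ∈ E then ((⟨x, hx⟩ : E) : E ⧸ N) else 1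
  have hπ : ∀ (e : X) (he : e ∈ E), π e = ((⟨e, he⟩ : E) : E ⧸ N) := fun e he => dif_pos he
  have hsurj : ∀ y, ∃ e ∈ E, π e = y := fun y => by
    obtain ⟨e, rfl⟩ := QuotientGroup.mk'_surjective N y
    exact ⟨e, e.2, hπ e e.2⟩
  have hF : ∀ g e, e ∈ E → F g (π e) = π (g * e * (g : X)⁻¹) := fun g e he => by
    rw [hπ e he, hπ _ (S.normE g g.2 e he)]
    rfl
  have hcomp : ∀ g h y, F g (F h y) = F (g * h) y := fun g h y => by
    obtain ⟨e, he, rfl⟩ := hsurj y
    rw [hF h e he, hF g _ (S.normE h h.2 e he), hF _ e he]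
    congr 1
    simp [mul_assoc]
  have hone : ∀ y, F 1 y = y := fun y => by
    obtain ⟨e, he, rfl⟩ := hsurj y
    rw [hF 1 e he]; simp
  let A : M → MulAut (E ⧸ N) := fun g =>
    { toFun := F g
      invFun := F g⁻¹
      left_inv := fun y => by rw [hcomp, inv_mul_cancel, hone]
      right_inv := fun y => by rw [hcomp, mul_inv_cancel, hone]
      map_mul' := map_mul (F g) }
  let c : X → MulAut (E ⧸ N) := fun g => if hg : g ∈ M then A ⟨g, hg⟩ else 1
  refine ⟨_, inferInstance, inferInstance, π, c, fun a ha b hb => ?_, hsurj, fun e he => ?_,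
    fun g hg h hh => ?_, fun g hg e he => ?_⟩
  · rw [hπ a ha, hπ b hb, hπ _ (mul_mem ha hb)]
    exact QuotientGroup.mk_mul N (⟨a, ha⟩ : E) ⟨b, hb⟩
  · rw [hπ e he, QuotientGroup.eq_one_iff]
    exact Iff.rfl
  · refine MulEquiv.ext fun y => ?_
    simp only [c, MulAut.mul_apply]
    rw [dif_pos (show g * h ∈ M from mul_mem hg hh), dif_pos (show g ∈ M from hg),
      dif_pos (show h ∈ M from hh)]
    exact (hcomp ⟨g, hg⟩ ⟨h, hh⟩ y).symm
  · simp only [c]
    rw [dif_pos (show g ∈ M from hg)]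
    exact hF ⟨g, hg⟩ e he

section Model

variable {V : Type u} [AddCommGroup V] [Module (ZMod 2) V] [Finite V] {q : X → V} {bb : V → V → ℂ}
  {ρ : Representation (ZMod 2) K V} {τ : Representation (ZMod 2) T V}
  (M : Model E C K T lam q bb ρ τ)
include M

theorem Model.map_one : q 1 = 0 := by
  have h := M.add 1 (one_mem E) 1 (one_mem E)
  rw [mul_one, left_eq_add] at h
  exact h

theorem Model.map_inv {e : X} (he : e ∈ E) : q e⁻¹ = q e := by
  have h := M.add e he e⁻¹ (inv_mem he)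
  rw [mul_inv_cancel, M.map_one] at h
  calc q e⁻¹ = q e + (q e + q e⁻¹) := by rw [← add_assoc, ZModModule.add_self, zero_add]
    _ = q e := by rw [← h, add_zero]

/-- The preimage of a subspace. -/
def Model.pre (U : Submodule (ZMod 2) V) : Subgroup X where
  carrier := {e | e ∈ E ∧ q e ∈ U}
  one_mem' := ⟨one_mem E, by rw [M.map_one]; exact U.zero_mem⟩
  mul_mem' := fun {a b} ha hb => ⟨mul_mem ha.1 hb.1, by
    rw [M.add a ha.1 b hb.1]; exact U.add_mem ha.2 hb.2⟩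
  inv_mem' := fun {a} ha => ⟨inv_mem ha.1, by rw [M.map_inv ha.1]; exact ha.2⟩

theorem Model.mem_pre {U : Submodule (ZMod 2) V} {e : X} : e ∈ M.pre U ↔ e ∈ E ∧ q e ∈ U := Iff.rfl

theorem Model.pre_bot (S : Setting E C K T lam) : M.pre ⊥ = C := by
  ext e
  rw [M.mem_pre, Submodule.mem_bot]
  exact ⟨fun h => (M.zero_iff e h.1).1 h.2, fun h => ⟨S.le h, (M.zero_iff e (S.le h)).2 h⟩⟩

theorem Model.eq_bot_of_pre {U : Submodule (ZMod 2) V} (h : M.pre U ≤ C) : U = ⊥ := by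
  refine (Submodule.eq_bot_iff _).2 fun v hv => ?_
  obtain ⟨e, he, rfl⟩ := M.surj v
  exact (M.zero_iff e he).2 (h ⟨he, hv⟩)

theorem Model.eq_top_of_pre {U : Submodule (ZMod 2) V} (h : E ≤ M.pre U) : U = ⊤ := by
  refine Submodule.eq_top_iff'.2 fun v => ?_
  obtain ⟨e, he, rfl⟩ := M.surj v
  exact (h he).2

theorem Model.inv_pre (S : Setting E C K T lam) {T₁ : Subgroup X} (hT₁ : T₁ ≤ T)
    {U : Submodule (ZMod 2) V} (hK : ∀ k, ∀ v ∈ U, ρ k v ∈ U)
    (hT : ∀ t : T, (t : X) ∈ T₁ → ∀ v ∈ U, τ t v ∈ U) : Inv E C K T₁ (M.pre U) := by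
  refine ⟨fun x hx => ⟨S.le hx, by rw [(M.zero_iff x (S.le hx)).2 hx]; exact U.zero_mem⟩,
    fun x hx => hx.1, fun g hg w hw => ⟨S.normE g (S.mem_M_of_K hg) w hw.1, ?_⟩,
    fun g hg w hw => ⟨S.normE g (S.mem_M_of_T (hT₁ hg)) w hw.1, ?_⟩⟩
  · rw [← M.rho ⟨g, hg⟩ w hw.1]; exact hK _ _ hw.2
  · rw [← M.tau ⟨g, hT₁ hg⟩ w hw.1]; exact hT _ hg _ hw.2

theorem Model.pairing (S : Setting E C K T lam) : Pairing ρ bb := by
  refine ⟨fun x y z => ?_, fun x y => ?_, fun x y => ?_, fun x h => ?_, fun g x y => ?_⟩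
  · obtain ⟨a, ha, rfl⟩ := M.surj x
    obtain ⟨b, hb, rfl⟩ := M.surj y
    obtain ⟨c, hc, rfl⟩ := M.surj z
    rw [← M.add a ha b hb, M.pair _ (mul_mem ha hb) c hc, M.pair a ha c hc, M.pair b hb c hc,
      S.pair_mul_left ha hb hc]
  · obtain ⟨a, ha, rfl⟩ := M.surj x
    obtain ⟨b, hb, rfl⟩ := M.surj y
    rw [M.pair a ha b hb, M.pair b hb a ha, S.pair_comm ha hb]
  · obtain ⟨a, ha, rfl⟩ := M.surj x
    obtain ⟨b, hb, rfl⟩ := M.surj y
    rw [M.pair a ha b hb]
    exact S.lam_mul_self (S.comm a ha b hb)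
  · obtain ⟨a, ha, rfl⟩ := M.surj x
    exact (M.zero_iff a ha).2 (S.nondeg a ha fun b hb => (M.pair a ha b hb).symm.trans (h _))
  · obtain ⟨a, ha, rfl⟩ := M.surj x
    obtain ⟨b, hb, rfl⟩ := M.surj y
    have hg := S.mem_M_of_K g.2
    rw [M.rho g a ha, M.rho g b hb, M.pair _ (S.normE _ hg a ha) _ (S.normE _ hg b hb),
      M.pair a ha b hb, S.pair_conj hg ha hb]

theorem Model.tau_pair (S : Setting E C K T lam) (t : T) (x y : V) :
    bb (τ t x) (τ t y) = bb x y := by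
  obtain ⟨a, ha, rfl⟩ := M.surj x
  obtain ⟨b, hb, rfl⟩ := M.surj y
  have hg := S.mem_M_of_T t.2
  rw [M.tau t a ha, M.tau t b hb, M.pair _ (S.normE _ hg a ha) _ (S.normE _ hg b hb),
    M.pair a ha b hb, S.pair_conj hg ha hb]

theorem Model.fix (S : Setting E C K T lam) (v : V) (h : ∀ g, ρ g v = v) : v = 0 := by
  obtain ⟨e, he, rfl⟩ := M.surj v
  refine (M.zero_iff e he).2 (S.fpf e he fun k hk => (M.zero_iff _ ?_).1 ?_)
  · rw [commutatorElement_def]; exact mul_mem (S.normE k (S.mem_M_of_K hk) e he) (inv_mem he)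
  · rw [commutatorElement_def, M.add _ (S.normE k (S.mem_M_of_K hk) e he) _ (inv_mem he),
      ← M.rho ⟨k, hk⟩ e he, h, M.map_inv he, ZModModule.add_self]

theorem Model.isotropic_iff {U : Submodule (ZMod 2) V} :
    (∀ a ∈ M.pre U, ∀ b ∈ M.pre U, lam ⁅a, b⁆ = 1) ↔ ∀ x ∈ U, ∀ y ∈ U, bb x y = 1 := by
  refine ⟨fun h x hx y hy => ?_, fun h a ha b hb => ?_⟩
  · obtain ⟨a, ha, rfl⟩ := M.surj x
    obtain ⟨b, hb, rfl⟩ := M.surj y
    rw [M.pair a ha b hb]; exact h a ⟨ha, hx⟩ b ⟨hb, hy⟩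
  · rw [← M.pair a ha.1 b hb.1]; exact h _ ha.2 _ hb.2

theorem Model.orth_pre (S : Setting E C K T lam) {T₁ : Subgroup X} (hT₁ : T₁ ≤ T)
    {U U' : Submodule (ZMod 2) V} (hU : M.pre U ≤ E)
    (h : ∀ v, v ∈ U' ↔ ∀ w ∈ U, bb v w = 1) :
    (S.mono_T hT₁).orth (M.pre U) hU = M.pre U' := by
  ext e
  rw [Setting.mem_orth, M.mem_pre]
  refine and_congr_right fun he => ?_
  rw [h]
  constructor
  · intro h2 w hw
    obtain ⟨b, hb, rfl⟩ := M.surj w
    rw [M.pair e he b hb]; exact h2 b ⟨hb, hw⟩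
  · intro h2 b hb
    rw [← M.pair e he b hb.1]; exact h2 _ hb.2

end Model

end Cfsg.Agent.Char8Extra
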