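import Cfsg.Agent.Char8Extra.Chars

/-!
# Reduction by an isotropic subgroup, products and swapped blocks
-/

set_option autoImplicit false
set_option linter.style.haveILetI false
set_option linter.unusedSectionVars false
set_option linter.unusedFintypeInType false

namespace Cfsg.Agent.Char8Extra

open Subgroup
open scoped commutatorElement ComplexConjugate

universe u

variable {X : Type u} [Group X] [Finite X] {E C K T : Subgroup X} {lam : X → ℂ}

theorem Setting.mono_T (S : Setting E C K T lam) {T₁ : Subgroup X} (h : T₁ ≤ T) :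
    Setting E C K T₁ lam := by
  have hM : E ⊔ (K ⊔ T₁) ≤ E ⊔ (K ⊔ T) := sup_le_sup_left (sup_le_sup_left h _) _
  exact ⟨S.le, S.lam_mul, S.lam_val, fun g hg => S.lam_conj g (hM hg), S.sq, S.comm, S.nondeg,
    fun g hg => S.normE g (hM hg), fun g hg => S.normC g (hM hg), fun t ht => S.normK t (h ht),
    S.fpf, eq_bot_iff.2 ((inf_le_inf_left E h).trans S.disj.le), S.two.to_le h, S.odd⟩

/-- An invariant homomorphism trivial on `C` is trivial. -/
theorem Setting.invariant_hom_eq_one (S : Setting E C K T lam) {W : Subgroup X} (hCW : C ≤ W)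
    (hWE : W ≤ E) (hK : ∀ g ∈ K, ∀ w ∈ W, g * w * g⁻¹ ∈ W) {ν : X → ℂ}
    (hmul : ∀ a ∈ W, ∀ b ∈ W, ν (a * b) = ν a * ν b) (hne : ∀ a ∈ W, ν a ≠ 0)
    (hC : ∀ c ∈ C, ν c = 1) (hinv : ∀ g ∈ K, ∀ w ∈ W, ν (g * w * g⁻¹) = ν w) {w : X} (hw : w ∈ W) :
    ν w = 1 := by
  classical
  haveI := Fintype.ofFinite X
  haveI := Fintype.ofFinite K
  let N := C.subgroupOf W
  haveI : N.Normal := ⟨fun x hx g => S.normC g (S.mem_M_of_E (hWE g.2)) _ hx⟩
  letI : CommGroup (W ⧸ N) :=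
    { (inferInstance : Group (W ⧸ N)) with
      mul_comm := fun a b => by
        induction a using QuotientGroup.induction_on with
        | _ a =>
          induction b using QuotientGroup.induction_on with
          | _ b =>
            refine QuotientGroup.eq.2 ?_
            show ((a * b : W) : X)⁻¹ * ((b * a : W) : X) ∈ C
            rw [show ((a * b : W) : X)⁻¹ * ((b * a : W) : X) = ⁅(b : X)⁻¹, (a : X)⁻¹⁆ by
              simp only [commutatorElement_def, Subgroup.coe_mul]; group]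
            exact S.comm _ (inv_mem (hWE b.2)) _ (inv_mem (hWE a.2)) }
  let νU : W →* ℂˣ :=
    { toFun := fun a => Units.mk0 (ν a) (hne a a.2)
      map_one' := Units.ext (hC 1 (one_mem C))
      map_mul' := fun a b => Units.ext (hmul a a.2 b b.2) }
  let νQ : W ⧸ N →* ℂˣ := QuotientGroup.lift N νU fun x hx => Units.ext (hC _ hx)
  let cw : K → W := fun k => ⟨(k : X) * w * (k : X)⁻¹, hK k k.2 w hw⟩
  obtain ⟨P, hP⟩ := QuotientGroup.mk'_surjective N (∏ k : K, ((cw k : W) : W ⧸ N))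
  have hPC : (P : X) ∈ C := by
    refine S.fpf _ (hWE P.2) fun g hg => ?_
    let cg : W →* W := MonoidHom.mk' (fun a => ⟨g * (a : X) * g⁻¹, hK g hg _ a.2⟩)
      fun a b => Subtype.ext (by simp [mul_assoc])
    let cq : W ⧸ N →* W ⧸ N := QuotientGroup.map N N cg fun x hx =>
      S.normC g (S.mem_M_of_K hg) _ hx
    have h1 : cq (P : W ⧸ N) = (P : W ⧸ N) := by
      rw [show (P : W ⧸ N) = ∏ k : K, ((cw k : W) : W ⧸ N) from hP, map_prod]
      refine Fintype.prod_equiv (Equiv.mulLeft (⟨g, hg⟩ : K)) _ _ fun k => ?_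
      show ((cg (cw k) : W) : W ⧸ N) = _
      congr 1
      exact Subtype.ext (by simp [cg, cw, mul_assoc])
    have h2 := QuotientGroup.eq.1 h1.symm
    have h3 : (P : X)⁻¹ * (g * (P : X) * g⁻¹) ∈ C := h2
    have h4 := S.normC P (S.mem_M_of_E (hWE P.2)) _ h3
    rwa [show (P : X) * ((P : X)⁻¹ * (g * (P : X) * g⁻¹)) * (P : X)⁻¹ = ⁅g, (P : X)⁆ by
      simp only [commutatorElement_def]; group] at h4
  have hpow : ν w ^ Fintype.card K = 1 := by
    have h1 : νQ (P : W ⧸ N) = 1 := Units.ext (hC _ hPC)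
    rw [show (P : W ⧸ N) = ∏ k : K, ((cw k : W) : W ⧸ N) from hP, map_prod] at h1
    have h2 := congrArg Units.val h1
    rw [Units.coe_prod, Units.val_one, Finset.prod_congr rfl fun (k : K) _ =>
      show ((νQ ((cw k : W) : W ⧸ N) : ℂˣ) : ℂ) = ν w from hinv k k.2 w hw,
      Finset.prod_const, Finset.card_univ] at h2
    exact h2
  have hsq : ν w ^ 2 = 1 := by
    rw [pow_two, ← hmul w hw w hw, hC _ (S.sq w (hWE hw))]
  obtain ⟨m, hm⟩ := S.odd
  rw [← Nat.card_eq_fintype_card, hm, pow_succ, pow_mul, hsq, one_pow, one_mul] at hpow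
  exact hpow

/-- The section attached to an isotropic subgroup. -/
theorem Setting.isotropic_setting (S : Setting E C K T lam) {W : Subgroup X}
    (hW : Inv E C K T W) (hiso : ∀ a ∈ W, ∀ b ∈ W, lam ⁅a, b⁆ = 1) :
    ∃ mu : X → ℂ, Setting (S.orth W hW.le) W K T mu ∧ ∀ c ∈ C, mu c = lam c := by
  obtain ⟨mu, hmul, hne, hC, hinvK⟩ := exists_invariant_extension hW.ge S.lam_mul S.lam_val
    (fun a ha b hb => ⟨S.comm a (hW.le ha) b (hW.le hb), hiso a ha b hb⟩)
    (fun k hk c hc => S.lam_conj k (S.mem_M_of_K hk) c hc) hW.conjK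
    (fun k hk c hc => S.normC k (S.mem_M_of_K hk) c hc) S.odd
  have h1 : mu 1 = 1 := (hC 1 (one_mem C)).trans S.lam_one
  have hinvinv : ∀ a ∈ W, mu a⁻¹ = (mu a)⁻¹ := fun a ha => by
    have h := hmul a ha a⁻¹ (inv_mem ha)
    rw [mul_inv_cancel, h1] at h
    exact eq_inv_of_mul_eq_one_right h.symm
  have hsign : ∀ a ∈ W, mu a = 1 ∨ mu a = -1 := by
    intro a ha
    have h := S.invariant_hom_eq_one hW.ge hW.le hW.conjK (ν := fun x => mu x * mu x)
      (fun a ha b hb => by simp only [hmul a ha b hb]; ring)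
      (fun a ha => mul_ne_zero (hne a ha) (hne a ha))
      (fun c hc => by simp only [hC c hc, S.lam_mul_self hc])
      (fun g hg w hw => by simp only [hinvK g hg w hw]) ha
    exact mul_self_eq_one_iff.1 h
  have hinvT : ∀ t ∈ T, ∀ w ∈ W, mu (t * w * t⁻¹) = mu w := by
    intro t ht w hw
    have hcm : ∀ a ∈ W, t * a * t⁻¹ ∈ W := hW.conjT t ht
    have h := S.invariant_hom_eq_one hW.ge hW.le hW.conjK
      (ν := fun x => mu (t * x * t⁻¹) * mu x)
      (fun a ha b hb => by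
        simp only [show t * (a * b) * t⁻¹ = (t * a * t⁻¹) * (t * b * t⁻¹) by group,
          hmul _ (hcm a ha) _ (hcm b hb), hmul a ha b hb]
        ring)
      (fun a ha => mul_ne_zero (hne _ (hcm a ha)) (hne a ha))
      (fun c hc => by
        simp only [hC c hc, hC _ (S.normC t (S.mem_M_of_T ht) c hc),
          S.lam_conj t (S.mem_M_of_T ht) c hc, S.lam_mul_self hc])
      (fun g hg a ha => by
        have h2 := hinvK (t * g * t⁻¹) (S.normK t ht g hg) (t * a * t⁻¹) (hcm a ha)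
        rw [show t * g * t⁻¹ * (t * a * t⁻¹) * (t * g * t⁻¹)⁻¹ = t * (g * a * g⁻¹) * t⁻¹ by group]
          at h2
        simp only [h2, hinvK g hg a ha]) hw
    rcases hsign w hw with e | e <;> rw [e] at h ⊢
    · linear_combination h
    · linear_combination -h
  have horthW : ∀ e ∈ S.orth W hW.le, ∀ w ∈ W, e * w * e⁻¹ ∈ W ∧ mu (e * w * e⁻¹) = mu w := by
    intro e he w hw
    have hc := S.comm e he.1 w (hW.le hw)
    have heq : e * w * e⁻¹ = ⁅e, w⁆ * w := by simp only [commutatorElement_def]; group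
    rw [heq]
    refine ⟨mul_mem (hW.ge hc) hw, ?_⟩
    rw [hmul _ (hW.ge hc) _ hw, hC _ hc, he.2 w hw, one_mul]
  -- the normalizing elements
  let M : Subgroup X :=
    { carrier := {g | (∀ w ∈ W, g * w * g⁻¹ ∈ W ∧ mu (g * w * g⁻¹) = mu w) ∧
        (∀ w ∈ W, g⁻¹ * w * g ∈ W ∧ mu (g⁻¹ * w * g) = mu w) ∧
        (∀ e ∈ S.orth W hW.le, g * e * g⁻¹ ∈ S.orth W hW.le) ∧
        (∀ e ∈ S.orth W hW.le, g⁻¹ * e * g ∈ S.orth W hW.le)}
      one_mem' := ⟨fun w hw => by simpa using hw, fun w hw => by simpa using hw,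
        fun e he => by simpa using he, fun e he => by simpa using he⟩
      mul_mem' := fun {a b} ha hb => ⟨fun w hw => by
          have h' := hb.1 w hw
          have h'' := ha.1 _ h'.1
          rw [show a * b * w * (a * b)⁻¹ = a * (b * w * b⁻¹) * a⁻¹ by group]
          exact ⟨h''.1, h''.2.trans h'.2⟩, fun w hw => by
          have h' := ha.2.1 w hw
          have h'' := hb.2.1 _ h'.1
          rw [show (a * b)⁻¹ * w * (a * b) = b⁻¹ * (a⁻¹ * w * a) * b by group]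
          exact ⟨h''.1, h''.2.trans h'.2⟩, fun e he => by
          rw [show a * b * e * (a * b)⁻¹ = a * (b * e * b⁻¹) * a⁻¹ by group]
          exact ha.2.2.1 _ (hb.2.2.1 e he), fun e he => by
          rw [show (a * b)⁻¹ * e * (a * b) = b⁻¹ * (a⁻¹ * e * a) * b by group]
          exact hb.2.2.2 _ (ha.2.2.2 e he)⟩
      inv_mem' := fun {a} ha => ⟨fun w hw => by simpa using ha.2.1 w hw,
        fun w hw => by simpa using ha.1 w hw, fun e he => by simpa using ha.2.2.2 e he,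
        fun e he => by simpa using ha.2.2.1 e he⟩ }
  have hIo := S.inv_orth hW
  have hM : S.orth W hW.le ⊔ (K ⊔ T) ≤ M := by
    refine sup_le (fun e he => ?_) (sup_le (fun g hg => ?_) (fun g hg => ?_))
    · refine ⟨horthW e he, fun w hw => by simpa using horthW e⁻¹ (inv_mem he) w hw,
        fun x hx => mul_mem (mul_mem he hx) (inv_mem he),
        fun x hx => mul_mem (mul_mem (inv_mem he) hx) he⟩
    · refine ⟨fun w hw => ⟨hW.conjK g hg w hw, hinvK g hg w hw⟩, fun w hw => ?_,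
        hIo.conjK g hg, fun e he => by simpa using hIo.conjK g⁻¹ (inv_mem hg) e he⟩
      simpa using And.intro (hW.conjK g⁻¹ (inv_mem hg) w hw) (hinvK g⁻¹ (inv_mem hg) w hw)
    · refine ⟨fun w hw => ⟨hW.conjT g hg w hw, hinvT g hg w hw⟩, fun w hw => ?_,
        hIo.conjT g hg, fun e he => by simpa using hIo.conjT g⁻¹ (inv_mem hg) e he⟩
      simpa using And.intro (hW.conjT g⁻¹ (inv_mem hg) w hw) (hinvT g⁻¹ (inv_mem hg) w hw)
  refine ⟨mu, ⟨fun w hw => ⟨hW.le hw, hiso w hw⟩, hmul, hsign,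
    fun g hg w hw => ((hM hg).1 w hw).2, fun e he => hW.ge (S.sq e he.1),
    fun a ha b hb => hW.ge (S.comm a ha.1 b hb.1), fun e he h => ?_,
    fun g hg => (hM hg).2.2.1, fun g hg w hw => ((hM hg).1 w hw).1, S.normK,
    fun e he h => ?_, eq_bot_iff.2 ((inf_le_inf_right T (S.orth_le hW.le)).trans S.disj.le),
    S.two, S.odd⟩, hC⟩
  · rw [← S.orth_orth hW.le hW.ge]
    exact ⟨he.1, fun b hb => (hC _ (S.comm e he.1 b hb.1)).symm.trans (h b hb)⟩
  · rw [← S.orth_orth hW.le hW.ge]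
    refine ⟨he.1, fun b hb => ?_⟩
    refine S.invariant_hom_eq_one (S.C_le_orth hW.le) (S.orth_le hW.le) hIo.conjK
      (ν := fun x => lam ⁅e, x⁆)
      (fun x hx y hy => S.pair_mul_right he.1 hx.1 hy.1)
      (fun x hx => S.lam_ne_zero (S.comm e he.1 x hx.1))
      (fun c hc => (S.pair_comm he.1 (S.le hc)).trans (S.pair_left_C hc he.1))
      (fun g hg x hx => ?_) hb
    have hw : ⁅g⁻¹, e⁆ ∈ W := h g⁻¹ (inv_mem hg)
    have h1' := S.pair_conj (g := g) (a := g⁻¹ * e * g) (b := x) (S.mem_M_of_K hg)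
      (by simpa using S.normE g⁻¹ (S.mem_M_of_K (inv_mem hg)) e he.1) hx.1
    rw [show g * (g⁻¹ * e * g) * g⁻¹ = e by group] at h1'
    rw [h1', show g⁻¹ * e * g = ⁅g⁻¹, e⁆ * e by simp only [commutatorElement_def]; group,
      S.pair_mul_left (hW.le hw) he.1 hx.1, (S.pair_comm (hW.le hw) hx.1).trans (hx.2 _ hw),
      one_mul]

/-- Induction from the orthogonal of an isotropic subgroup. -/
theorem Setting.good_of_isotropic (S : Setting E C K T lam) {W : Subgroup X}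
    (hW : Inv E C K T W) {mu : X → ℂ} (hmu : ∀ c ∈ C, mu c = lam c)
    (h : Good (S.orth W hW.le) W T mu) : Good E C T lam := by
  classical
  haveI := Fintype.ofFinite X
  obtain ⟨d, f, hf, hf1, hd, hcard, hfC⟩ := h
  set O := S.orth W hW.le
  have hle : O ⊔ T ≤ E ⊔ T := sup_le_sup_right (S.orth_le hW.le) _
  obtain ⟨r, hr⟩ : ∃ r, Nat.card W = r * Nat.card C := by
    obtain ⟨r, hr⟩ := card_dvd_of_le hW.ge
    exact ⟨r, hr.trans (mul_comm _ _)⟩
  have hOr : Nat.card O * r = Nat.card E := by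
    have := S.card_orth hW.le hW.ge
    rw [hr, ← mul_assoc] at this
    exact Nat.eq_of_mul_eq_mul_right Nat.card_pos this
  have hH : Nat.card (O ⊔ T : Subgroup X) = Nat.card O * Nat.card T :=
    S.card_sup (S.orth_le hW.le) le_rfl fun t ht e he => (S.inv_orth hW).conjT t ht e he
  have hG : Nat.card (E ⊔ T : Subgroup X) = Nat.card E * Nat.card T :=
    S.card_sup le_rfl le_rfl fun t ht e he => S.normE t (S.mem_M_of_T ht) e he
  have hM : E ⊔ T ≤ E ⊔ (K ⊔ T) := sup_le_sup_left le_sup_right _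
  have hF : ∀ c ∈ C, indOn (O ⊔ T) (E ⊔ T) f c = ((d * r : ℕ) : ℂ) * lam c := by
    intro c hc
    rw [indOn, Finset.sum_congr rfl fun y _ => show (if y ∈ E ⊔ T ∧ y⁻¹ * c * y ∈ O ⊔ T then
        f (y⁻¹ * c * y) else 0) = (if y ∈ E ⊔ T then (d : ℂ) * lam c else 0) by
      by_cases hy : y ∈ E ⊔ T
      · have hyM : y⁻¹ ∈ E ⊔ (K ⊔ T) := hM (inv_mem hy)
        have h2 : y⁻¹ * c * y ∈ C := by simpa using S.normC y⁻¹ hyM c hc
        rw [if_pos ⟨hy, mem_sup_left (S.C_le_orth hW.le h2)⟩, if_pos hy, hfC _ (hW.ge h2),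
          hmu _ h2]
        congr 1
        simpa using S.lam_conj y⁻¹ hyM c hc
      · rw [if_neg fun h => hy h.1, if_neg hy],
      ← Finset.sum_filter, Finset.sum_const, nsmul_eq_mul, ← Fintype.card_subtype,
      ← Nat.card_eq_fintype_card, show Nat.card {y : X // y ∈ E ⊔ T} = Nat.card (E ⊔ T : Subgroup X)
        from rfl, hG, hH, ← hOr]
    have h0 : ((Nat.card O : ℕ) : ℂ) ≠ 0 := Char.card_ne_zero_complex
    have h0' : ((Nat.card T : ℕ) : ℂ) ≠ 0 := Char.card_ne_zero_complex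
    push_cast
    field_simp
  refine ⟨d * r, indOn (O ⊔ T) (E ⊔ T) f, isCharOn_indOn hle hf, ?_, ?_, ?_, hF⟩
  · rw [hF 1 (one_mem C), S.lam_one, mul_one]
  · refine Nat.mul_pos hd (Nat.pos_of_ne_zero fun h0 => ?_)
    rw [h0, zero_mul] at hr
    exact Nat.card_pos.ne' hr
  · calc d * r * (d * r) * Nat.card C = d * d * (r * Nat.card C) * r := by ring
      _ = Nat.card E := by rw [← hr, hcard, hOr]

/-- A complemented subgroup: every element is a product. -/
theorem Setting.exists_mul (S : Setting E C K T lam) {W : Subgroup X} (hW : Inv E C K T W)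
    (hint : W ⊓ S.orth W hW.le = C) {e : X} (he : e ∈ E) :
    ∃ a ∈ W, ∃ b ∈ S.orth W hW.le, e = a * b := by
  classical
  set O := S.orth W hW.le
  let φ : W × O → E := fun p => ⟨p.1 * p.2, mul_mem (hW.le p.1.2) (S.orth_le hW.le p.2.2)⟩
  have hsurj : Function.Surjective φ := by
    let R := Set.range φ
    haveI : Finite R := inferInstance
    by_contra hns
    have hlt : Nat.card R < Nat.card E := by
      rw [Nat.card_coe_set_eq, ← Set.ncard_univ]
      exact Set.ncard_lt_ncard (Set.ssubset_univ_iff.2 fun h => hns (Set.range_eq_univ.1 h))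
        Set.finite_univ
    let s : R → W × O := fun r => r.2.choose
    have hs : ∀ r : R, φ (s r) = r.1 := fun r => r.2.choose_spec
    let θ : W × O → R × C := fun p =>
      (⟨φ p, p, rfl⟩, ⟨((s ⟨φ p, p, rfl⟩).1 : X)⁻¹ * (p.1 : X), by
        rw [← hint]
        have h1 := congrArg Subtype.val (hs ⟨φ p, p, rfl⟩)
        simp only [φ] at h1
        refine ⟨W.mul_mem (W.inv_mem (SetLike.coe_mem _)) p.1.2, ?_⟩
        rw [show ((s ⟨φ p, p, rfl⟩).1 : X)⁻¹ * (p.1 : X) =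
          ((s ⟨φ p, p, rfl⟩).2 : X) * (p.2 : X)⁻¹ by
            rw [eq_mul_inv_iff_mul_eq, mul_assoc, inv_mul_eq_iff_eq_mul, h1]]
        exact O.mul_mem (SetLike.coe_mem _) (O.inv_mem (SetLike.coe_mem _))⟩)
    have hθ : Function.Injective θ := by
      intro p q h
      have h1 : φ p = φ q := congrArg (fun x => (x.1 : E)) h
      have h2 := congrArg (fun x => ((x.2 : C) : X)) h
      simp only [θ] at h2
      have e1 : (⟨φ p, p, rfl⟩ : R) = ⟨φ q, q, rfl⟩ := Subtype.ext h1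
      rw [e1] at h2
      have h3 := mul_left_cancel h2
      have h4 := congrArg Subtype.val h1
      simp only [φ, h3] at h4
      exact Prod.ext (Subtype.ext h3) (Subtype.ext (mul_left_cancel h4))
    have h5 := Nat.card_le_card_of_injective θ hθ
    rw [Nat.card_prod, Nat.card_prod, mul_comm (Nat.card W), S.card_orth hW.le hW.ge] at h5
    exact absurd h5 (not_le.2 (Nat.mul_lt_mul_of_pos_right hlt Nat.card_pos))
  obtain ⟨p, hp⟩ := hsurj ⟨e, he⟩
  exact ⟨p.1, p.1.2, p.2, p.2.2, (congrArg Subtype.val hp).symm⟩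

theorem Setting.block_setting (S : Setting E C K T lam) {W : Subgroup X} (hW : Inv E C K T W)
    (hint : W ⊓ S.orth W hW.le = C) : Setting W C K T lam := by
  have hWM : W ⊔ (K ⊔ T) ≤ E ⊔ (K ⊔ T) := sup_le_sup_right hW.le _
  let M : Subgroup X := normalizer (W : Set X)
  have hM : W ⊔ (K ⊔ T) ≤ M := by
    refine sup_le le_normalizer (sup_le (fun g hg => ?_) (fun g hg => ?_)) <;>
      refine mem_normalizer_iff.2 fun h => ⟨fun hh => ?_, fun hh => ?_⟩
    · exact hW.conjK g hg h hh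
    · have := hW.conjK g⁻¹ (inv_mem hg) _ hh
      simpa [mul_assoc] using this
    · exact hW.conjT g hg h hh
    · have := hW.conjT g⁻¹ (inv_mem hg) _ hh
      simpa [mul_assoc] using this
  exact ⟨hW.ge, S.lam_mul, S.lam_val, fun g hg => S.lam_conj g (hWM hg),
    fun e he => S.sq e (hW.le he), fun a ha b hb => S.comm a (hW.le ha) b (hW.le hb),
    fun e he h => by rw [← hint]; exact ⟨he, hW.le he, h⟩,
    fun g hg e he => (mem_normalizer_iff.1 (hM hg) e).1 he, fun g hg => S.normC g (hWM hg),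
    S.normK, fun e he => S.fpf e (hW.le he),
    eq_bot_iff.2 ((inf_le_inf_right T hW.le).trans S.disj.le), S.two, S.odd⟩

theorem Setting.inf_orth_orth (S : Setting E C K T lam) {W : Subgroup X} (hW : Inv E C K T W)
    (hint : W ⊓ S.orth W hW.le = C) :
    S.orth W hW.le ⊓ S.orth (S.orth W hW.le) (S.inv_orth hW).le = C := by
  rw [S.orth_orth hW.le hW.ge, inf_comm, hint]

/-- The product of characters on a block and its orthogonal. -/
theorem Setting.product (S : Setting E C K T lam) {W : Subgroup X} (hW : Inv E C K T W)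
    (hint : W ⊓ S.orth W hW.le = C) {f₁ f₂ : X → ℂ} {d₁ d₂ : ℕ}
    (h₁ : IsCharOn (W ⊔ T) f₁) (h₁1 : f₁ 1 = d₁) (hd₁ : 0 < d₁)
    (hc₁ : d₁ * d₁ * Nat.card C = Nat.card W) (hC₁ : ∀ c ∈ C, f₁ c = d₁ * lam c)
    (h₂ : IsCharOn (S.orth W hW.le ⊔ T) f₂) (h₂1 : f₂ 1 = d₂) (hd₂ : 0 < d₂)
    (hc₂ : d₂ * d₂ * Nat.card C = Nat.card (S.orth W hW.le)) (hC₂ : ∀ c ∈ C, f₂ c = d₂ * lam c) :
    ∃ F : X → ℂ, IsCharOn (E ⊔ T) F ∧ F 1 = ((d₁ * d₂ : ℕ) : ℂ) ∧
      d₁ * d₂ * (d₁ * d₂) * Nat.card C = Nat.card E ∧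
      (∀ c ∈ C, F c = ((d₁ * d₂ : ℕ) : ℂ) * lam c) ∧
      ∀ a ∈ W, ∀ b ∈ S.orth W hW.le, ∀ t ∈ T, F (a * b * t) = f₁ (a * t) * f₂ (b * t) := by
  classical
  have S₁ := S.block_setting hW hint
  have S₂ := S.block_setting (S.inv_orth hW) (S.inf_orth_orth hW hint)
  set O := S.orth W hW.le with hO
  set G := E ⊔ T with hGdef
  have hM : G ≤ E ⊔ (K ⊔ T) := sup_le_sup_left le_sup_right _
  let N : Subgroup G :=
    { carrier := {g | (g : X) ∈ C ∧ lam g = 1}
      one_mem' := ⟨one_mem C, S.lam_one⟩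
      mul_mem' := fun {a b} ha hb => ⟨mul_mem ha.1 hb.1, by
        show lam ((a : X) * b) = 1
        rw [S.lam_mul _ ha.1 _ hb.1, ha.2, hb.2, mul_one]⟩
      inv_mem' := fun {a} ha => ⟨inv_mem ha.1, by
        show lam (a : X)⁻¹ = 1
        rw [S.lam_inv ha.1, ha.2]⟩ }
  haveI : N.Normal := ⟨fun n hn g => ⟨S.normC g (hM g.2) _ hn.1, by
    show lam ((g : X) * n * (g : X)⁻¹) = 1
    rw [S.lam_conj g (hM g.2) _ hn.1, hn.2]⟩⟩
  let P : Subgroup ((W ⊔ T : Subgroup X) × (O ⊔ T : Subgroup X)) :=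
    { carrier := {p | ∃ a ∈ W, ∃ b ∈ O, ∃ t ∈ T, (p.1 : X) = a * t ∧ (p.2 : X) = b * t}
      one_mem' := ⟨1, one_mem W, 1, one_mem O, 1, one_mem T, (mul_one 1).symm, (mul_one 1).symm⟩
      mul_mem' := by
        rintro p q ⟨a, ha, b, hb, t, ht, e1, e2⟩ ⟨a', ha', b', hb', t', ht', e1', e2'⟩
        refine ⟨a * (t * a' * t⁻¹), mul_mem ha (hW.conjT t ht a' ha'), b * (t * b' * t⁻¹),
          mul_mem hb ((S.inv_orth hW).conjT t ht b' hb'), t * t', mul_mem ht ht', ?_, ?_⟩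
        · show (p.1 : X) * q.1 = _
          rw [e1, e1']; group
        · show (p.2 : X) * q.2 = _
          rw [e2, e2']; group
      inv_mem' := by
        rintro p ⟨a, ha, b, hb, t, ht, e1, e2⟩
        refine ⟨t⁻¹ * a⁻¹ * t, by simpa using hW.conjT t⁻¹ (inv_mem ht) _ (inv_mem ha),
          t⁻¹ * b⁻¹ * t, by simpa using (S.inv_orth hW).conjT t⁻¹ (inv_mem ht) _ (inv_mem hb),
          t⁻¹, inv_mem ht, ?_, ?_⟩
        · show (p.1 : X)⁻¹ = _
          rw [e1]; group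
        · show (p.2 : X)⁻¹ = _
          rw [e2]; group }
  have hP : ∀ p : P, ∃ x : X × X × X, x.1 ∈ W ∧ x.2.1 ∈ O ∧ x.2.2 ∈ T ∧
      (p.1.1 : X) = x.1 * x.2.2 ∧ (p.1.2 : X) = x.2.1 * x.2.2 := fun p => by
    obtain ⟨a, ha, b, hb, t, ht, e1, e2⟩ := p.2
    exact ⟨(a, b, t), ha, hb, ht, e1, e2⟩
  choose x hxW hxO hxT hx1 hx2 using hP
  have hmem : ∀ p : P, (x p).1 * (x p).2.1 * (x p).2.2 ∈ G := fun p =>
    mul_mem (mem_sup_left (mul_mem (hW.le (hxW p)) (S.orth_le hW.le (hxO p))))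
      (mem_sup_right (hxT p))
  let Φ : P →* G ⧸ N := MonoidHom.mk'
    (fun p => ((⟨_, hmem p⟩ : G) : G ⧸ N)) (fun p q => by
      set a := (x p).1 with ha_def
      set b := (x p).2.1 with hb_def
      set t := (x p).2.2 with ht_def
      set a' := (x q).1 with ha'_def
      set b' := (x q).2.1 with hb'_def
      set t' := (x q).2.2 with ht'_def
      have he1 : (x (p * q)).1 * (x (p * q)).2.2 = a * (t * a' * t⁻¹) * (t * t') := by
        rw [← hx1]
        show (p.1.1 : X) * q.1.1 = _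
        rw [hx1 p, hx1 q]
        show a * t * (a' * t') = _
        group
      have he2 : (x (p * q)).2.1 * (x (p * q)).2.2 = b * (t * b' * t⁻¹) * (t * t') := by
        rw [← hx2]
        show (p.1.2 : X) * q.1.2 = _
        rw [hx2 p, hx2 q]
        show b * t * (b' * t') = _
        group
      have hta := hW.conjT t (hxT p) a' (hxW q)
      have htb := (S.inv_orth hW).conjT t (hxT p) b' (hxO q)
      obtain ⟨u1, u2⟩ := S.decomp_unique (hW.le (hxW _)) (hW.le (mul_mem (hxW p) hta)) (hxT _)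
        (mul_mem (hxT p) (hxT q)) he1
      obtain ⟨v1, -⟩ := S.decomp_unique (S.orth_le hW.le (hxO _))
        (S.orth_le hW.le (mul_mem (hxO p) htb)) (hxT _) (mul_mem (hxT p) (hxT q)) he2
      rw [← QuotientGroup.mk_mul]
      refine QuotientGroup.eq.2 ?_
      rw [show N = N from rfl]
      refine (?_ : _ ∧ _)
      show ((x (p * q)).1 * (x (p * q)).2.1 * (x (p * q)).2.2)⁻¹ * (a * b * t * (a' * b' * t')) ∈ C ∧
        lam (((x (p * q)).1 * (x (p * q)).2.1 * (x (p * q)).2.2)⁻¹ * (a * b * t * (a' * b' * t'))) = 1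
      rw [u1, u2, v1]
      set A := t * a' * t⁻¹ with hA
      set B := t * b' * t⁻¹ with hB
      have hAE : A ∈ E := hW.le hta
      have hbE : b ∈ E := S.orth_le hW.le (hxO p)
      have hc : ⁅b⁻¹, A⁻¹⁆ ∈ C := S.comm _ (inv_mem hbE) _ (inv_mem hAE)
      have hlam : lam ⁅b⁻¹, A⁻¹⁆ = 1 := (O.inv_mem (hxO p)).2 _ (inv_mem hta)
      have hg : (B * (t * t'))⁻¹ ∈ E ⊔ (K ⊔ T) := by
        refine inv_mem (mul_mem (S.mem_M_of_E (S.orth_le hW.le htb)) (S.mem_M_of_T ?_))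
        exact mul_mem (hxT p) (hxT q)
      have e : (a * A * (b * B) * (t * t'))⁻¹ * (a * b * t * (a' * b' * t')) =
          (B * (t * t'))⁻¹ * ⁅b⁻¹, A⁻¹⁆ * ((B * (t * t'))⁻¹)⁻¹ := by
        rw [hA, hB]
        simp only [commutatorElement_def]
        group
      rw [e]
      exact ⟨S.normC _ hg _ hc, (S.lam_conj _ hg _ hc).trans hlam⟩)
  have hΦs : Function.Surjective Φ := by
    intro g
    induction g using QuotientGroup.induction_on with
    | _ g =>
      obtain ⟨e, he, t, ht, hg⟩ := S.exists_decomp le_rfl g.2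
      obtain ⟨a, ha, b, hb, rfl⟩ := S.exists_mul hW hint he
      let p : P := ⟨(⟨a * t, mul_mem (mem_sup_left ha) (mem_sup_right ht)⟩,
        ⟨b * t, mul_mem (mem_sup_left hb) (mem_sup_right ht)⟩), a, ha, b, hb, t, ht, rfl, rfl⟩
      refine ⟨p, congrArg (fun z : G => (z : G ⧸ N)) (Subtype.ext ?_)⟩
      obtain ⟨w1, w2⟩ := S.decomp_unique (hW.le (hxW p)) (hW.le ha) (hxT p) ht (hx1 p).symm
      obtain ⟨w3, -⟩ := S.decomp_unique (S.orth_le hW.le (hxO p)) (S.orth_le hW.le hb) (hxT p) ht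
        (hx2 p).symm
      show (x p).1 * (x p).2.1 * (x p).2.2 = (g : X)
      rw [w1, w2, w3, hg]
  let χ : P → ℂ := fun p => f₁ (p.1.1 : X) * f₂ (p.1.2 : X)
  have hχ : Cfsg.IsCharacter P χ :=
    Char.isCharacter_mul
      (CharInd.isCharacter_comp ((MonoidHom.fst (W ⊔ T : Subgroup X) (O ⊔ T : Subgroup X)).comp
        P.subtype) h₁)
      (CharInd.isCharacter_comp ((MonoidHom.snd (W ⊔ T : Subgroup X) (O ⊔ T : Subgroup X)).comp
        P.subtype) h₂)
  have hχ1 : χ 1 = ((d₁ * d₂ : ℕ) : ℂ) := by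
    show f₁ 1 * f₂ 1 = _
    rw [h₁1, h₂1, Nat.cast_mul]
  obtain ⟨ψ, hψ, hψχ⟩ := Char.isCharacter_exists_descend hχ Φ.ker (by
    intro p hp
    rw [MonoidHom.mem_ker] at hp
    have hN := (QuotientGroup.eq_one_iff _).1 hp
    obtain ⟨hC, hlam⟩ := hN
    have hdec := S.decomp_unique (mul_mem (hW.le (hxW p)) (S.orth_le hW.le (hxO p)))
      (S.le hC) (hxT p) (one_mem T) (mul_one _).symm
    have haC : (x p).1 ∈ C := by
      rw [← hint]
      refine ⟨hxW p, ?_⟩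
      rw [show (x p).1 = ((x p).1 * (x p).2.1) * (x p).2.1⁻¹ by group, hdec.1]
      exact O.mul_mem (S.C_le_orth hW.le hC) (O.inv_mem (hxO p))
    have hbC : (x p).2.1 ∈ C := by
      rw [show (x p).2.1 = (x p).1⁻¹ * ((x p).1 * (x p).2.1) by group, hdec.1]
      exact mul_mem (inv_mem haC) hC
    rw [hχ1]
    show f₁ (p.1.1 : X) * f₂ (p.1.2 : X) = _
    rw [hx1, hx2, hdec.2, mul_one, mul_one, hC₁ _ haC, hC₂ _ hbC]
    have : lam (x p).1 * lam (x p).2.1 = 1 := by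
      rw [← S.lam_mul _ haC _ hbC, hdec.1]; exact hlam
    push_cast
    linear_combination ((d₁ : ℂ) * d₂) * this)
  let e := QuotientGroup.quotientKerEquivOfSurjective Φ hΦs
  let F : X → ℂ := fun y => if hy : y ∈ G then ψ (e.symm ((⟨y, hy⟩ : G) : G ⧸ N)) else 0
  have hF : ∀ a ∈ W, ∀ b ∈ O, ∀ t ∈ T, F (a * b * t) = f₁ (a * t) * f₂ (b * t) := by
    intro a ha b hb t ht
    have hy : a * b * t ∈ G :=
      mul_mem (mem_sup_left (mul_mem (hW.le ha) (S.orth_le hW.le hb))) (mem_sup_right ht)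
    simp only [F, dif_pos hy]
    let p : P := ⟨(⟨a * t, mul_mem (mem_sup_left ha) (mem_sup_right ht)⟩,
      ⟨b * t, mul_mem (mem_sup_left hb) (mem_sup_right ht)⟩), a, ha, b, hb, t, ht, rfl, rfl⟩
    have hp : Φ p = ((⟨a * b * t, hy⟩ : G) : G ⧸ N) := by
      refine congrArg (fun z : G => (z : G ⧸ N)) (Subtype.ext ?_)
      obtain ⟨w1, w2⟩ := S.decomp_unique (hW.le (hxW p)) (hW.le ha) (hxT p) ht (hx1 p).symm
      obtain ⟨w3, -⟩ := S.decomp_unique (S.orth_le hW.le (hxO p)) (S.orth_le hW.le hb) (hxT p) ht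
        (hx2 p).symm
      show (x p).1 * (x p).2.1 * (x p).2.2 = _
      rw [w1, w2, w3]
    rw [← hp, show e.symm (Φ p) = (p : P ⧸ Φ.ker) from e.symm_apply_apply (p : P ⧸ Φ.ker), ← hψχ]
  refine ⟨F, ?_, ?_, ?_, ?_, hF⟩
  · unfold IsCharOn
    rw [show (fun y : G => F (y : X)) = fun y : G => ψ (e.symm (y : G ⧸ N)) from
      funext fun y => dif_pos y.2]
    exact CharInd.isCharacter_comp (e.symm.toMonoidHom.comp (QuotientGroup.mk' N)) hψ
  · have := hF 1 (one_mem W) 1 (one_mem O) 1 (one_mem T)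
    rw [mul_one, mul_one, h₁1, h₂1] at this
    rw [this, Nat.cast_mul]
  · have := S.card_orth hW.le hW.ge
    rw [← hc₁, ← hc₂] at this
    have h' : Nat.card C * (d₁ * d₂ * (d₁ * d₂) * Nat.card C) = Nat.card C * Nat.card E := by
      rw [mul_comm (Nat.card C) (Nat.card E), ← this]; ring
    exact Nat.eq_of_mul_eq_mul_left Nat.card_pos h'
  · intro c hc
    have := hF c (hW.ge hc) 1 (one_mem O) 1 (one_mem T)
    rw [mul_one, mul_one, mul_one, hC₁ c hc, h₂1] at this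
    rw [this, Nat.cast_mul]; ring

/-- A block and its orthogonal. -/
theorem Setting.good_of_block (S : Setting E C K T lam) {W : Subgroup X} (hW : Inv E C K T W)
    (hint : W ⊓ S.orth W hW.le = C) (h₁ : Good W C T lam)
    (h₂ : Good (S.orth W hW.le) C T lam) : Good E C T lam := by
  obtain ⟨d₁, f₁, a1, a2, a3, a4, a5⟩ := h₁
  obtain ⟨d₂, f₂, b1, b2, b3, b4, b5⟩ := h₂
  obtain ⟨F, c1, c2, c3, c4, -⟩ := S.product hW hint a1 a2 a3 a4 a5 b1 b2 b3 b4 b5
  exact ⟨d₁ * d₂, F, c1, c2, Nat.mul_pos a3 b3, c3, c4⟩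

/-- Conjugation by an element of `T` moves `W ⊔ T₁` to the conjugate. -/
theorem Setting.conj_sup_mem {W W' T₁ : Subgroup X} {t : X}
    (hW : ∀ w ∈ W', t * w * t⁻¹ ∈ W) (hT : ∀ s ∈ T₁, t * s * t⁻¹ ∈ T₁) {g : X}
    (hg : g ∈ W' ⊔ T₁) : t * g * t⁻¹ ∈ W ⊔ T₁ := by
  have h : W' ⊔ T₁ ≤ (W ⊔ T₁).comap (MulAut.conj t).toMonoidHom :=
    sup_le (fun w hw => mem_sup_left (hW w hw)) fun s hs => mem_sup_right (hT s hs)
  exact h hg

/-- Two blocks exchanged by `T`. -/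
theorem Setting.good_of_swap (S : Setting E C K T lam) {T₁ : Subgroup X} (hT₁ : T₁ ≤ T)
    (hnorm : ∀ t ∈ T, ∀ s ∈ T₁, t * s * t⁻¹ ∈ T₁) {t₀ : X} (ht₀ : t₀ ∈ T)
    (hsq : t₀ * t₀ ∈ T₁) (hcover : ∀ t ∈ T, t ∈ T₁ ∨ t₀⁻¹ * t ∈ T₁)
    {W : Subgroup X} (hW : Inv E C K T₁ W) (hint : W ⊓ (S.mono_T hT₁).orth W hW.le = C)
    (hswap : ∀ w ∈ W, t₀ * w * t₀⁻¹ ∈ (S.mono_T hT₁).orth W hW.le)
    (hback : ∀ b ∈ (S.mono_T hT₁).orth W hW.le, t₀ * b * t₀⁻¹ ∈ W)
    (h : Good W C T₁ lam) : Good E C T lam := by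
  classical
  set O := (S.mono_T hT₁).orth W hW.le with hO
  obtain ⟨d, f, hf, hf1, hd, hcard, hfC⟩ := h
  have hinvW : ∀ b ∈ O, t₀⁻¹ * b * t₀ ∈ W := fun b hb => by
    have h1 := hback _ (((S.mono_T hT₁).inv_orth hW).conjT (t₀ * t₀)⁻¹ (inv_mem hsq) b hb)
    rwa [show t₀ * ((t₀ * t₀)⁻¹ * b * ((t₀ * t₀)⁻¹)⁻¹) * t₀⁻¹ = t₀⁻¹ * b * t₀ by group] at h1
  have hT₁' : ∀ s ∈ T₁, t₀⁻¹ * s * t₀⁻¹⁻¹ ∈ T₁ := hnorm _ (inv_mem ht₀)
  let f₂ : X → ℂ := fun x => f (t₀⁻¹ * x * t₀⁻¹⁻¹)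
  have hf₂ : IsCharOn (O ⊔ T₁) f₂ := hf.conj t₀⁻¹ fun x hx =>
    Setting.conj_sup_mem (fun w hw => by simpa using hinvW w hw) hT₁' hx
  have hcardO : Nat.card O = Nat.card W := by
    refine Nat.card_congr
      { toFun := fun b => (⟨t₀ * b * t₀⁻¹, hback b b.2⟩ : W)
        invFun := fun w => ⟨t₀⁻¹ * w * t₀, ?_⟩
        left_inv := fun b => Subtype.ext (by simp [mul_assoc])
        right_inv := fun w => Subtype.ext (by simp [mul_assoc]) }
    have h1 := hswap _ (hW.conjT (t₀ * t₀)⁻¹ (inv_mem hsq) w w.2)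
    rwa [show t₀ * ((t₀ * t₀)⁻¹ * (w : X) * ((t₀ * t₀)⁻¹)⁻¹) * t₀⁻¹ = t₀⁻¹ * w * t₀ by group] at h1
  have hf₂C : ∀ c ∈ C, f₂ c = d * lam c := fun c hc => by
    show f _ = _
    rw [hfC _ (S.normC t₀⁻¹ (S.mem_M_of_T (inv_mem ht₀)) c hc),
      S.lam_conj t₀⁻¹ (S.mem_M_of_T (inv_mem ht₀)) c hc]
  have hf₂1 : f₂ 1 = d := by
    show f _ = _
    rw [mul_one, mul_inv_cancel, hf1]
  obtain ⟨F, hFc, hF1, hFcard, hFC, hF⟩ := (S.mono_T hT₁).product hW hint hf hf1 hd hcard hfC hf₂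
    hf₂1 hd (by rw [hcard, hcardO]) hf₂C
  have hirr := (S.mono_T hT₁).irr_sup hFc hF1 hFcard hFC
  have hnormG : ∀ g ∈ E ⊔ T, ∀ x ∈ E ⊔ T₁, g * x * g⁻¹ ∈ E ⊔ T₁ := by
    intro g hg x hx
    obtain ⟨e, he, t, ht, rfl⟩ := S.exists_decomp le_rfl hg
    have h2 : t * x * t⁻¹ ∈ E ⊔ T₁ :=
      Setting.conj_sup_mem (fun w hw => S.normE t (S.mem_M_of_T ht) w hw) (hnorm t ht) hx
    rw [show e * t * x * (e * t)⁻¹ = e * (t * x * t⁻¹) * e⁻¹ by group]
    exact mul_mem (mul_mem (mem_sup_left he) h2) (inv_mem (mem_sup_left he))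
  have hinv₀ : ∀ x ∈ E ⊔ T₁, F (t₀ * x * t₀⁻¹) = F x := by
    intro x hx
    obtain ⟨e, he, s, hs, rfl⟩ := S.exists_decomp hT₁ hx
    obtain ⟨a, ha, b, hb, rfl⟩ := (S.mono_T hT₁).exists_mul hW hint he
    set a' := t₀ * a * t₀⁻¹ with ha'
    set b' := t₀ * b * t₀⁻¹ with hb'
    set s' := t₀ * s * t₀⁻¹ with hs'
    have haO : a' ∈ O := hswap a ha
    have hbW : b' ∈ W := hback b hb
    have hc : ⁅a'⁻¹, b'⁻¹⁆ ∈ C :=
      S.comm _ (inv_mem haO.1) _ (inv_mem (hW.le hbW))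
    have hlam : lam ⁅a'⁻¹, b'⁻¹⁆ = 1 := (O.inv_mem haO).2 _ (W.inv_mem hbW)
    have hcO : a' * ⁅a'⁻¹, b'⁻¹⁆ ∈ O := mul_mem haO ((S.mono_T hT₁).C_le_orth hW.le hc)
    have hsT : s' ∈ T₁ := hnorm t₀ ht₀ s hs
    rw [show t₀ * (a * b * s) * t₀⁻¹ = b' * (a' * ⁅a'⁻¹, b'⁻¹⁆) * s' by
      simp only [ha', hb', hs', commutatorElement_def]; group, hF _ hbW _ hcO _ hsT, hF a ha b hb s hs]
    have e1 : f₂ (a' * ⁅a'⁻¹, b'⁻¹⁆ * s') = f₂ (a' * s') := by
      rw [show a' * ⁅a'⁻¹, b'⁻¹⁆ * s' = (a' * ⁅a'⁻¹, b'⁻¹⁆ * a'⁻¹) * (a' * s') by group,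
        (S.mono_T hT₁).scalar hf₂ (((S.mono_T hT₁).C_le_orth hW.le).trans le_sup_left) hd hf₂1 hf₂C
          (S.normC a' (S.mem_M_of_E haO.1) _ hc) (mul_mem (mem_sup_left haO) (mem_sup_right hsT)),
        S.lam_conj a' (S.mem_M_of_E haO.1) _ hc, hlam, one_mul]
    rw [e1]
    have e2 : f₂ (a' * s') = f (a * s) := by
      show f _ = _
      congr 1
      rw [ha', hs']; group
    have hmem : t₀⁻¹ * (b * s) * t₀ ∈ W ⊔ T₁ := by
      rw [show t₀⁻¹ * (b * s) * t₀ = (t₀⁻¹ * b * t₀) * (t₀⁻¹ * s * t₀⁻¹⁻¹) by group]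
      exact mul_mem (mem_sup_left (hinvW b hb)) (mem_sup_right (hT₁' s hs))
    have e3 : f (b' * s') = f₂ (b * s) := by
      show _ = f _
      rw [inv_inv, ← hf.class_fun (mem_sup_right hsq) hmem]
      congr 1
      rw [hb', hs']; group
    rw [e2, e3, mul_comm]
  obtain ⟨F', hF', hF'res⟩ := extend_cyclic (sup_le_sup_left hT₁ _) hnormG t₀ (mem_sup_right ht₀)
    (fun g hg => by
      obtain ⟨e, he, t, ht, rfl⟩ := S.exists_decomp le_rfl hg
      rcases hcover t ht with h | h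
      · exact ⟨0, e * t, mul_mem (mem_sup_left he) (mem_sup_right h), by simp⟩
      · refine ⟨1, t₀⁻¹ * e * t₀ * (t₀⁻¹ * t), mul_mem (mem_sup_left ?_) (mem_sup_right h), by group⟩
        simpa using S.normE t₀⁻¹ (S.mem_M_of_T (inv_mem ht₀)) e he)
    hirr (fun g hg x hx => by
      obtain ⟨e, he, t, ht, rfl⟩ := S.exists_decomp le_rfl hg
      have h2 : t * x * t⁻¹ ∈ E ⊔ T₁ :=
        Setting.conj_sup_mem (fun w hw => S.normE t (S.mem_M_of_T ht) w hw) (hnorm t ht) hx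
      rw [show e * t * x * (e * t)⁻¹ = e * (t * x * t⁻¹) * e⁻¹ by group,
        hFc.class_fun (mem_sup_left he) h2]
      rcases hcover t ht with h | h
      · exact hFc.class_fun (mem_sup_right h) hx
      · have h3 : t₀⁻¹ * t * x * (t₀⁻¹ * t)⁻¹ ∈ E ⊔ T₁ :=
          mul_mem (mul_mem (mem_sup_right h) hx) (inv_mem (mem_sup_right h))
        rw [show t * x * t⁻¹ = t₀ * (t₀⁻¹ * t * x * (t₀⁻¹ * t)⁻¹) * t₀⁻¹ by group, hinv₀ _ h3]
        exact hFc.class_fun (mem_sup_right h) hx)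
  refine ⟨d * d, F', hF', ?_, Nat.mul_pos hd hd, hFcard, fun c hc => ?_⟩
  · rw [hF'res 1 (one_mem _), hF1]
  · rw [hF'res c (mem_sup_left (S.le hc)), hFC c hc]

/-- Two Lagrangian subgroups exchanged by `T`. -/
theorem Setting.good_of_pair (S : Setting E C K T lam) {T₁ : Subgroup X} (hT₁ : T₁ ≤ T)
    (hnorm : ∀ t ∈ T, ∀ s ∈ T₁, t * s * t⁻¹ ∈ T₁) {t₀ : X} (ht₀ : t₀ ∈ T)
    (hsq : t₀ * t₀ ∈ T₁) (hcover : ∀ t ∈ T, t ∈ T₁ ∨ t₀⁻¹ * t ∈ T₁)
    {W W' : Subgroup X} (hW : Inv E C K T₁ W) (horth : (S.mono_T hT₁).orth W hW.le = W)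
    (hint : W ⊓ W' = C) (hprod : ∀ e ∈ E, ∃ a ∈ W, ∃ b ∈ W', e = a * b)
    (hswap : ∀ w ∈ W', t₀⁻¹ * w * t₀ ∈ W) (hswap' : ∀ w ∈ W, t₀ * w * t₀⁻¹ ∈ W')
    (hback : ∀ w ∈ W', t₀ * w * t₀⁻¹ ∈ W) : Good E C T lam := by
  classical
  haveI := Fintype.ofFinite X
  have S₁ := S.mono_T hT₁
  obtain ⟨mu, Sμ, hμ⟩ := S₁.isotropic_setting hW (fun a ha b hb => by
    rw [← horth] at ha
    exact ha.2 b hb)
  obtain ⟨f, fmul, fne, hf⟩ := Sμ.linear_of_le horth.le
  rw [horth] at fmul fne hf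
  set G := E ⊔ T₁ with hG
  set H := W ⊔ T₁ with hH
  set H' := W' ⊔ T₁ with hH'
  have hHG : H ≤ G := sup_le_sup_right hW.le _
  have hW'E : W' ≤ E := fun w hw => by
    have := S.normE t₀ (S.mem_M_of_T ht₀) _ (hW.le (hswap w hw))
    rwa [show t₀ * (t₀⁻¹ * w * t₀) * t₀⁻¹ = w by group] at this
  have hH'G : H' ≤ G := sup_le_sup_right hW'E _
  have hfC : ∀ c ∈ C, ∀ s ∈ T₁, f (c * s) = lam c := fun c hc s hs =>
    (hf c (hW.ge hc) s hs).trans (hμ c hc)
  have hf1 : f 1 = 1 := by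
    rw [← mul_one (1 : X), hfC 1 (one_mem C) 1 (one_mem T₁), S.lam_one]
  have hfchar : IsCharOn H f := isCharOn_of_mul fmul fne
  -- the induced character
  let F : X → ℂ := indOn H G f
  have hFc : IsCharOn G F := isCharOn_indOn hHG hfchar
  obtain ⟨r, hr⟩ : ∃ r, Nat.card W = r * Nat.card C := by
    obtain ⟨r, hr⟩ := card_dvd_of_le hW.ge
    exact ⟨r, hr.trans (mul_comm _ _)⟩
  have hWr : Nat.card W * r = Nat.card E := by
    have h1 := S₁.card_orth hW.le hW.ge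
    rw [horth] at h1
    conv_lhs at h1 => arg 2; rw [hr]
    rw [← mul_assoc] at h1
    exact Nat.eq_of_mul_eq_mul_right Nat.card_pos h1
  have hHcard : Nat.card H = Nat.card W * Nat.card T₁ :=
    S₁.card_sup hW.le le_rfl fun t ht e he => hW.conjT t ht e he
  have hGcard : Nat.card G = Nat.card E * Nat.card T₁ :=
    S₁.card_sup le_rfl le_rfl fun t ht e he => S.normE t (S.mem_M_of_T (hT₁ ht)) e he
  have hGM : G ≤ E ⊔ (K ⊔ T) := sup_le_sup_left (le_sup_of_le_right hT₁) _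
  have hFC : ∀ c ∈ C, F c = (r : ℂ) * lam c := by
    intro c hc
    show indOn H G f c = _
    rw [indOn, Finset.sum_congr rfl fun y _ => show (if y ∈ G ∧ y⁻¹ * c * y ∈ H then
        f (y⁻¹ * c * y) else 0) = (if y ∈ G then lam c else 0) by
      by_cases hy : y ∈ G
      · have hyM : y⁻¹ ∈ E ⊔ (K ⊔ T) := hGM (inv_mem hy)
        have h2 : y⁻¹ * c * y ∈ C := by simpa using S.normC y⁻¹ hyM c hc
        rw [if_pos ⟨hy, mem_sup_left (hW.ge h2)⟩, if_pos hy, ← mul_one (y⁻¹ * c * y),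
          hfC _ h2 1 (one_mem T₁)]
        simpa using S.lam_conj y⁻¹ hyM c hc
      · rw [if_neg fun h => hy h.1, if_neg hy],
      ← Finset.sum_filter, Finset.sum_const, nsmul_eq_mul, ← Fintype.card_subtype,
      ← Nat.card_eq_fintype_card, show Nat.card {y : X // y ∈ G} = Nat.card G from rfl, hGcard,
      hHcard, ← hWr]
    have h0 : ((Nat.card W : ℕ) : ℂ) ≠ 0 := Char.card_ne_zero_complex
    have h0' : ((Nat.card T₁ : ℕ) : ℂ) ≠ 0 := Char.card_ne_zero_complex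
    push_cast
    field_simp
  have hr0 : 0 < r := Nat.pos_of_ne_zero fun h => by
    rw [h, zero_mul] at hr
    exact Nat.card_pos.ne' hr
  have hF1 : F 1 = r := by rw [hFC 1 (one_mem C), S.lam_one, mul_one]
  have hcard : r * r * Nat.card C = Nat.card E := by rw [← hWr, hr]; ring
  have hirr := S₁.irr_sup hFc hF1 hcard hFC
  have hT₁' : ∀ s ∈ T₁, t₀⁻¹ * s * t₀⁻¹⁻¹ ∈ T₁ := hnorm _ (inv_mem ht₀)
  have hconjG : ∀ t ∈ T, ∀ x ∈ G, t * x * t⁻¹ ∈ G := fun t ht x hx =>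
    Setting.conj_sup_mem (fun w hw => S.normE t (S.mem_M_of_T ht) w hw) (hnorm t ht) hx
  have hF'c : IsCharOn G (fun x => F (t₀⁻¹ * x * t₀⁻¹⁻¹)) :=
    hFc.conj t₀⁻¹ fun x hx => hconjG _ (inv_mem ht₀) x hx
  have hF'C : ∀ c ∈ C, F (t₀⁻¹ * c * t₀⁻¹⁻¹) = (r : ℂ) * lam c := fun c hc => by
    rw [hFC _ (S.normC t₀⁻¹ (S.mem_M_of_T (inv_mem ht₀)) c hc),
      S.lam_conj t₀⁻¹ (S.mem_M_of_T (inv_mem ht₀)) c hc]
  have hF'1 : F (t₀⁻¹ * 1 * t₀⁻¹⁻¹) = (r : ℂ) := by rw [mul_one, mul_inv_cancel, hF1]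
  have hirr' := S₁.irr_sup hF'c hF'1 hcard hF'C
  -- the two characters are equal
  let f' : X → ℂ := fun x => f (t₀⁻¹ * x * t₀)
  have hH'conj : ∀ x : X, t₀⁻¹ * x * t₀ ∈ H ↔ x ∈ H' := by
    intro x
    constructor
    · intro hx
      have := Setting.conj_sup_mem (W := W') (W' := W) (T₁ := T₁) (t := t₀) hswap'
        (hnorm t₀ ht₀) hx
      rwa [show t₀ * (t₀⁻¹ * x * t₀) * t₀⁻¹ = x by group] at this
    · intro hx
      have := Setting.conj_sup_mem (W := W) (W' := W') (T₁ := T₁) (t := t₀⁻¹)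
        (fun w hw => by simpa using hswap w hw) hT₁' hx
      simpa using this
  have hF' : ∀ x, F (t₀⁻¹ * x * t₀⁻¹⁻¹) = (Nat.card H : ℂ)⁻¹ *
      ∑ y : X, if y ∈ G ∧ y⁻¹ * x * y ∈ H' then f' (y⁻¹ * x * y) else 0 := by
    intro x
    show indOn H G f _ = _
    rw [indOn]
    congr 1
    refine Fintype.sum_equiv ((MulAut.conj t₀).toEquiv) _ _ fun y => ?_
    have e : (MulAut.conj t₀).toEquiv y = t₀ * y * t₀⁻¹ := rfl
    rw [e]
    refine if_congr ?_ (by simp only [f']; congr 1; group) rfl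
    refine and_congr ⟨fun hy => hconjG t₀ ht₀ y hy, fun hy => ?_⟩ ?_
    · have := hconjG t₀⁻¹ (inv_mem ht₀) _ hy
      simpa [mul_assoc] using this
    · rw [← hH'conj]
      apply iff_of_eq
      congr 1
      group
  have hnonzero : ∑ x : G, F x * conj (F (t₀⁻¹ * (x : X) * t₀⁻¹⁻¹)) ≠ 0 := by
    have hsum : ∑ x : G, F x * conj (F (t₀⁻¹ * (x : X) * t₀⁻¹⁻¹)) =
        (Nat.card H : ℂ)⁻¹ * (Nat.card G : ℂ) *
          ∑ h ∈ Finset.univ.filter (· ∈ H), f h * conj (F (t₀⁻¹ * h * t₀⁻¹⁻¹)) := by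
      rw [← Finset.sum_subtype (p := (· ∈ G)) (Finset.univ.filter (· ∈ G)) (fun y => by simp)
        (fun x => F x * conj (F (t₀⁻¹ * x * t₀⁻¹⁻¹)))]
      simp only [F, indOn]
      rw [mul_assoc, Finset.sum_congr rfl fun x _ => by rw [mul_assoc, Finset.sum_mul],
        ← Finset.mul_sum, Finset.sum_comm]
      congr 1
      have hz : ∀ y : X, y ∈ G → ∑ x ∈ Finset.univ.filter (· ∈ G),
          (if y ∈ G ∧ y⁻¹ * x * y ∈ H then f (y⁻¹ * x * y) else 0) *
            conj (indOn H G f (t₀⁻¹ * x * t₀⁻¹⁻¹)) =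
          ∑ h ∈ Finset.univ.filter (· ∈ H), f h * conj (indOn H G f (t₀⁻¹ * h * t₀⁻¹⁻¹)) := by
        intro y hy
        rw [Finset.sum_filter, Finset.sum_filter]
        refine Fintype.sum_equiv ((MulAut.conj y⁻¹).toEquiv) _ _ fun x => ?_
        have e : (MulAut.conj y⁻¹).toEquiv x = y⁻¹ * x * y := by simp
        rw [e]
        by_cases hx : y⁻¹ * x * y ∈ H
        · have hxG : x ∈ G := by
            have := mul_mem (mul_mem hy (hHG hx)) (inv_mem hy)
            rwa [show y * (y⁻¹ * x * y) * y⁻¹ = x by group] at this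
          rw [if_pos hxG, if_pos ⟨hy, hx⟩, if_pos hx]
          congr 2
          have := hF'c.class_fun (inv_mem hy) hxG
          rw [inv_inv] at this
          exact this.symm
        · rw [if_neg hx]
          split_ifs with h1 h2 <;> first | rfl | simp_all
      have hz0 : ∀ y : X, y ∉ G → ∑ x ∈ Finset.univ.filter (· ∈ G),
          (if y ∈ G ∧ y⁻¹ * x * y ∈ H then f (y⁻¹ * x * y) else 0) *
            conj (indOn H G f (t₀⁻¹ * x * t₀⁻¹⁻¹)) = 0 := fun y hy =>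
        Finset.sum_eq_zero fun x _ => by rw [if_neg fun h => hy h.1, zero_mul]
      simp only [indOn] at hz hz0
      rw [← Finset.sum_filter_add_sum_filter_not Finset.univ (· ∈ G),
        Finset.sum_congr rfl fun y hy => hz y (Finset.mem_filter.1 hy).2,
        Finset.sum_eq_zero (s := Finset.univ.filter fun y => ¬ y ∈ G) fun y hy =>
          hz0 y (Finset.mem_filter.1 hy).2, add_zero, Finset.sum_const, nsmul_eq_mul,
        ← Fintype.card_subtype, ← Nat.card_eq_fintype_card]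
    rw [hsum]
    refine mul_ne_zero (mul_ne_zero (inv_ne_zero Char.card_ne_zero_complex)
      Char.card_ne_zero_complex) ?_
    have hcore : ∀ y ∈ G, ∑ h ∈ Finset.univ.filter (· ∈ H),
        f h * conj (if y⁻¹ * h * y ∈ H' then f' (y⁻¹ * h * y) else 0) =
          ((Finset.univ.filter (fun x : X => x ∈ H ∧ x ∈ H')).card : ℂ) := by
      intro y hy
      obtain ⟨e, he, s, hs, rfl⟩ := S.exists_decomp hT₁ hy
      obtain ⟨a, ha, b, hb, rfl⟩ := hprod e he
      have haH : a ∈ H := mem_sup_left ha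
      have hbH : b * s ∈ H' := mul_mem (mem_sup_left hb) (mem_sup_right hs)
      rw [show a * b * s = a * (b * s) by group]
      set b' := b * s
      have hf'mul : ∀ u ∈ H', ∀ v ∈ H', f' (u * v) = f' u * f' v := fun u hu v hv => by
        show f _ = f _ * f _
        rw [← fmul _ ((hH'conj u).2 hu) _ ((hH'conj v).2 hv)]
        congr 1; group
      rw [Finset.card_filter, Nat.cast_sum, Finset.sum_filter]
      refine Fintype.sum_equiv ((MulAut.conj a⁻¹).toEquiv) _ _ fun h => ?_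
      have e1 : (MulAut.conj a⁻¹).toEquiv h = a⁻¹ * h * a := by simp
      rw [e1]
      have hmemH : a⁻¹ * h * a ∈ H ↔ h ∈ H := by
        constructor
        · intro hh
          have := mul_mem (mul_mem haH hh) (inv_mem haH)
          rwa [show a * (a⁻¹ * h * a) * a⁻¹ = h by group] at this
        · exact fun hh => mul_mem (mul_mem (inv_mem haH) hh) haH
      by_cases hh : h ∈ H
      · have hmemH' : (a * b')⁻¹ * h * (a * b') ∈ H' ↔ a⁻¹ * h * a ∈ H' := by
          constructor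
          · intro h2
            have := mul_mem (mul_mem hbH h2) (inv_mem hbH)
            rwa [show b' * ((a * b')⁻¹ * h * (a * b')) * b'⁻¹ = a⁻¹ * h * a by group] at this
          · intro h2
            have := mul_mem (mul_mem (inv_mem hbH) h2) hbH
            rwa [show b'⁻¹ * (a⁻¹ * h * a) * b' = (a * b')⁻¹ * h * (a * b') by group] at this
        by_cases h2 : a⁻¹ * h * a ∈ H'
        · rw [if_pos hh, if_pos (hmemH'.2 h2), if_pos ⟨hmemH.2 hh, h2⟩, Nat.cast_one]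
          -- the common subgroup
          obtain ⟨w, hw, s', hs', hh'⟩ := S.exists_decomp hT₁
            (sup_le_sup_right hW.le _ (hmemH.2 hh))
          have hwW : w ∈ W ∧ w ∈ W' := by
            constructor
            · have hd : ∃ w₁ ∈ W, ∃ s₁ ∈ T₁, a⁻¹ * h * a = w₁ * s₁ := by
                obtain ⟨w₁, hw₁, s₁, hs₁, e₁⟩ := Sμ.exists_decomp le_rfl
                  (show a⁻¹ * h * a ∈ (S₁.orth W hW.le) ⊔ T₁ by rw [horth]; exact hmemH.2 hh)
                exact ⟨w₁, horth ▸ hw₁, s₁, hs₁, e₁⟩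
              obtain ⟨w₁, hw₁, s₁, hs₁, e₁⟩ := hd
              rw [(S₁.decomp_unique hw (hW.le hw₁) hs' hs₁ (hh'.symm.trans e₁)).1]
              exact hw₁
            · have h3 := (hH'conj _).2 h2
              obtain ⟨w₁, hw₁, s₁, hs₁, e₁⟩ := Sμ.exists_decomp le_rfl
                (show t₀⁻¹ * (a⁻¹ * h * a) * t₀ ∈ (S₁.orth W hW.le) ⊔ T₁ by rw [horth]; exact h3)
              have hw₁W : w₁ ∈ W := horth ▸ hw₁
              have e₂ : a⁻¹ * h * a = (t₀ * w₁ * t₀⁻¹) * (t₀ * s₁ * t₀⁻¹) := by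
                rw [show (t₀ * w₁ * t₀⁻¹) * (t₀ * s₁ * t₀⁻¹) = t₀ * (w₁ * s₁) * t₀⁻¹ by group,
                  ← e₁]
                group
              rw [(S₁.decomp_unique hw (hW'E (hswap' w₁ hw₁W)) hs' (hnorm t₀ ht₀ s₁ hs₁)
                (hh'.symm.trans e₂)).1]
              exact hswap' w₁ hw₁W
          have hwC : w ∈ C := hint ▸ hwW
          have hv1 : f h = lam w := by
            have e3 : f (a⁻¹ * h * a) = f h := by
              rw [fmul _ (mul_mem (inv_mem haH) hh) _ haH, fmul _ (inv_mem haH) _ hh,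
                mul_right_comm, ← fmul _ (inv_mem haH) _ haH, inv_mul_cancel, hf1, one_mul]
            rw [← e3, hh', hfC w hwC s' hs']
          have hv2 : f' ((a * b')⁻¹ * h * (a * b')) = lam w := by
            have hf'1 : f' 1 = 1 := by show f _ = 1; rw [mul_one, inv_mul_cancel, hf1]
            rw [show (a * b')⁻¹ * h * (a * b') = b'⁻¹ * (a⁻¹ * h * a) * b' by group,
              hf'mul _ (mul_mem (inv_mem hbH) h2) _ hbH, hf'mul _ (inv_mem hbH) _ h2,
              mul_right_comm, ← hf'mul _ (inv_mem hbH) _ hbH, inv_mul_cancel, hf'1, one_mul, hh']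
            show f _ = _
            have hc' : t₀⁻¹ * w * t₀⁻¹⁻¹ ∈ C :=
              S.normC t₀⁻¹ (S.mem_M_of_T (inv_mem ht₀)) w hwC
            rw [show t₀⁻¹ * (w * s') * t₀ = (t₀⁻¹ * w * t₀⁻¹⁻¹) * (t₀⁻¹ * s' * t₀⁻¹⁻¹) by group,
              hfC _ hc' _ (hT₁' s' hs'), S.lam_conj t₀⁻¹ (S.mem_M_of_T (inv_mem ht₀)) w hwC]
          rw [hv1, hv2]
          rcases S.lam_val w hwC with e | e <;> rw [e] <;> simp
        · rw [if_pos hh, if_neg fun hc => h2 (hmemH'.1 hc), if_neg fun hc => h2 hc.2, map_zero,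
            mul_zero, Nat.cast_zero]
      · rw [if_neg hh, if_neg fun hc => hh (hmemH.1 hc.1), Nat.cast_zero]
    have hFh : ∀ h : X, conj (F (t₀⁻¹ * h * t₀⁻¹⁻¹)) = (Nat.card H : ℂ)⁻¹ *
        ∑ y ∈ Finset.univ.filter (· ∈ G),
          conj (if y⁻¹ * h * y ∈ H' then f' (y⁻¹ * h * y) else 0) := by
      intro h
      rw [hF', map_mul, map_inv₀, map_natCast, map_sum, Finset.sum_filter]
      congr 1
      refine Finset.sum_congr rfl fun y _ => ?_
      by_cases hy : y ∈ G <;> simp [hy]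
    simp only [hFh, Finset.mul_sum]
    rw [Finset.sum_comm, Finset.sum_congr rfl fun y hy => by
      rw [Finset.sum_congr rfl fun h _ => mul_left_comm (f h) _ _, ← Finset.mul_sum,
        hcore y (Finset.mem_filter.1 hy).2], Finset.sum_const, nsmul_eq_mul]
    have hpos : 0 < (Finset.univ.filter (fun x : X => x ∈ H ∧ x ∈ H')).card :=
      Finset.card_pos.2 ⟨1, Finset.mem_filter.2 ⟨Finset.mem_univ _, one_mem _, one_mem _⟩⟩
    have hposG : 0 < (Finset.univ.filter (fun x : X => x ∈ G)).card :=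
      Finset.card_pos.2 ⟨1, Finset.mem_filter.2 ⟨Finset.mem_univ _, one_mem _⟩⟩
    exact mul_ne_zero (Nat.cast_ne_zero.2 hposG.ne')
      (mul_ne_zero (inv_ne_zero Char.card_ne_zero_complex) (Nat.cast_ne_zero.2 hpos.ne'))
  have hinv₀ : ∀ x ∈ G, F (t₀⁻¹ * x * t₀⁻¹⁻¹) = F x := by
    intro x hx
    by_contra hne
    haveI := Fintype.ofFinite G
    refine hnonzero ?_
    have h0 := Char.classInner_irr_ne hirr hirr' fun e => hne (congrFun e ⟨x, hx⟩).symm
    rw [Cfsg.classInner, mul_eq_zero] at h0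
    convert h0.resolve_left (inv_ne_zero Char.card_ne_zero_complex)
  obtain ⟨F', hF'ext, hF'res⟩ := extend_cyclic (sup_le_sup_left hT₁ _)
    (fun g hg x hx => by
      obtain ⟨e, he, t, ht, rfl⟩ := S.exists_decomp le_rfl hg
      rw [show e * t * x * (e * t)⁻¹ = e * (t * x * t⁻¹) * e⁻¹ by group]
      exact mul_mem (mul_mem (mem_sup_left he) (hconjG t ht x hx)) (inv_mem (mem_sup_left he)))
    t₀ (mem_sup_right ht₀)
    (fun g hg => by
      obtain ⟨e, he, t, ht, rfl⟩ := S.exists_decomp le_rfl hg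
      rcases hcover t ht with h | h
      · exact ⟨0, e * t, mul_mem (mem_sup_left he) (mem_sup_right h), by simp⟩
      · refine ⟨1, t₀⁻¹ * e * t₀ * (t₀⁻¹ * t), mul_mem (mem_sup_left ?_) (mem_sup_right h), by group⟩
        simpa using S.normE t₀⁻¹ (S.mem_M_of_T (inv_mem ht₀)) e he)
    hirr (fun g hg x hx => by
      obtain ⟨e, he, t, ht, rfl⟩ := S.exists_decomp le_rfl hg
      rw [show e * t * x * (e * t)⁻¹ = e * (t * x * t⁻¹) * e⁻¹ by group,
        hFc.class_fun (mem_sup_left he) (hconjG t ht x hx)]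
      rcases hcover t ht with h | h
      · exact hFc.class_fun (mem_sup_right h) hx
      · have h3 : t₀⁻¹ * t * x * (t₀⁻¹ * t)⁻¹ ∈ G :=
          mul_mem (mul_mem (mem_sup_right h) hx) (inv_mem (mem_sup_right h))
        rw [show t * x * t⁻¹ = t₀ * (t₀⁻¹ * t * x * (t₀⁻¹ * t)⁻¹) * t₀⁻¹ by group,
          ← hinv₀ _ (hconjG t₀ ht₀ _ h3)]
        rw [show t₀⁻¹ * (t₀ * (t₀⁻¹ * t * x * (t₀⁻¹ * t)⁻¹) * t₀⁻¹) * t₀⁻¹⁻¹ =
          t₀⁻¹ * t * x * (t₀⁻¹ * t)⁻¹ by group]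
        exact hFc.class_fun (mem_sup_right h) hx)
  refine ⟨r, F', hF'ext, ?_, hr0, hcard, fun c hc => ?_⟩
  · rw [hF'res 1 (one_mem _), hF1]
  · rw [hF'res c (mem_sup_left (S.le hc)), hFC c hc]

end Cfsg.Agent.Char8Extra
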